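import Cfsg.Agent.H163.E6.Defs
import Cfsg.Agent.H333.E6Act
import Cfsg.Agent.H952.F4.Count
import Cfsg.Agent.H952.F4.Jord
import Cfsg.Agent.ChevalleyStructure.E6Min.Elim
import Cfsg.Agent.S1054
import Cfsg.Agent.S1063

/-!
# S5927: counting (helper927)

* `irred`, `irred'` : `V`, `V'` are irreducible;
* `centralizer_eq`, `card_lt`, `no_line`, `no_fixed`, `no_small`.
-/

set_option autoImplicit false
set_option linter.unusedSectionVars false
set_option linter.unusedVariables false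

namespace Cfsg.Agent.H163.E6.Cnt

open Cfsg Cfsg.Lie Module
open Cfsg.Agent.ChevalleyStructure.E6Min.Tables Cfsg.Agent.ChevalleyStructure.E6Min.Basic
  Cfsg.Agent.ChevalleyStructure.E6Min.Adjoint
open Cfsg.Agent.ChevalleyStructure.E6Min.Forms (rel rt e e_apply)
open Cfsg.Agent.ChevalleyStructure.E6Min.Elim (rt_spec)
open Cfsg.Agent.H952.F4 (matRep MaxAlt)
open scoped Matrix

universe u

variable {F : Type u} [Field F]

/-! ### irreducibility -/

theorem conn_all : ∀ x y : I27, x = y ∨ rel x y = 1 ∨ ∃ k, rel x k = 1 ∧ rel k y = 1 := by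
  decide +kernel

section irr

variable {W : Submodule F (I27 → F)} (hW : ∀ g : ↥(Zgrp F), ∀ w ∈ W, V F g w ∈ W)

include hW

theorem Nm_stable {r : ℕ} (hr : r < 72) {w : I27 → F} (hw : w ∈ W) : Nm F r *ᵥ w ∈ W := by
  have h1 := hW ⟨zU r 1, zU_mem r 1⟩ w hw
  rw [V_apply] at h1
  have h2 : ((zU r (1 : F) : GL I27 F) : Matrix I27 I27 F) *ᵥ w = w + Nm F r *ᵥ w := by
    rw [coe_zU hr, zM_def, Matrix.add_mulVec, Matrix.one_mulVec, one_smul]
  have h3 : w + Nm F r *ᵥ w ∈ W := by rw [← h2]; exact h1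
  have h4 := sub_mem h3 hw
  rwa [add_sub_cancel_left] at h4

theorem diag_stable {r : ℕ} (hr : r < 72) {w : I27 → F} (hw : w ∈ W) : (fun y => ((ind r y : ℤ) : F) * w y) ∈ W := by
  have h1 := Nm_stable hW hr (Nm_stable hW (r := 71 - r) (by omega) hw)
  rw [Matrix.mulVec_mulVec, Nm_mul_opp hr] at h1
  have h2 : (Matrix.diagonal (fun x => ((ind r x : ℤ) : F)) *ᵥ w) = fun y => ((ind r y : ℤ) : F) * w y := by
    funext y
    rw [Matrix.mulVec_diagonal]
  rwa [h2] at h1

omit hW in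
theorem ind_cases (r : ℕ) (x : I27) : ind r x = 0 ∨ ind r x = 1 := by
  by_cases h : sg r x = 0
  · exact Or.inl (ind_of_eq h)
  · exact Or.inr (ind_of_ne h)

theorem proj_stable (x : I27) {w : I27 → F} (hw : w ∈ W) : ∀ n, n ≤ 72 →
    (fun y => (∏ r ∈ Finset.range n, if ind r y = ind r x then (1 : F) else 0) * w y) ∈ W := by
  intro n
  induction n with
  | zero =>
    intro _
    simpa using hw
  | succ n ih =>
    intro hn
    have h1 := ih (by omega)
    have h2 := diag_stable hW (r := n) (by omega) h1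
    rcases ind_cases n x with h3 | h3
    · have h4 := sub_mem h1 h2
      convert h4 using 1
      funext y
      rw [Finset.prod_range_succ, Pi.sub_apply, h3]
      rcases ind_cases n y with h5 | h5
      · rw [h5, if_pos rfl]; push_cast; ring
      · rw [h5, if_neg (by norm_num)]; push_cast; ring
    · convert h2 using 1
      funext y
      rw [Finset.prod_range_succ, h3]
      rcases ind_cases n y with h5 | h5
      · rw [h5, if_neg (by norm_num)]; push_cast; ring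
      · rw [h5, if_pos rfl]; push_cast; ring

omit hW in
theorem ind_sep {x y : I27} (h : x ≠ y) : ∃ r < 72, ind r y ≠ ind r x := by
  have h1 := allLt_spec (allLt_spec Act.sep_all _ (code_lt y)) _ (code_lt x)
  rw [Bool.or_eq_true, beq_iff_eq] at h1
  rcases h1 with h1 | h1
  · exfalso
    apply h
    rw [← dec_code x, ← dec_code y, h1]
  · obtain ⟨r, hr, h2⟩ := Act.exists_of_not_allLt h1
    exact ⟨r, hr, by rw [beq_eq_false_iff_ne] at h2; exact h2⟩

theorem basis_mem {x : I27} {w : I27 → F} (hw : w ∈ W) (hx : w x ≠ 0) : e F x ∈ W := by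
  have h1 := proj_stable hW x hw 72 le_rfl
  have h2 : (fun y => (∏ r ∈ Finset.range 72, if ind r y = ind r x then (1 : F) else 0) * w y) = w x • e F x := by
    funext y
    rw [Pi.smul_apply, e_apply, smul_eq_mul]
    by_cases h : y = x
    · rw [h, if_pos rfl, mul_one, Finset.prod_eq_one, one_mul]
      intro r _
      rw [if_pos rfl]
    · obtain ⟨r, hr, h3⟩ := ind_sep (Ne.symm h)
      rw [if_neg h, mul_zero, Finset.prod_eq_zero (Finset.mem_range.2 hr), zero_mul]
      rw [if_neg h3]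
  rw [h2] at h1
  have h3 := W.smul_mem (w x)⁻¹ h1
  rwa [smul_smul, inv_mul_cancel₀ hx, one_smul] at h3

theorem step_mem {i j : I27} (h : rel i j = 1) (hi : e F i ∈ W) : e F j ∈ W := by
  obtain ⟨hr, hsg, hsr, -⟩ := rt_spec h
  have h1 := Nm_stable hW hr hi
  refine basis_mem hW h1 (x := j) ?_
  rw [Nm_mulVec, hsr, e_apply, if_pos rfl, mul_one]
  exact Act.cast_sg_ne hsg

theorem irred (h0 : W ≠ ⊥) : W = ⊤ := by
  obtain ⟨w, hw, hw0⟩ := Submodule.exists_mem_ne_zero_of_ne_bot h0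
  obtain ⟨x, hx⟩ : ∃ x, w x ≠ 0 := by
    by_contra hcon
    push Not at hcon
    exact hw0 (funext hcon)
  have h1 := basis_mem hW hw hx
  have h2 : ∀ y, e F y ∈ W := by
    intro y
    rcases conn_all x y with rfl | h | ⟨k, hk, hk'⟩
    · exact h1
    · exact step_mem hW h h1
    · exact step_mem hW hk' (step_mem hW hk h1)
  rw [eq_top_iff]
  intro v _
  have h3 : v = ∑ k, v k • e F k := by
    funext j
    rw [Finset.sum_apply, Finset.sum_eq_single j]
    · rw [Pi.smul_apply, e_apply, if_pos rfl, smul_eq_mul, mul_one]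
    · intro k _ hk
      rw [Pi.smul_apply, e_apply, if_neg (Ne.symm hk), smul_zero]
    · intro h; exact absurd (Finset.mem_univ _) h
  rw [h3]
  exact Submodule.sum_mem _ fun k _ => W.smul_mem _ (h2 k)

end irr

theorem irred' {W : Submodule F (I27 → F)} (hW : ∀ g : ↥(Zgrp F), ∀ w ∈ W, V' F g w ∈ W) (h0 : W ≠ ⊥) : W = ⊤ := by
  refine irred (fun g w hw => ?_) h0
  rw [← Act.V'_gz]
  exact hW _ w hw

/-! ### the maximal subgroup and its preimage -/

variable {H : Subgroup ↥(chevE6.group F)} {n : ℕ} {φ : ↥(alternatingGroup (Fin n)) →* ↥(chevE6.group F)}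

theorem simpleE6 : IsSimpleGroup ↥(chevE6.group F) := (S1054.result chevE6 (by simp)).1

theorem alt_nonab (hn : 5 ≤ n) : ∃ a b : ↥(alternatingGroup (Fin n)), a * b ≠ b * a := by
  by_contra hcon
  push Not at hcon
  have h4 : 4 ≤ Nat.card (Fin n) := by rw [Nat.card_eq_fintype_card, Fintype.card_fin]; omega
  have h1 := alternatingGroup.center_eq_bot h4
  have h2 : Subgroup.center ↥(alternatingGroup (Fin n)) = ⊤ := by
    rw [eq_top_iff]
    intro x _
    rw [Subgroup.mem_center_iff]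
    intro y
    exact hcon y x
  have h3 : Nontrivial ↥(alternatingGroup (Fin n)) :=
    alternatingGroup.nontrivial_of_three_le_card (by rw [Nat.card_eq_fintype_card, Fintype.card_fin]; omega)
  rw [h1] at h2
  exact bot_ne_top h2

/-- the centralizer of the alternating group is trivial -/
theorem centralizer_eq (hM : MaxAlt H n φ) (hn : 5 ≤ n) {z : ↥(chevE6.group F)} (hz : ∀ a, φ a * z = z * φ a) :
    z = 1 := by
  have hs : IsSimpleGroup ↥(chevE6.group F) := simpleE6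
  set C : Subgroup ↥(chevE6.group F) := Subgroup.centralizer (φ.range : Set ↥(chevE6.group F)) with hC
  have memC : ∀ x, x ∈ C ↔ ∀ a, φ a * x = x * φ a := by
    intro x
    rw [hC, Subgroup.mem_centralizer_iff]
    constructor
    · intro h a; exact h _ ⟨a, rfl⟩
    · rintro h _ ⟨a, rfl⟩; exact h a
  obtain ⟨a, b, hab⟩ := alt_nonab hn
  have hCn : ∀ h ∈ H, ∀ c ∈ C, h * c * h⁻¹ ∈ C := by
    intro h hh c hc
    rw [memC] at hc ⊢
    intro a
    obtain ⟨a', ha'⟩ := hM.norm h⁻¹ (inv_mem hh) (φ a) ⟨a, rfl⟩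
    rw [inv_inv] at ha'
    have h1 := hc a'
    rw [ha'] at h1
    calc φ a * (h * c * h⁻¹) = h * ((h⁻¹ * φ a * h) * c) * h⁻¹ := by group
      _ = h * (c * (h⁻¹ * φ a * h)) * h⁻¹ := by rw [h1]
      _ = h * c * h⁻¹ * φ a := by group
  have hCH : C ≤ H := by
    by_contra hcon
    have h1 : H ⊔ C = ⊤ := by
      apply hM.coatom.2
      refine lt_of_le_of_ne le_sup_left fun h => hcon ?_
      rw [h]; exact le_sup_right
    have h2 : φ.range.Normal := by
      constructor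
      intro x hx g
      have hg : g ∈ H ⊔ C := by rw [h1]; trivial
      have h3 : ∀ g ∈ H ⊔ C, ∀ x ∈ φ.range, g * x * g⁻¹ ∈ φ.range := by
        intro g hg
        rw [Subgroup.sup_eq_closure] at hg
        induction hg using Subgroup.closure_induction with
        | mem y hy =>
          intro x hx
          rcases hy with hy | hy
          · exact hM.norm y hy x hx
          · obtain ⟨a, rfl⟩ := hx
            have := (memC y).1 hy a
            rw [← this, mul_inv_cancel_right]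
            exact ⟨a, rfl⟩
        | one => intro x hx; simpa using hx
        | mul y z _ _ hy hz =>
          intro x hx
          have := hy _ (hz x hx)
          have e : y * (z * x * z⁻¹) * y⁻¹ = y * z * x * (y * z)⁻¹ := by group
          rwa [e] at this
        | inv y hy hy' =>
          -- conjugation by `y` maps the finite group `φ.range` onto itself
          intro x hx
          have hinj : Function.Injective fun x : φ.range => (⟨y * x.1 * y⁻¹, hy' x.1 x.2⟩ : φ.range) := by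
            intro x x' h
            have h4 := congrArg Subtype.val h
            apply Subtype.ext
            simpa using h4
          have hfin : Finite φ.range := Finite.of_surjective φ.rangeRestrict φ.rangeRestrict_surjective
          obtain ⟨x', hx'⟩ := Finite.surjective_of_injective hinj ⟨x, hx⟩
          have h5 : y * x'.1 * y⁻¹ = x := congrArg Subtype.val hx'
          have h6 : y⁻¹ * x * y⁻¹⁻¹ = x'.1 := by rw [← h5]; group
          rw [h6]
          exact x'.2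
      exact h3 g hg x hx
    rcases h2.eq_bot_or_eq_top with h3 | h3
    · apply hab
      apply hM.inj
      have h4 : ∀ a, φ a = 1 := fun a => by
        have : φ a ∈ φ.range := ⟨a, rfl⟩
        rwa [h3, Subgroup.mem_bot] at this
      rw [h4, h4]
    · exact hM.coatom.1 (top_le_iff.1 (h3 ▸ hM.le))
  have hbot : C = ⊥ := by
    by_contra hcon
    have h1 := hM.min C hCH hCn hcon
    apply hab
    apply hM.inj
    rw [map_mul, map_mul]
    exact (memC _).1 (h1 ⟨b, rfl⟩) a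
  have h1 : z ∈ C := (memC z).2 hz
  rwa [hbot, Subgroup.mem_bot] at h1

section card

variable [Finite F]

theorem card_le (hM : MaxAlt H n φ) (hn' : n ≤ 12) : Nat.card ↥H ≤ 479001600 := by
  refine hM.card.trans ?_
  split_ifs
  · norm_num
  · exact (Nat.factorial_le hn').trans (by decide)

theorem two_le_card : 2 ≤ Nat.card F := by
  have : Nontrivial F := inferInstance
  exact Finite.one_lt_card

theorem order : Nat.gcd 3 (Nat.card F - 1) * Nat.card ↥(chevE6.group F) = Nat.card F ^ 36 * (Nat.card F ^ 2 - 1) *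
    (Nat.card F ^ 5 - 1) * (Nat.card F ^ 6 - 1) * (Nat.card F ^ 8 - 1) * (Nat.card F ^ 9 - 1) * (Nat.card F ^ 12 - 1) := by
  have := Fintype.ofFinite F
  exact S1063.result (F := F) Nat.card_eq_fintype_card.symm

/-- bounds for `n` and the order of `H` -/
theorem card_lt (hn : 5 ≤ n) (hn' : n ≤ 12) (hM : MaxAlt H n φ) :
    2 * Nat.card ↥H * Nat.card F ^ 27 < Nat.card ↥(chevE6.group F) := by
  have h1 := card_le hM hn'
  have hq := two_le_card (F := F)
  have ho := order (F := F)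
  set q := Nat.card F with hqdef
  have hg : Nat.gcd 3 (q - 1) ≤ 3 := Nat.gcd_le_left _ (by norm_num)
  have h2 : q ^ 27 * (2 ^ 9 * 3 * 31 * 63 * 255 * 511 * 4095) ≤ 3 * Nat.card ↥(chevE6.group F) := by
    refine le_trans ?_ (Nat.mul_le_mul_right _ hg)
    rw [ho]
    have a2 : 2 ^ 2 ≤ q ^ 2 := Nat.pow_le_pow_left hq 2
    have a5 : 2 ^ 5 ≤ q ^ 5 := Nat.pow_le_pow_left hq 5
    have a6 : 2 ^ 6 ≤ q ^ 6 := Nat.pow_le_pow_left hq 6
    have a8 : 2 ^ 8 ≤ q ^ 8 := Nat.pow_le_pow_left hq 8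
    have a9 : 2 ^ 9 ≤ q ^ 9 := Nat.pow_le_pow_left hq 9
    have a12 : 2 ^ 12 ≤ q ^ 12 := Nat.pow_le_pow_left hq 12
    calc q ^ 27 * (2 ^ 9 * 3 * 31 * 63 * 255 * 511 * 4095)
        = q ^ 27 * 2 ^ 9 * 3 * 31 * 63 * 255 * 511 * 4095 := by ring
      _ ≤ q ^ 27 * q ^ 9 * (q ^ 2 - 1) * (q ^ 5 - 1) * (q ^ 6 - 1) * (q ^ 8 - 1) * (q ^ 9 - 1) * (q ^ 12 - 1) := by
        gcongr <;> omega
      _ = _ := by ring
  have hpos : 0 < q ^ 27 := by positivity
  have h3 : 2 * Nat.card ↥H * q ^ 27 ≤ 2 * 479001600 * q ^ 27 := by gcongr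
  nlinarith

/-! ### counting subspaces -/

/-- the diagonal representation on `k`-tuples -/
noncomputable def rk (k : ℕ) (ρ : Representation F ↥(Zgrp F) (I27 → F)) :
    Representation F ↥(Zgrp F) (Fin k → (I27 → F)) where
  toFun g := { toFun := fun b i => ρ g (b i)
               map_add' := fun b c => by funext i; exact map_add (ρ g) _ _
               map_smul' := fun t b => by funext i; exact map_smul (ρ g) _ _ }
  map_one' := by
    refine LinearMap.ext fun b => ?_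
    funext i
    show ρ 1 (b i) = b i
    rw [map_one]; rfl
  map_mul' g h := by
    refine LinearMap.ext fun b => ?_
    funext i
    show ρ (g * h) (b i) = ρ g (ρ h (b i))
    rw [map_mul]; rfl

theorem rk_apply (k : ℕ) (ρ : Representation F ↥(Zgrp F) (I27 → F)) (g : ↥(Zgrp F)) (b : Fin k → (I27 → F)) (i : Fin k) :
    rk k ρ g b i = ρ g (b i) := rfl

/-- the stabilizer of a subspace -/
def St (ρ : Representation F ↥(Zgrp F) (I27 → F)) (W : Submodule F (I27 → F)) : Subgroup ↥(Zgrp F) where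
  carrier := {g | ∀ w, ρ g w ∈ W ↔ w ∈ W}
  one_mem' := by intro w; rw [map_one]; rfl
  mul_mem' := by
    intro g h hg hh w
    rw [map_mul, Module.End.mul_apply, hg, hh]
  inv_mem' := by
    intro g hg w
    have h1 := hg (ρ g⁻¹ w)
    rw [← Module.End.mul_apply, ← map_mul, mul_inv_cancel, map_one, Module.End.one_apply] at h1
    exact h1.symm

theorem ρ_inv (ρ : Representation F ↥(Zgrp F) (I27 → F)) (g : ↥(Zgrp F)) (w : I27 → F) : ρ g⁻¹ (ρ g w) = w := by
  rw [← Module.End.mul_apply, ← map_mul, inv_mul_cancel, map_one, Module.End.one_apply]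

theorem ρ_inv' (ρ : Representation F ↥(Zgrp F) (I27 → F)) (g : ↥(Zgrp F)) (w : I27 → F) : ρ g (ρ g⁻¹ w) = w := by
  rw [← Module.End.mul_apply, ← map_mul, mul_inv_cancel, map_one, Module.End.one_apply]

theorem comap_le_St {ρ : Representation F ↥(Zgrp F) (I27 → F)} {W : Submodule F (I27 → F)} (hW : Stab ρ H W) :
    H.comap (ad F) ≤ St ρ W := by
  intro g hg w
  constructor
  · intro h
    have h1 := hW g⁻¹ (by rw [map_inv]; exact inv_mem hg) _ h
    rwa [ρ_inv] at h1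
  · exact hW g hg w

/-- the stabilizer of a proper non-zero `H`-stable subspace -/
theorem St_eq (hM : IsCoatom H) {ρ : Representation F ↥(Zgrp F) (I27 → F)} (hρ : ρ = V F ∨ ρ = V' F)
    {W : Submodule F (I27 → F)} (hW : Stab ρ H W) (h0 : W ≠ ⊥) (h1 : W ≠ ⊤) : St ρ W = H.comap (ad F) := by
  have h2 := comap_le_St hW
  have h3 : H ≤ (St ρ W).map (ad F) := by
    intro h hh
    obtain ⟨g, rfl⟩ := ad_surjective h
    exact ⟨g, h2 hh, rfl⟩
  have hker : ∀ g, ad F g = 1 → g ∈ St ρ W := fun g hg => h2 (by rw [Subgroup.mem_comap, hg]; exact one_mem _)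
  rcases eq_or_lt_of_le h3 with h4 | h4
  · refine le_antisymm (fun g hg => ?_) h2
    rw [Subgroup.mem_comap, h4]
    exact ⟨g, hg, rfl⟩
  · exfalso
    apply h1
    have h5 : (St ρ W).map (ad F) = ⊤ := hM.2 _ h4
    have h6 : ∀ g, g ∈ St ρ W := by
      intro g
      have h7 : ad F g ∈ (St ρ W).map (ad F) := by rw [h5]; trivial
      obtain ⟨s, hs, hs'⟩ := h7
      have h8 : s⁻¹ * g ∈ St ρ W := hker _ (by rw [map_mul, map_inv, hs', inv_mul_cancel])
      have h9 := mul_mem hs h8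
      rwa [mul_inv_cancel_left] at h9
    rcases hρ with rfl | rfl
    · exact irred (fun g w hw => (h6 g w).2 hw) h0
    · exact irred' (fun g w hw => (h6 g w).2 hw) h0

/-- counting the bases of `W` -/
theorem count_sub (hM : IsCoatom H) {ρ : Representation F ↥(Zgrp F) (I27 → F)} (hρ : ρ = V F ∨ ρ = V' F)
    {W : Submodule F (I27 → F)} (hW : Stab ρ H W) {k : ℕ} (hk : finrank F ↥W = k) (h1 : 1 ≤ k) (h27 : k < 27) :
    (∏ i : Fin k, (Nat.card F ^ k - Nat.card F ^ i.val)) * Nat.card ↥(chevE6.group F) ≤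
      Nat.card ↥H * Nat.card F ^ (27 * k) := by
  classical
  have h9 : finrank F (I27 → F) = 27 := by rw [finrank_fintype_fun_eq_card]; rfl
  have hbot : W ≠ ⊥ := by
    rintro rfl
    rw [finrank_bot] at hk
    omega
  have htop : W ≠ ⊤ := by
    rintro rfl
    rw [finrank_top, h9] at hk
    omega
  have hSt := St_eq hM hρ hW hbot htop
  have hfinF := Fintype.ofFinite F
  -- the set of bases
  set S : Set (Fin k → (I27 → F)) := Set.range fun s : {s : Fin k → ↥W // LinearIndependent F s} =>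
    fun i => ((s.1 i : ↥W) : I27 → F) with hS
  have hinj : Function.Injective fun s : {s : Fin k → ↥W // LinearIndependent F s} =>
      (fun i => ((s.1 i : ↥W) : I27 → F) : Fin k → (I27 → F)) := by
    intro s s' h
    apply Subtype.ext
    funext i
    exact Subtype.ext (congrFun h i)
  have hcardS : Nat.card S = ∏ i : Fin k, (Nat.card F ^ k - Nat.card F ^ i.val) := by
    rw [Nat.card_congr (Equiv.ofInjective _ hinj).symm]
    have := card_linearIndependent (K := F) (V := ↥W) (k := k) (le_of_eq hk.symm)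
    rw [this, hk]
    simp only [Nat.card_eq_fintype_card]
  have hspan : ∀ s : {s : Fin k → ↥W // LinearIndependent F s},
      Submodule.span F (Set.range fun i => ((s.1 i : ↥W) : I27 → F)) = W := by
    intro s
    have hne : Nonempty (Fin k) := ⟨⟨0, h1⟩⟩
    have h2 : Submodule.span F (Set.range s.1) = ⊤ :=
      s.2.span_eq_top_of_card_eq_finrank (by rw [Fintype.card_fin, hk])
    have h3 : (Set.range fun i => ((s.1 i : ↥W) : I27 → F)) = W.subtype '' Set.range s.1 := by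
      rw [← Set.range_comp]; rfl
    rw [h3, ← Submodule.map_span, h2, Submodule.map_top, Submodule.range_subtype]
  have hcount := H952.F4.MaxA.count (ρ := rk k ρ) (H.comap (ad F)) S (by
    rintro ⟨s, hs⟩
    have h2 : s.1 ⟨0, h1⟩ = 0 := Subtype.ext (congrFun hs ⟨0, h1⟩)
    exact s.2.ne_zero _ h2) (by
    rintro _ ⟨s, rfl⟩ _ ⟨s', rfl⟩ x hx
    rw [← hSt]
    have key : ∀ w ∈ W, ρ x w ∈ W := by
      intro w hw
      rw [← hspan s] at hw
      induction hw using Submodule.span_induction with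
      | mem y hy =>
        obtain ⟨i, rfl⟩ := hy
        have h2 := congrFun hx i
        rw [rk_apply] at h2
        show ρ x (s.1 i : I27 → F) ∈ W
        rw [h2]
        exact (s'.1 i).2
      | zero => rw [map_zero]; exact zero_mem _
      | add y z _ _ hy hz => rw [map_add]; exact add_mem hy hz
      | smul t y _ hy => rw [map_smul]; exact W.smul_mem t hy
    have key' : ∀ w ∈ W, ρ x⁻¹ w ∈ W := by
      intro w hw
      rw [← hspan s'] at hw
      induction hw using Submodule.span_induction with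
      | mem y hy =>
        obtain ⟨i, rfl⟩ := hy
        have h2 : ρ x (s.1 i : I27 → F) = (s'.1 i : I27 → F) := congrFun hx i
        show ρ x⁻¹ (s'.1 i : I27 → F) ∈ W
        rw [← h2, ρ_inv]
        exact (s.1 i).2
      | zero => rw [map_zero]; exact zero_mem _
      | add y z _ _ hy hz => rw [map_add]; exact add_mem hy hz
      | smul t y _ hy => rw [map_smul]; exact W.smul_mem t hy
    intro w
    constructor
    · intro h
      have := key' _ h
      rwa [ρ_inv] at this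
    · exact key w)
  have hfr : finrank F (Fin k → (I27 → F)) = 27 * k := by
    rw [finrank_pi_fintype, Finset.sum_const, Finset.card_univ, Fintype.card_fin, h9, smul_eq_mul, mul_comm]
  rw [hcardS, hfr] at hcount
  set s := ∏ i : Fin k, (Nat.card F ^ k - Nat.card F ^ i.val) with hs
  set X := Nat.card F ^ (27 * k) with hX
  have e1 := Subgroup.card_mul_index (H.comap (ad F))
  have e2 := Subgroup.card_mul_index H
  rw [Subgroup.index_comap_of_surjective H ad_surjective] at e1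
  have hpos : 0 < Nat.card ↥(H.comap (ad F)) := Nat.card_pos
  have h4 : s * H.index ≤ X := by
    have h5 : Nat.card ↥(H.comap (ad F)) * (s * H.index) ≤ Nat.card ↥(H.comap (ad F)) * X := by
      calc Nat.card ↥(H.comap (ad F)) * (s * H.index) = s * (Nat.card ↥(H.comap (ad F)) * H.index) := by ring
        _ = s * Nat.card ↥(Zgrp F) := by rw [e1]
        _ ≤ Nat.card ↥(H.comap (ad F)) * (X - 1) := hcount
        _ ≤ _ := Nat.mul_le_mul_left _ (Nat.sub_le _ _)
    exact Nat.le_of_mul_le_mul_left h5 hpos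
  calc s * Nat.card ↥(chevE6.group F) = Nat.card ↥H * (s * H.index) := by rw [← e2]; ring
    _ ≤ Nat.card ↥H * X := Nat.mul_le_mul_left _ h4

/-- no stable subspace of dimension 1 -/
theorem no_line' (hM : MaxAlt H n φ) (hn : 5 ≤ n) (hn' : n ≤ 12) {ρ : Representation F ↥(Zgrp F) (I27 → F)}
    (hρ : ρ = V F ∨ ρ = V' F) {W : Submodule F (I27 → F)} (hW : Stab ρ H W) : finrank F ↥W ≠ 1 := by
  intro h1
  have h2 := count_sub hM.coatom hρ hW h1 le_rfl (by norm_num)
  have h3 := card_lt hn hn' hM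
  have hq := two_le_card (F := F)
  simp only [Finset.univ_unique, Fin.default_eq_zero, Fin.val_zero, Finset.prod_singleton, pow_one, pow_zero, mul_one]
    at h2
  have h4 : 1 * Nat.card ↥(chevE6.group F) ≤ (Nat.card F - 1) * Nat.card ↥(chevE6.group F) :=
    Nat.mul_le_mul_right _ (by omega)
  have h5 : Nat.card ↥H * Nat.card F ^ 27 ≤ 2 * Nat.card ↥H * Nat.card F ^ 27 := by nlinarith
  omega

theorem no_small' (hM : MaxAlt H n φ) (hn : 5 ≤ n) (hq : 6 * Nat.card ↥H ≤ Nat.card F ^ 6)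
    {ρ : Representation F ↥(Zgrp F) (I27 → F)} (hρ : ρ = V F ∨ ρ = V' F)
    {W : Submodule F (I27 → F)} (hW : Stab ρ H W) (h1 : 1 ≤ finrank F ↥W) : 4 ≤ finrank F ↥W := by
  by_contra hcon
  have h3 : finrank F ↥W ≤ 3 := by omega
  have h2 := count_sub hM.coatom hρ hW rfl h1 (by omega)
  have hq2 := two_le_card (F := F)
  -- `q ≥ 3`
  have hcardA : 60 ≤ Nat.card ↥H := by
    have h4 : Nat.card φ.range ≤ Nat.card ↥H := Nat.card_le_card_of_injective _ (Subgroup.inclusion_injective hM.le)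
    have h5 : Nat.card φ.range = Nat.card ↥(alternatingGroup (Fin n)) :=
      (Nat.card_congr (MonoidHom.ofInjective hM.inj).toEquiv).symm
    have h6 : 2 * Nat.card ↥(alternatingGroup (Fin n)) = n.factorial := by
      have : Nontrivial (Fin n) := Fin.nontrivial_iff_two_le.2 (by omega)
      rw [two_mul_nat_card_alternatingGroup, Nat.card_perm, Nat.card_eq_fintype_card, Fintype.card_fin]
    have h7 : Nat.factorial 5 ≤ n.factorial := Nat.factorial_le hn
    have h8 : Nat.factorial 5 = 120 := rfl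
    omega
  have ho := order (F := F)
  set q := Nat.card F with hqdef
  have hq3 : 3 ≤ q := by
    by_contra hlt
    have h4 : q = 2 := by omega
    rw [h4] at hq
    omega
  have hg : Nat.gcd 3 (q - 1) ≤ 3 := Nat.gcd_le_left _ (by norm_num)
  set N := Nat.card ↥(chevE6.group F) with hN
  set h := Nat.card ↥H with hh
  have key : ∀ a, 3 ^ a * (q ^ a - 1) ≥ (3 ^ a - 1) * q ^ a := by
    intro a
    have h4 : 3 ^ a ≤ q ^ a := Nat.pow_le_pow_left hq3 a
    have h5 : 1 ≤ 3 ^ a := Nat.one_le_pow _ _ (by norm_num)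
    rw [Nat.mul_sub, Nat.sub_mul, mul_one, one_mul]
    omega
  -- `3 N ≥ q^36 Π`
  have hN3 : q ^ 36 * (q ^ 2 - 1) * (q ^ 5 - 1) * (q ^ 6 - 1) * (q ^ 8 - 1) * (q ^ 9 - 1) * (q ^ 12 - 1) ≤ 3 * N := by
    rw [← ho]; exact Nat.mul_le_mul_right _ hg
  have k1 := key 1
  have k2 := key 2
  have k3 := key 3
  have k5 := key 5
  have k6 := key 6
  have k8 := key 8
  have k9 := key 9
  have k12 := key 12
  have hqpos : 0 < q := by omega
  -- the order
  have hbig : (3 ^ 42 * 3) * N ≥ (3 ^ 2 - 1) * (3 ^ 5 - 1) * (3 ^ 6 - 1) * (3 ^ 8 - 1) * (3 ^ 9 - 1) * (3 ^ 12 - 1) * q ^ 78 := by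
    calc (3 ^ 42 * 3) * N = 3 ^ 42 * (3 * N) := by ring
      _ ≥ 3 ^ 42 * (q ^ 36 * (q ^ 2 - 1) * (q ^ 5 - 1) * (q ^ 6 - 1) * (q ^ 8 - 1) * (q ^ 9 - 1) * (q ^ 12 - 1)) :=
        Nat.mul_le_mul_left _ hN3
      _ = q ^ 36 * (3 ^ 2 * (q ^ 2 - 1)) * (3 ^ 5 * (q ^ 5 - 1)) * (3 ^ 6 * (q ^ 6 - 1)) * (3 ^ 8 * (q ^ 8 - 1)) *
          (3 ^ 9 * (q ^ 9 - 1)) * (3 ^ 12 * (q ^ 12 - 1)) := by ring
      _ ≥ q ^ 36 * ((3 ^ 2 - 1) * q ^ 2) * ((3 ^ 5 - 1) * q ^ 5) * ((3 ^ 6 - 1) * q ^ 6) * ((3 ^ 8 - 1) * q ^ 8) *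
          ((3 ^ 9 - 1) * q ^ 9) * ((3 ^ 12 - 1) * q ^ 12) := by gcongr
      _ = _ := by ring
  have hN0 : 0 < N := Nat.card_pos
  -- `k = 1, 2`: trivial estimate; `k = 3`: exact estimate
  have hP : finrank F ↥W ≤ 2 → False := by
    intro h4
    have h5 : 1 * N ≤ (∏ i : Fin (finrank F ↥W), (q ^ finrank F ↥W - q ^ i.val)) * N := by
      apply Nat.mul_le_mul_right
      rw [Nat.succ_le_iff]
      apply Finset.prod_pos
      intro i _
      have : q ^ i.val < q ^ finrank F ↥W := Nat.pow_lt_pow_right (by omega) i.2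
      omega
    have h6 : N ≤ h * q ^ 54 := by
      calc N = 1 * N := (one_mul N).symm
        _ ≤ _ := h5
        _ ≤ _ := h2
        _ ≤ h * q ^ 54 := Nat.mul_le_mul_left _ (Nat.pow_le_pow_right hqpos (by omega))
    have h7 : 6 * N ≤ q ^ 60 := by
      calc 6 * N ≤ 6 * (h * q ^ 54) := Nat.mul_le_mul_left _ h6
        _ = (6 * h) * q ^ 54 := by ring
        _ ≤ q ^ 6 * q ^ 54 := Nat.mul_le_mul_right _ hq
        _ = q ^ 60 := by ring
    have h8 : 3 ^ 18 ≤ q ^ 18 := Nat.pow_le_pow_left hq3 18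
    have h9 : (3 ^ 42 * 3) * q ^ 60 ≥ (3 ^ 42 * 3) * N := Nat.mul_le_mul_left _ (by omega)
    have h10 : (3 ^ 2 - 1) * (3 ^ 5 - 1) * (3 ^ 6 - 1) * (3 ^ 8 - 1) * (3 ^ 9 - 1) * (3 ^ 12 - 1) * q ^ 78 ≥
        (3 ^ 2 - 1) * (3 ^ 5 - 1) * (3 ^ 6 - 1) * (3 ^ 8 - 1) * (3 ^ 9 - 1) * (3 ^ 12 - 1) * (3 ^ 18 * q ^ 60) := by
      have : q ^ 78 = q ^ 18 * q ^ 60 := by ring
      rw [this]
      exact Nat.mul_le_mul_left _ (Nat.mul_le_mul_right _ h8)
    have h11 : 0 < q ^ 60 := by positivity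
    have h12 : (3 ^ 42 * 3) * q ^ 60 ≥ (3 ^ 2 - 1) * (3 ^ 5 - 1) * (3 ^ 6 - 1) * (3 ^ 8 - 1) * (3 ^ 9 - 1) * (3 ^ 12 - 1) *
      (3 ^ 18 * q ^ 60) := h10.trans (hbig.trans h9)
    norm_num at h12
    omega
  have hk3 : finrank F ↥W = 3 := by
    by_contra hne
    exact hP (by omega)
  rw [hk3] at h2
  simp only [Fin.prod_univ_three, Fin.val_zero, Fin.val_one, Fin.val_two, pow_zero, pow_one] at h2
  have e1 : q ^ 3 - q = q * (q ^ 2 - 1) := by
    rw [Nat.mul_sub, mul_one]; ring_nf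
  have e2 : q ^ 3 - q ^ 2 = q ^ 2 * (q ^ 1 - 1) := by
    rw [Nat.mul_sub, mul_one]; ring_nf
  rw [e1, e2] at h2
  have h5 : (3 ^ 6) * ((q ^ 3 - 1) * (q * (q ^ 2 - 1)) * (q ^ 2 * (q ^ 1 - 1))) ≥
      (3 ^ 3 - 1) * (3 ^ 2 - 1) * (3 ^ 1 - 1) * q ^ 9 := by
    calc (3 ^ 6) * ((q ^ 3 - 1) * (q * (q ^ 2 - 1)) * (q ^ 2 * (q ^ 1 - 1)))
        = (3 ^ 3 * (q ^ 3 - 1)) * (3 ^ 2 * (q ^ 2 - 1)) * (3 ^ 1 * (q ^ 1 - 1)) * q ^ 3 := by ring
      _ ≥ ((3 ^ 3 - 1) * q ^ 3) * ((3 ^ 2 - 1) * q ^ 2) * ((3 ^ 1 - 1) * q ^ 1) * q ^ 3 := by gcongr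
      _ = _ := by ring
  set A := (q ^ 3 - 1) * (q * (q ^ 2 - 1)) * (q ^ 2 * (q ^ 1 - 1)) with hA
  have h6 : 6 * (A * N) ≤ q ^ 87 := by
    calc 6 * (A * N) ≤ 6 * (h * q ^ (27 * 3)) := Nat.mul_le_mul_left _ h2
      _ = (6 * h) * q ^ 81 := by ring
      _ ≤ q ^ 6 * q ^ 81 := Nat.mul_le_mul_right _ hq
      _ = q ^ 87 := by ring
  have h7 : (3 ^ 6 * A) * ((3 ^ 42 * 3) * N) ≥ ((3 ^ 3 - 1) * (3 ^ 2 - 1) * (3 ^ 1 - 1) * q ^ 9) *
      ((3 ^ 2 - 1) * (3 ^ 5 - 1) * (3 ^ 6 - 1) * (3 ^ 8 - 1) * (3 ^ 9 - 1) * (3 ^ 12 - 1) * q ^ 78) :=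
    Nat.mul_le_mul h5 hbig
  have h8 : 2 * ((3 ^ 6 * A) * ((3 ^ 42 * 3) * N)) ≤ 3 ^ 48 * q ^ 87 := by
    calc 2 * ((3 ^ 6 * A) * ((3 ^ 42 * 3) * N)) = 3 ^ 48 * (6 * (A * N)) := by ring
      _ ≤ _ := Nat.mul_le_mul_left _ h6
  have h9 : 2 * (((3 ^ 3 - 1) * (3 ^ 2 - 1) * (3 ^ 1 - 1) * q ^ 9) *
      ((3 ^ 2 - 1) * (3 ^ 5 - 1) * (3 ^ 6 - 1) * (3 ^ 8 - 1) * (3 ^ 9 - 1) * (3 ^ 12 - 1) * q ^ 78)) ≤ 3 ^ 48 * q ^ 87 :=
    (Nat.mul_le_mul_left 2 h7).trans h8
  have h10 : 2 * (((3 ^ 3 - 1) * (3 ^ 2 - 1) * (3 ^ 1 - 1) * q ^ 9) *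
      ((3 ^ 2 - 1) * (3 ^ 5 - 1) * (3 ^ 6 - 1) * (3 ^ 8 - 1) * (3 ^ 9 - 1) * (3 ^ 12 - 1) * q ^ 78)) =
      2 * ((3 ^ 3 - 1) * (3 ^ 2 - 1) * (3 ^ 1 - 1) * ((3 ^ 2 - 1) * (3 ^ 5 - 1) * (3 ^ 6 - 1) * (3 ^ 8 - 1) * (3 ^ 9 - 1) *
        (3 ^ 12 - 1))) * q ^ 87 := by ring
  rw [h10] at h9
  have h11 : 0 < q ^ 87 := by positivity
  have h12 := Nat.le_of_mul_le_mul_right h9 h11
  norm_num at h12

/-- no stable subspace of dimension at most 3 -/
theorem no_small (hM : MaxAlt H n φ) (hn : 5 ≤ n) (hn' : n ≤ 12) (hq : 6 * Nat.card ↥H ≤ Nat.card F ^ 6)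
    {W : Submodule F (I27 → F)} (hW : Stab (V F) H W ∨ Stab (V' F) H W) (h1 : 1 ≤ finrank F ↥W) : 4 ≤ finrank F ↥W := by
  rcases hW with hW | hW
  · exact no_small' hM hn hq (Or.inl rfl) hW h1
  · exact no_small' hM hn hq (Or.inr rfl) hW h1

/-- no stable subspace of dimension 1 -/
theorem no_line (hM : MaxAlt H n φ) (hn : 5 ≤ n) (hn' : n ≤ 12) {W : Submodule F (I27 → F)}
    (hW : Stab (V F) H W ∨ Stab (V' F) H W) : finrank F ↥W ≠ 1 := by
  rcases hW with hW | hW
  · exact no_line' hM hn hn' (Or.inl rfl) hW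
  · exact no_line' hM hn hn' (Or.inr rfl) hW

/-! ### fixed vectors -/

theorem ker_scalar {ρ : Representation F ↥(Zgrp F) (I27 → F)} (hρ : ρ = V F ∨ ρ = V' F) {z : ↥(Zgrp F)}
    (hz : ad F z = 1) : ∃ c : F, c ≠ 0 ∧ c ^ 3 = 1 ∧ ∀ x, ρ z x = c • x := by
  obtain ⟨c, hc, hzc⟩ := (Act.ad_eq_one_iff z).1 hz
  have h1 : ∀ x, V F z x = (c : F) • x := by
    intro x
    rw [V_apply, hzc, Act.coe_scal, Matrix.smul_mulVec, Matrix.one_mulVec]
  have hc3 : (c : F) ^ 3 = 1 := by rw [← Units.val_pow_eq_pow_val, hc, Units.val_one]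
  rcases hρ with rfl | rfl
  · exact ⟨c, c.ne_zero, hc3, h1⟩
  · refine ⟨(c : F)⁻¹, inv_ne_zero c.ne_zero, by rw [inv_pow, hc3, inv_one], fun x => ?_⟩
    have h2 : ∀ y, Cfsg.Agent.H952.F4.tf (V' F z x - (c : F)⁻¹ • x) y = 0 := by
      intro y
      have h3 := Act.tf_act z ((c : F)⁻¹ • y) x
      rw [map_smul, h1, smul_smul, inv_mul_cancel₀ c.ne_zero, one_smul] at h3
      rw [sub_eq_add_neg, H952.F4.Jord.tf_add_left, ← neg_one_smul F ((c : F)⁻¹ • x), H952.F4.Jord.tf_smul_left,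
        H952.F4.Jord.tf_smul_left, H952.F4.Jord.tf_comm (V' F z x), h3, H952.F4.Jord.tf_smul_left,
        H952.F4.Jord.tf_comm x]
      ring
    exact sub_eq_zero.1 (H952.F4.Jord.tf_nondeg h2)

theorem no_fixed' (hM : MaxAlt H n φ) (hn : 5 ≤ n) (hn' : n ≤ 12) {ψ : ↥(alternatingGroup (Fin n)) →* ↥(Zgrp F)}
    (hψ : Lift φ ψ) {ρ : Representation F ↥(Zgrp F) (I27 → F)} (hρ : ρ = V F ∨ ρ = V' F) :
    Representation.invariants (MonoidHom.comp ρ ψ) = ⊥ := by
  by_contra hne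
  set W : Submodule F (I27 → F) := Representation.invariants (MonoidHom.comp ρ ψ) with hWdef
  have memW : ∀ w, w ∈ W ↔ ∀ a, ρ (ψ a) w = w := by
    intro w
    rw [hWdef, Representation.mem_invariants]
    rfl
  have hcom : commutator ↥(alternatingGroup (Fin n)) = ⊤ :=
    commutator_alternatingGroup_eq_top (by rw [Nat.card_eq_fintype_card, Fintype.card_fin]; exact hn)
  set Ĥ : Subgroup ↥(Zgrp F) := H.comap (ad F) with hH
  -- elements of the preimage of the alternating group act as scalars on `W`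
  have hscal : ∀ g, ad F g ∈ φ.range → ∃ c : F, c ≠ 0 ∧ c ^ 3 = 1 ∧ ∀ w ∈ W, ρ g w = c • w := by
    intro g hg
    obtain ⟨a, ha⟩ := hg
    have h1 : ad F ((ψ a)⁻¹ * g) = 1 := by rw [map_mul, map_inv, hψ, ha, inv_mul_cancel]
    obtain ⟨c, hc0, hc3, hc⟩ := ker_scalar hρ h1
    refine ⟨c, hc0, hc3, fun w hw => ?_⟩
    have h2 : g = ψ a * ((ψ a)⁻¹ * g) := by rw [mul_inv_cancel_left]
    rw [h2, map_mul, Module.End.mul_apply, hc, map_smul, (memW w).1 hw]
  -- `W` is stable under the preimage of `H`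
  have hst : ∀ x ∈ Ĥ, ∀ w ∈ W, ρ x w ∈ W := by
    intro x hx w hw
    by_cases hw0 : w = 0
    · rw [hw0, map_zero]; exact zero_mem _
    -- every element of `A` acts on `ρ x w` as a scalar
    have h1 : ∀ a, ψ a ∈ H952.F4.MaxA.LS ρ (ρ x w) := by
      intro a
      have h2 : ad F (x⁻¹ * ψ a * x) ∈ φ.range := by
        rw [map_mul, map_mul, map_inv, hψ]
        have := hM.norm (ad F x)⁻¹ (inv_mem hx) (φ a) ⟨a, rfl⟩
        rwa [inv_inv] at this
      obtain ⟨c, hc0, -, hc⟩ := hscal _ h2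
      refine ⟨Units.mk0 c hc0, ?_⟩
      have h3 : ρ (ψ a) (ρ x w) = ρ x (ρ (x⁻¹ * ψ a * x) w) := by
        rw [← Module.End.mul_apply, ← map_mul, ← Module.End.mul_apply, ← map_mul]
        congr 2
        group
      rw [h3, hc w hw, map_smul]; rfl
    have h2 : (⊤ : Subgroup ↥(alternatingGroup (Fin n))) ≤ (H952.F4.MaxA.VS ρ (ρ x w)).comap ψ := by
      rw [← hcom, commutator_def, Subgroup.commutator_le]
      intro a _ b _
      rw [Subgroup.mem_comap, commutatorElement_def, map_mul, map_mul, map_mul, map_inv, map_inv]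
      exact H952.F4.MaxA.comm_mem (h1 a) (h1 b)
    rw [memW]
    intro a
    exact h2 (Subgroup.mem_top a)
  -- squares are scalars
  have hsq : ∀ x ∈ Ĥ, ∃ c : F, c ≠ 0 ∧ c ^ 3 = 1 ∧ ∀ w ∈ W, ρ x (ρ x w) = c • w := by
    intro x hx
    obtain ⟨c, hc0, hc3, hc⟩ := hscal (x * x) (by rw [map_mul]; exact hM.sq _ hx)
    refine ⟨c, hc0, hc3, fun w hw => ?_⟩
    rw [← Module.End.mul_apply, ← map_mul]
    exact hc w hw
  have hcomm : ∀ x ∈ Ĥ, ∀ y ∈ Ĥ, ∀ w ∈ W, ρ y (ρ x w) = ρ x (ρ y w) := by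
    intro x hx y hy
    obtain ⟨cx, hx0, hx3, hcx⟩ := hsq x hx
    obtain ⟨cy, hy0, hy3, hcy⟩ := hsq y hy
    obtain ⟨cz, hz0, hz3, hcz⟩ := hsq (x * y) (mul_mem hx hy)
    have hmul : ∀ w, ρ (x * y) w = ρ x (ρ y w) := fun w => by rw [map_mul]; rfl
    -- `ρ y ρ x w = d ρ x ρ y w`
    have h1 : ∀ w ∈ W, ρ y (ρ x w) = (cz * cx⁻¹ * cy⁻¹) • ρ x (ρ y w) := by
      intro w hw
      have hyw := hst y hy w hw
      have e1 : ρ x (ρ y (ρ x (ρ y (ρ y w)))) = cz • ρ y w := by
        have := hcz (ρ y w) hyw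
        rwa [hmul, hmul] at this
      rw [hcy w hw, map_smul, map_smul, map_smul] at e1
      have e2 : ρ x (cy • ρ x (ρ y (ρ x w))) = ρ x (cz • ρ y w) := by rw [e1]
      rw [map_smul, map_smul, hcx _ (hst y hy _ (hst x hx w hw)), smul_smul] at e2
      have e3 : ((cx⁻¹ * cy⁻¹) * (cy * cx)) • ρ y (ρ x w) = ((cx⁻¹ * cy⁻¹) * cz) • ρ x (ρ y w) := by
        rw [mul_smul, e2, smul_smul]
      have e4 : (cx⁻¹ * cy⁻¹) * (cy * cx) = 1 := by field_simp
      rw [e4, one_smul] at e3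
      rw [e3]
      congr 1
      ring
    set d := cz * cx⁻¹ * cy⁻¹ with hd
    have hd3 : d ^ 3 = 1 := by
      rw [hd, mul_pow, mul_pow, inv_pow, inv_pow, hx3, hy3, hz3]; norm_num
    intro w hw
    by_cases hw0 : w = 0
    · simp only [hw0, map_zero]
    have h2 := h1 (ρ x w) (hst x hx w hw)
    rw [h1 w hw, map_smul, hcx w hw, map_smul, hcx _ (hst y hy w hw), smul_smul, smul_smul] at h2
    have h3 : ρ y w ≠ 0 := by
      intro h0
      apply hw0
      rw [← ρ_inv ρ y w, h0, map_zero]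
    have h4 : (cx - d * d * cx) • ρ y w = 0 := by
      rw [sub_smul, sub_eq_zero]
      exact h2
    have h5 := (smul_eq_zero.1 h4).resolve_right h3
    have h6 : d ^ 2 = 1 := by
      have : cx * (1 - d ^ 2) = 0 := by linear_combination h5
      have := (mul_eq_zero.1 this).resolve_left hx0
      linear_combination -this
    have h7 : d = 1 := by
      calc d = d ^ 3 * 1 * d := by rw [hd3]; ring
        _ = d ^ 2 * d ^ 2 := by ring
        _ = 1 := by rw [h6]; ring
    rw [h1 w hw, h7, one_smul]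
  -- the subgroup of elements acting as involutions
  let K : Subgroup ↥(Zgrp F) :=
    { carrier := {x | x ∈ Ĥ ∧ ∀ w ∈ W, ρ x (ρ x w) = w}
      one_mem' := ⟨one_mem _, fun w _ => by rw [map_one]; rfl⟩
      mul_mem' := by
        rintro x y ⟨hx, hx'⟩ ⟨hy, hy'⟩
        refine ⟨mul_mem hx hy, fun w hw => ?_⟩
        have hmul : ∀ w, ρ (x * y) w = ρ x (ρ y w) := fun w => by rw [map_mul]; rfl
        rw [hmul, hmul, hcomm x hx y hy _ (hst y hy w hw), hy' w hw, hx' w hw]
      inv_mem' := by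
        rintro x ⟨hx, hx'⟩
        refine ⟨inv_mem hx, fun w hw => ?_⟩
        have h1 : ρ x⁻¹ w = ρ x w := by
          conv_lhs => rw [← hx' w hw]
          rw [ρ_inv]
        rw [h1]
        rw [ρ_inv] }
  obtain ⟨w, hw, hw0, hw'⟩ := H952.F4.MaxA.exists_line (ρ := ρ) K W hne (fun x hx => hst x hx.1) (fun x hx => hx.2)
  -- the line spanned by `w`
  have hline : ∀ x ∈ Ĥ, ∃ c : F, ρ x w = c • w := by
    intro x hx
    obtain ⟨c, hc0, hc3, hc⟩ := hsq x hx
    have hcube : ∀ v ∈ W, ρ (x * x * x) v = c • ρ x v := by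
      intro v hv
      rw [map_mul, map_mul, Module.End.mul_apply, Module.End.mul_apply, hc _ (hst x hx v hv)]
    have hK : x * x * x ∈ K := by
      refine ⟨mul_mem (mul_mem hx hx) hx, fun v hv => ?_⟩
      rw [hcube v hv, map_smul, hcube _ (hst x hx v hv), hc v hv, smul_smul, smul_smul,
        show c * c * c = c ^ 3 by ring, hc3, one_smul]
    have h1 := hw' _ hK
    rw [hcube w hw] at h1
    rcases h1 with h1 | h1
    · refine ⟨c⁻¹, ?_⟩
      calc ρ x w = c⁻¹ • (c • ρ x w) := by rw [smul_smul, inv_mul_cancel₀ hc0, one_smul]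
        _ = c⁻¹ • w := by rw [h1]
    · refine ⟨-c⁻¹, ?_⟩
      calc ρ x w = c⁻¹ • (c • ρ x w) := by rw [smul_smul, inv_mul_cancel₀ hc0, one_smul]
        _ = -c⁻¹ • w := by rw [h1, smul_neg, neg_smul]
  refine no_line' hM hn hn' hρ (W := Submodule.span F {w}) ?_ (finrank_span_singleton hw0)
  intro g hg v hv
  obtain ⟨t, rfl⟩ := Submodule.mem_span_singleton.1 hv
  obtain ⟨c, hc⟩ := hline g hg
  rw [map_smul, hc]
  exact Submodule.smul_mem _ _ (Submodule.smul_mem _ _ (Submodule.mem_span_singleton_self w))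

/-- no fixed vectors -/
theorem no_fixed (hM : MaxAlt H n φ) (hn : 5 ≤ n) (hn' : n ≤ 12) {ψ : ↥(alternatingGroup (Fin n)) →* ↥(Zgrp F)}
    (hψ : Lift φ ψ) : Representation.invariants (MonoidHom.comp (V F) ψ) = ⊥ ∧
      Representation.invariants (MonoidHom.comp (V' F) ψ) = ⊥ :=
  ⟨no_fixed' hM hn hn' hψ (Or.inl rfl), no_fixed' hM hn hn' hψ (Or.inr rfl)⟩

end card

end Cfsg.Agent.H163.E6.Cnt
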