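import Mathlib

/-!
# Jacobson's formula (helper927)

`A` an algebra over a field `F` of characteristic `p`, `S` a subspace closed under commutators, `a, b ∈ S`:
`(a + b) ^ p - a ^ p - b ^ p ∈ S`.
-/

set_option autoImplicit false

namespace Cfsg.Agent.H927.Jac

open Polynomial

/-- binomial coefficients `(p - 1 over m)` modulo `p` -/
theorem choose_cast {B : Type*} [Ring B] {p : ℕ} (hp : p.Prime) (hB : (p : B) = 0) :
    ∀ j, j ≤ p - 1 → (((p - 1).choose (p - 1 - j) : ℕ) : B) = (-1) ^ j := by
  intro j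
  induction j with
  | zero => intro _; rw [Nat.sub_zero, Nat.choose_self, Nat.cast_one, pow_zero]
  | succ j ih =>
    intro hj
    have h1 := ih (by omega)
    have h2 : p.choose (p - 1 - j) = (p - 1).choose (p - 1 - (j + 1)) + (p - 1).choose (p - 1 - j) := by
      obtain ⟨q, hq⟩ : ∃ q, p = q + 1 := ⟨p - 1, by have := hp.pos; omega⟩
      obtain ⟨i, hi⟩ : ∃ i, q - j = i + 1 := ⟨q - j - 1, by omega⟩
      have e1 : p - 1 = q := by omega
      have e3 : q - (j + 1) = i := by omega
      rw [e1, hi, e3, hq, Nat.choose_succ_succ]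
    have h3 : ((p.choose (p - 1 - j) : ℕ) : B) = 0 := by
      have h4 : p ∣ p.choose (p - 1 - j) := hp.dvd_choose_self (by omega) (by omega)
      obtain ⟨k, hk⟩ := h4
      rw [hk, Nat.cast_mul, hB, zero_mul]
    rw [h2, Nat.cast_add, h1] at h3
    rw [pow_succ, mul_neg_one]
    exact eq_neg_of_add_eq_zero_left h3

/-- `Σ f ^ i a f ^ (p - 1 - i) = (ad f) ^ (p - 1) a` in characteristic `p` -/
theorem ad_pow {B : Type*} [Ring B] {p : ℕ} (hp : p.Prime) (hB : (p : B) = 0) (f a : B) :
    ∑ m ∈ Finset.range p, f ^ m * a * f ^ (p - 1 - m) = (fun x => f * x - x * f)^[p - 1] a := by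
  set Lf : AddMonoid.End B := AddMonoidHom.mulLeft f with hL
  set Rf : AddMonoid.End B := AddMonoidHom.mulRight f with hR
  have hL' : ∀ x, Lf x = f * x := fun x => rfl
  have hR' : ∀ x, Rf x = x * f := fun x => rfl
  have hcomm : Commute Lf (-Rf) := by
    ext x
    show f * (-(x * f)) = -((f * x) * f)
    rw [mul_neg, mul_assoc]
  have hit : ∀ n x, ((Lf + -Rf) ^ n) x = (fun x => f * x - x * f)^[n] x := by
    intro n
    induction n with
    | zero => intro x; rfl
    | succ n ih =>
      intro x
      rw [pow_succ, Function.iterate_succ_apply, ← ih]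
      show ((Lf + -Rf) ^ n) ((Lf + -Rf) x) = _
      congr 1
      show Lf x + -(Rf x) = _
      rw [hL', hR', sub_eq_add_neg]
  have hLp : ∀ n x, (Lf ^ n) x = f ^ n * x := by
    intro n
    induction n with
    | zero => intro x; rw [pow_zero, pow_zero, one_mul]; rfl
    | succ n ih =>
      intro x
      rw [pow_succ, pow_succ]
      show (Lf ^ n) (Lf x) = _
      rw [ih, hL', mul_assoc]
  have hRp : ∀ n x, ((-Rf) ^ n) x = (-1) ^ n * (x * f ^ n) := by
    intro n
    induction n with
    | zero => intro x; rw [pow_zero, pow_zero, pow_zero, one_mul, mul_one]; rfl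
    | succ n ih =>
      intro x
      rw [pow_succ]
      show ((-Rf) ^ n) (-(Rf x)) = _
      rw [ih, hR', pow_succ, pow_succ']
      simp only [neg_mul, mul_neg, mul_assoc, mul_one]
  rw [← hit, hcomm.add_pow]
  have hp1 : p - 1 + 1 = p := Nat.sub_add_cancel hp.pos
  rw [hp1]
  have happ : ∀ (s : Finset ℕ) (g : ℕ → AddMonoid.End B), (∑ m ∈ s, g m) a = ∑ m ∈ s, g m a := by
    intro s g
    exact AddMonoidHom.finsetSum_apply _ _ _
  rw [happ]
  refine Finset.sum_congr rfl fun m hm => ?_
  have hm' : m < p := Finset.mem_range.1 hm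
  have hnc : ∀ (n : ℕ) (x : B), ((n : ℕ) : AddMonoid.End B) x = n • x := fun n x => rfl
  show _ = (Lf ^ m) (((-Rf) ^ (p - 1 - m)) ((((p - 1).choose m : ℕ) : AddMonoid.End B) a))
  rw [hnc, hRp, hLp]
  have hc := choose_cast hp hB (p - 1 - m) (by omega)
  rw [show p - 1 - (p - 1 - m) = m by omega] at hc
  rw [nsmul_eq_mul, hc]
  have h1 : ((-1 : B) ^ (p - 1 - m)) * ((-1) ^ (p - 1 - m) * a * f ^ (p - 1 - m)) = a * f ^ (p - 1 - m) := by
    rw [← mul_assoc, ← mul_assoc, ← pow_add, ← two_mul, pow_mul, neg_one_sq, one_pow, one_mul]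
  rw [h1, mul_assoc]

theorem derivative_pow' {A : Type*} [Ring A] (f : A[X]) (n : ℕ) :
    derivative (f ^ n) = ∑ m ∈ Finset.range n, f ^ m * derivative f * f ^ (n - 1 - m) := by
  induction n with
  | zero => simp
  | succ n ih =>
    rw [pow_succ, derivative_mul, ih, Finset.sum_mul, Finset.sum_range_succ]
    congr 1
    · refine Finset.sum_congr rfl fun m hm => ?_
      have hm' : m < n := Finset.mem_range.1 hm
      rw [show n + 1 - 1 - m = (n - 1 - m) + 1 by omega, pow_succ]
      simp only [mul_assoc]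
    · rw [show n + 1 - 1 - n = 0 by omega, pow_zero, mul_one]

variable {F A : Type*} [Field F] [Ring A] [Algebra F A]

/-- **Jacobson's formula** -/
theorem jacobson {p : ℕ} (hp : p.Prime) [CharP F p] (S : Submodule F A) (hS : ∀ a ∈ S, ∀ b ∈ S, a * b - b * a ∈ S)
    {a b : A} (ha : a ∈ S) (hb : b ∈ S) : (a + b) ^ p - a ^ p - b ^ p ∈ S := by
  have hpF : (p : F) = 0 := CharP.cast_eq_zero F p
  have hpA : (p : A) = 0 := by
    rw [← map_natCast (algebraMap F A) p, hpF, map_zero]
  have hpX : (p : A[X]) = 0 := by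
    rw [← map_natCast (C : A →+* A[X]) p, hpA, map_zero]
  set f : A[X] := C b + X * C a with hf
  have hdf : derivative f = C a := by
    rw [hf, map_add, derivative_C, zero_add, derivative_mul, derivative_X, derivative_C, one_mul, mul_zero, add_zero]
  have hder := derivative_pow' f p
  rw [hdf, ad_pow hp hpX] at hder
  -- coefficients of the iterated commutator
  have hcoef : ∀ n g, (∀ k, coeff g k ∈ S) → ∀ k, coeff ((fun x => f * x - x * f)^[n] g) k ∈ S := by
    intro n
    induction n with
    | zero => intro g hg k; exact hg k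
    | succ n ih =>
      intro g hg k
      rw [Function.iterate_succ_apply]
      refine ih _ (fun k => ?_) k
      have e : f * g - g * f = (C b * g - g * C b) + X * (C a * g - g * C a) := by
        rw [hf, add_mul, mul_add, mul_sub, mul_assoc X, ← mul_assoc g X, ← X_mul (p := g), mul_assoc X]
        abel
      show coeff (f * g - g * f) k ∈ S
      rw [e, coeff_add, coeff_sub, coeff_C_mul, coeff_mul_C]
      refine add_mem (hS _ hb _ (hg k)) ?_
      rcases k with _ | k
      · rw [mul_coeff_zero, coeff_X_zero, zero_mul]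
        exact zero_mem _
      · rw [coeff_X_mul, coeff_sub, coeff_C_mul, coeff_mul_C]
        exact hS _ ha _ (hg k)
  have hCa : ∀ k, coeff (C a) k ∈ S := by
    intro k
    rw [coeff_C]
    split_ifs
    · exact ha
    · exact zero_mem _
  have hmid : ∀ k, k + 1 < p → coeff (f ^ p) (k + 1) ∈ S := by
    intro k hk
    have h1 : coeff (derivative (f ^ p)) k ∈ S := by
      rw [hder]; exact hcoef _ _ hCa k
    rw [coeff_derivative] at h1
    have h2 : ((k + 1 : ℕ) : F) ≠ 0 := by
      intro h0
      rw [CharP.cast_eq_zero_iff F p] at h0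
      have := Nat.le_of_dvd (Nat.succ_pos k) h0
      omega
    have h3 : coeff (f ^ p) (k + 1) * ((k : A) + 1) = ((k + 1 : ℕ) : F) • coeff (f ^ p) (k + 1) := by
      rw [Algebra.smul_def, map_natCast]
      push_cast
      exact ((Nat.cast_commute k _).add_left (Commute.one_left _)).eq.symm
    rw [h3] at h1
    have h4 := S.smul_mem (((k + 1 : ℕ) : F)⁻¹) h1
    rwa [smul_smul, inv_mul_cancel₀ h2, one_smul] at h4
  have hnd : natDegree f ≤ 1 := by
    rw [hf]
    refine natDegree_add_le_of_degree_le ((natDegree_C b).le.trans (Nat.zero_le _)) ?_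
    refine (natDegree_mul_le).trans ?_
    rw [natDegree_C]
    have := natDegree_X_le (R := A)
    omega
  have hpow : ∀ n, natDegree (f ^ n) ≤ n ∧ coeff (f ^ n) n = a ^ n ∧ coeff (f ^ n) 0 = b ^ n := by
    intro n
    induction n with
    | zero => refine ⟨by simp, by simp, by simp⟩
    | succ n ih =>
      refine ⟨?_, ?_, ?_⟩
      · rw [pow_succ]
        exact natDegree_mul_le.trans (by omega)
      · rw [pow_succ, coeff_mul_add_eq_of_natDegree_le ih.1 hnd, ih.2.1, pow_succ]
        congr 1
        rw [hf, coeff_add, coeff_X_mul, coeff_C, coeff_C]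
        simp
      · rw [pow_succ, mul_coeff_zero, ih.2.2, pow_succ]
        congr 1
        rw [hf, coeff_add, mul_coeff_zero, coeff_X_zero, zero_mul, coeff_C_zero, add_zero]
  -- evaluation at 1
  set ev : A[X] →+* A := eval₂RingHom' (RingHom.id A) 1 (fun a => Commute.one_right a) with hev
  have hevf : ev f = a + b := by
    rw [hev, hf]
    simp [add_comm]
  have hsum : (a + b) ^ p = ∑ i ∈ Finset.range (p + 1), coeff (f ^ p) i := by
    rw [← hevf, ← map_pow]
    show eval₂ (RingHom.id A) 1 (f ^ p) = _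
    rw [eval₂_eq_sum_range' (RingHom.id A) (Nat.lt_succ_of_le (hpow p).1)]
    refine Finset.sum_congr rfl fun i _ => ?_
    rw [one_pow, mul_one]; rfl
  rw [hsum, Finset.sum_range_succ, (hpow p).2.1]
  obtain ⟨q, hq⟩ : ∃ q, p = q + 1 := ⟨p - 1, by have := hp.pos; omega⟩
  have hs2 : ∑ i ∈ Finset.range p, coeff (f ^ p) i = (∑ i ∈ Finset.range q, coeff (f ^ p) (i + 1)) + b ^ p := by
    have e : Finset.range p = Finset.range (q + 1) := by rw [← hq]
    rw [e, Finset.sum_range_succ', (hpow p).2.2]
  rw [hs2]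
  have : (∑ i ∈ Finset.range q, coeff (f ^ p) (i + 1)) + b ^ p + a ^ p - a ^ p - b ^ p =
      ∑ i ∈ Finset.range q, coeff (f ^ p) (i + 1) := by abel
  rw [this]
  refine Submodule.sum_mem _ fun i hi => hmid i ?_
  have := Finset.mem_range.1 hi
  omega

end Cfsg.Agent.H927.Jac
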