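import Cfsg.Agent.H927.E6Der
import Cfsg.Agent.H927.JacobsonFormula

/-!
# S5927: derivations of the cubic form, part 2 (helper927)

* `IsDer X` : derivations; `isDer_D`, `isDer_D'`; `D' c` : the action on `V'`; `D'_sh`, `D'_cr`, `D_sh'`, `D_cr'`;
* `trace_D`, `trace_D'`; `pow_p_mem`, `pow_mem` : closed under `p`-th powers (Jacobson's formula);
* `one_add_mem_odd` : characteristic not 2, `D c ∘ D c = 0`: `1 + D c` belongs to the group;
* `grading` and its variants for generalized eigenspaces.
-/

set_option autoImplicit false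

namespace Cfsg.Agent.H163.E6.Der

open Cfsg Cfsg.Lie Module
open Cfsg.Agent.ChevalleyStructure.E6Min.Tables Cfsg.Agent.ChevalleyStructure.E6Min.Basic
  Cfsg.Agent.ChevalleyStructure.E6Min.Adjoint
open Cfsg.Agent.H952.F4 (sh cr tf matRep ev)
open Cfsg.Agent.H952.F4.Jord
open Cfsg.Agent.H184.GraphE6 (PM PM_mulVec PM_sq PM_transpose pi pi_pi Nm_transpose)
open scoped Matrix

universe u

variable {F : Type u} [Field F]

theorem cr_zero_left (x : I27 → F) : cr 0 x = 0 := by
  have := cr_smul_left (0 : F) 0 x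
  rwa [zero_smul, zero_smul] at this

theorem cr_zero_right (x : I27 → F) : cr x 0 = 0 := by rw [cr_comm, cr_zero_left]

/-! ### derivations -/

/-- derivations of the cubic form (with the partial polarization) -/
structure IsDer (X : (I27 → F) →ₗ[F] (I27 → F)) : Prop where
  one : ∀ x, tf (sh x) (X x) = 0
  two : ∀ x y, tf (cr x y) (X x) + tf (sh x) (X y) = 0

theorem isDer_D (c : chevE6.Idx → F) : IsDer (D c) := ⟨tf_sh_D c, tf_cr_D c⟩

theorem IsDer.tri {X : (I27 → F) →ₗ[F] (I27 → F)} (hX : IsDer X) (x y z : I27 → F) :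
    tf (cr y z) (X x) + tf (cr x z) (X y) + tf (cr x y) (X z) = 0 := by
  have h1 := hX.two (x + z) y
  have h2 := hX.two x y
  have h3 := hX.two z y
  rw [cr_add_left, map_add, tf_add_left, tf_add_right, tf_add_right, sh_add, tf_add_left, tf_add_left] at h1
  rw [cr_comm y z]
  linear_combination h1 - h2 - h3

/-- adjoint pairs of endomorphisms of `V` and `V'` -/
def Adj (X X' : (I27 → F) →ₗ[F] (I27 → F)) : Prop := ∀ x y, tf (X x) y + tf x (X' y) = 0

theorem Adj.symm {X X' : (I27 → F) →ₗ[F] (I27 → F)} (h : Adj X X') : Adj X' X := by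
  intro x y
  have := h y x
  rw [tf_comm (X y), tf_comm y] at this
  rw [add_comm]
  exact this

theorem IsDer.sh_eq {X X' : (I27 → F) →ₗ[F] (I27 → F)} (hX : IsDer X) (ha : Adj X X') (x : I27 → F) :
    X' (sh x) = cr x (X x) := by
  have key : ∀ y, tf (X' (sh x) - cr x (X x)) y = 0 := by
    intro y
    have h1 := ha y (sh x)
    have h2 := hX.two x y
    rw [tri_comm] at h2
    rw [sub_eq_add_neg, tf_add_left, ← neg_one_smul F (cr x (X x)), tf_smul_left, tf_comm (X' _)]
    rw [tf_comm (X y)] at h1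
    linear_combination h1 - h2
  exact sub_eq_zero.1 (tf_nondeg key)

theorem IsDer.cr_eq {X X' : (I27 → F) →ₗ[F] (I27 → F)} (hX : IsDer X) (ha : Adj X X') (x y : I27 → F) :
    X' (cr x y) = cr (X x) y + cr x (X y) := by
  have key : ∀ z, tf (X' (cr x y) - (cr (X x) y + cr x (X y))) z = 0 := by
    intro z
    have h1 := ha z (cr x y)
    have h2 := hX.tri x y z
    have e1 : tf (cr y z) (X x) = tf (cr (X x) y) z := by
      rw [tri_comm y z, cr_comm y]
    have e2 : tf (cr x z) (X y) = tf (cr x (X y)) z := tri_comm _ _ _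
    rw [e1, e2] at h2
    rw [sub_eq_add_neg, tf_add_left, ← neg_one_smul F (cr (X x) y + _), tf_smul_left, tf_add_left, tf_comm (X' _)]
    rw [tf_comm (X z)] at h1
    linear_combination h1 - h2
  exact sub_eq_zero.1 (tf_nondeg key)

/-! ### the action on `V'` -/

theorem tf_eq_dot (x y : I27 → F) : tf x y = x ⬝ᵥ (PM F *ᵥ y) := by
  have h : (PM F *ᵥ y) = fun a => y (pi a) := by
    funext a; exact PM_mulVec y a
  rw [h, tf_eq]
  simp only [dotProduct, Fintype.sum_prod_type, Fin.sum_univ_three, pi, Matrix.cons_val_zero, Matrix.cons_val_one,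
    Matrix.cons_val]

/-- the action of the Lie algebra on `V'` -/
noncomputable def D' (c : chevE6.Idx → F) : (I27 → F) →ₗ[F] (I27 → F) :=
  Matrix.toLin' (-(PM F * (comb c)ᵀ * PM F))

theorem D'_apply (c : chevE6.Idx → F) (x : I27 → F) : D' c x = (-(PM F * (comb c)ᵀ * PM F)) *ᵥ x :=
  Matrix.toLin'_apply _ _

theorem adj_D (c : chevE6.Idx → F) : Adj (D c) (D' c) := by
  intro x y
  rw [D_apply, D'_apply, Matrix.neg_mulVec, tf_neg_right, tf_eq_dot, tf_eq_dot, Matrix.mulVec_mulVec, ← mul_assoc,
    ← mul_assoc, PM_sq, one_mul, ← Matrix.mulVec_mulVec, Matrix.dotProduct_mulVec x, Matrix.vecMul_transpose,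
    add_neg_cancel]

theorem adj_D' (c : chevE6.Idx → F) : Adj (D' c) (D c) := (adj_D c).symm

theorem sh_PM (x : I27 → F) : sh (PM F *ᵥ x) = PM F *ᵥ sh x := by
  have h : ∀ y : I27 → F, (PM F *ᵥ y) = fun a => y (pi a) := by
    intro y; funext a; exact PM_mulVec y a
  rw [h, h]
  refine ext27 fun k i j => ?_
  fin_cases k <;> fin_cases i <;> fin_cases j <;>
    simp only [Fin.zero_eta, Fin.mk_one, Fin.reduceFinMk, pi, Matrix.cons_val_zero, Matrix.cons_val_one,
      Matrix.cons_val, sh000, sh001, sh002, sh010, sh011,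
      sh012, sh020, sh021, sh022, sh100, sh101, sh102, sh110, sh111, sh112, sh120, sh121, sh122, sh200, sh201, sh202,
      sh210, sh211, sh212, sh220, sh221, sh222] <;> ring

theorem cr_PM (x y : I27 → F) : cr (PM F *ᵥ x) (PM F *ᵥ y) = PM F *ᵥ cr x y := by
  unfold cr
  rw [← Matrix.mulVec_add, sh_PM, sh_PM, sh_PM, Matrix.mulVec_sub, Matrix.mulVec_sub]

theorem tf_PM (x y : I27 → F) : tf (PM F *ᵥ x) y = tf x (PM F *ᵥ y) := by
  have h1 : PM F * PM F = 1 := PM_sq
  rw [tf_eq_dot, tf_eq_dot, Matrix.mulVec_mulVec, h1, Matrix.one_mulVec, Matrix.dotProduct_mulVec (PM F *ᵥ x),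
    Matrix.vecMul_mulVec, PM_transpose, h1, Matrix.vecMul_one]

/-- the transposed coefficients -/
def flip (c : chevE6.Idx → F) : chevE6.Idx → F
  | Sum.inl i => c (Sum.inl i)
  | Sum.inr r => c (Sum.inr (Fin.rev r))

theorem comb_transpose (c : chevE6.Idx → F) : (comb c)ᵀ = comb (flip c) := by
  rw [comb_split, comb_split, Matrix.transpose_add, Matrix.transpose_sum, Matrix.transpose_sum]
  congr 1
  · refine Finset.sum_congr rfl fun i _ => ?_
    rw [Matrix.transpose_smul]
    unfold Hm
    rw [Matrix.diagonal_transpose]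
    rfl
  · refine Fintype.sum_equiv Fin.revPerm _ _ fun r => ?_
    rw [Matrix.transpose_smul, Nm_transpose (lt72 r)]
    have h1 : (Fin.revPerm r).val = 71 - r.val := by
      rw [Fin.revPerm_apply, Fin.val_rev]
      change 72 - (r.val + 1) = 71 - r.val
      omega
    rw [h1]
    have h2 : flip c (Sum.inr (Fin.revPerm r)) = c (Sum.inr r) := by
      show c (Sum.inr (Fin.rev (Fin.rev r))) = _
      rw [Fin.rev_rev]
    rw [h2]

theorem D'_eq (c : chevE6.Idx → F) (x : I27 → F) : D' c x = -(PM F *ᵥ (D (flip c) (PM F *ᵥ x))) := by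
  rw [D'_apply, D_apply, Matrix.neg_mulVec, comb_transpose, Matrix.mulVec_mulVec, Matrix.mulVec_mulVec, mul_assoc]

theorem isDer_D' (c : chevE6.Idx → F) : IsDer (D' c) := by
  constructor
  · intro x
    rw [D'_eq, tf_neg_right, ← tf_PM, ← sh_PM, tf_sh_D, neg_zero]
  · intro x y
    rw [D'_eq, D'_eq, tf_neg_right, tf_neg_right, ← tf_PM, ← tf_PM, ← sh_PM, ← cr_PM]
    have := tf_cr_D (flip c) (PM F *ᵥ x) (PM F *ᵥ y)
    linear_combination -this

theorem D'_sh (c : chevE6.Idx → F) (x : I27 → F) : D' c (sh x) = cr x (D c x) := (isDer_D c).sh_eq (adj_D c) x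

theorem D'_cr (c : chevE6.Idx → F) (x y : I27 → F) : D' c (cr x y) = cr (D c x) y + cr x (D c y) :=
  (isDer_D c).cr_eq (adj_D c) x y

theorem D_sh' (c : chevE6.Idx → F) (y : I27 → F) : D c (sh y) = cr y (D' c y) := (isDer_D' c).sh_eq (adj_D' c) y

theorem D_cr' (c : chevE6.Idx → F) (x y : I27 → F) : D c (cr x y) = cr (D' c x) y + cr x (D' c y) :=
  (isDer_D' c).cr_eq (adj_D' c) x y

/-! ### traces -/

theorem sum_wt {i : ℕ} (hi : i < 6) : ∑ x : I27, wt x i = 0 := by
  interval_cases i <;> decide +kernel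

theorem trace_comb (c : chevE6.Idx → F) : (comb c).trace = 0 := by
  unfold Matrix.trace
  simp only [Matrix.diag_apply, comb_apply_diag]
  rw [Finset.sum_comm]
  refine Finset.sum_eq_zero fun i _ => ?_
  rw [← Finset.mul_sum, ← Int.cast_sum, sum_wt (lt6 i), Int.cast_zero, mul_zero]

theorem trace_D (c : chevE6.Idx → F) : LinearMap.trace F (I27 → F) (D c) = 0 := by
  unfold D
  rw [Matrix.trace_toLin'_eq, trace_comb]

/-! ### powers -/

theorem pow_p_LA {p : ℕ} (hp : p.Prime) [CharP F p] {M : Matrix I27 I27 F} (hM : M ∈ LA F) : M ^ p ∈ LA F := by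
  have hS : ∀ a ∈ LA F, ∀ b ∈ LA F, a * b - b * a ∈ LA F := fun a ha b hb => bracket_mem ha hb
  unfold LA at hM
  induction hM using Submodule.span_induction with
  | mem x hx =>
    obtain ⟨a, rfl⟩ := hx
    rcases a with i | r
    · have : B F (Sum.inl i) ^ p = B F (Sum.inl i) := by
        rw [B_inl]
        unfold Hm
        rw [Matrix.diagonal_pow]
        congr 1
        funext x
        have : Fact p.Prime := ⟨hp⟩
        rw [Pi.pow_apply]
        exact map_intCast (frobenius F p) _
      rw [this]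
      exact B_mem _
    · rw [B_inr]
      obtain ⟨q, hq⟩ : ∃ q, p = q + 2 := ⟨p - 2, by have := hp.two_le; omega⟩
      rw [hq, pow_add, pow_two, Nm_sq (lt72 r), mul_zero]
      exact zero_mem _
  | zero => rw [zero_pow hp.ne_zero]; exact zero_mem _
  | add y z hy hz h3 h4 =>
    have h5 := Cfsg.Agent.H927.Jac.jacobson hp (LA F) hS hy hz
    have h6 : (y + z) ^ p = ((y + z) ^ p - y ^ p - z ^ p) + y ^ p + z ^ p := by abel
    rw [h6]
    exact add_mem (add_mem h5 h3) h4
  | smul t y _ h1 =>
    rw [smul_pow]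
    exact Submodule.smul_mem _ _ h1

theorem D_pow (c : chevE6.Idx → F) (n : ℕ) : D c ^ n = Matrix.toLin' (comb c ^ n) := by
  induction n with
  | zero => rw [pow_zero, pow_zero, Matrix.toLin'_one]; rfl
  | succ n ih => rw [pow_succ, pow_succ, Matrix.toLin'_mul, ih]; rfl

/-- the Lie algebra is closed under `p`-th powers -/
theorem pow_p_mem {p : ℕ} (hp : p.Prime) [CharP F p] (c : chevE6.Idx → F) : ∃ c' : chevE6.Idx → F, D c' = D c ^ p := by
  obtain ⟨c', hc'⟩ := mem_LA_iff.1 (pow_p_LA hp (mem_LA_iff.2 ⟨c, rfl⟩))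
  refine ⟨c', ?_⟩
  rw [D_pow, ← hc']
  rfl

/-- the Lie algebra is closed under `p ^ i`-th powers -/
theorem pow_mem {p : ℕ} (hp : p.Prime) [CharP F p] (c : chevE6.Idx → F) (i : ℕ) :
    ∃ c' : chevE6.Idx → F, D c' = D c ^ (p ^ i) := by
  induction i with
  | zero => exact ⟨c, by rw [pow_zero, pow_one]⟩
  | succ i ih =>
    obtain ⟨c', hc'⟩ := ih
    obtain ⟨c'', hc''⟩ := pow_p_mem hp c'
    exact ⟨c'', by rw [hc'', hc', ← pow_mul, pow_succ]⟩

/-! ### the exponential in characteristic not 2 -/

/-- characteristic not 2: the image of a derivation of square 0 is totally singular -/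
theorem ts_of_sq (h2 : (2 : F) ≠ 0) {X : (I27 → F) →ₗ[F] (I27 → F)} (hX : IsDer X) (hsq : ∀ x, X (X x) = 0) :
    TS (LinearMap.range X) := by
  have key : ∀ x y z, tf (cr x (X y)) (X z) = 0 := by
    -- `F(a, b, c) = tf (cr a (X b)) (X c)` is symmetric in `b, c` and skew-symmetric in `a, b`
    have h1 : ∀ a b c, tf (cr b (X c)) (X a) + tf (cr a (X c)) (X b) = 0 := by
      intro a b c
      have := hX.tri a b (X c)
      rw [hsq, tf_zero_right, add_zero] at this
      exact this
    have h3 : ∀ a b c, tf (cr a (X b)) (X c) = tf (cr a (X c)) (X b) := fun a b c => tri_comm _ _ _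
    intro x y z
    have e1 := h1 x z y
    have e2 := h1 y x z
    have e3 := h1 y z x
    have e4 := h3 x y z
    have e5 := h3 y x z
    have e6 := h3 z x y
    have h4 : (2 : F) * tf (cr x (X y)) (X z) = 0 := by linear_combination e1 + e4 + e2 - e3 + e5 + e6
    exact (mul_eq_zero.1 h4).resolve_left h2
  have hcr : ∀ y z, cr (X y) (X z) = 0 := by
    intro y z
    apply tf_nondeg
    intro x
    rw [tf_comm, ← tf_cr]
    exact key x y z
  have hsh : ∀ y, sh (X y) = 0 := by
    intro y
    have := hcr y y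
    rw [cr_self] at this
    exact (smul_eq_zero.1 this).resolve_left h2
  refine ⟨?_, ?_⟩
  · rintro _ ⟨y, rfl⟩
    exact hsh y
  · rintro _ ⟨y, rfl⟩ _ ⟨z, rfl⟩
    exact hcr y z

/-- `1 + X` for a derivation `X` with totally singular image and square 0 -/
theorem one_add_mem_of_ts [Finite F] (h3 : 3 ≤ Nat.card F) {X : (I27 → F) →ₗ[F] (I27 → F)} (hX : IsDer X)
    (hsq : ∀ x, X (X x) = 0) (hts : ∀ y, sh (X y) = 0) : ∃ g : ↥(Zgrp F), ∀ x, V F g x = x + X x := by
  classical
  have := Fintype.ofFinite F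
  have hF : 3 ≤ Fintype.card F := by rwa [← Nat.card_eq_fintype_card]
  set M := LinearMap.toMatrix' X with hM
  have hMX : ∀ x, M *ᵥ x = X x := fun x => by rw [← Matrix.toLin'_apply, hM, Matrix.toLin'_toMatrix']
  have hMM : M * M = 0 := by
    rw [hM, ← LinearMap.toMatrix'_comp, show X ∘ₗ X = 0 from LinearMap.ext hsq, map_zero]
  let g : GL I27 F := ⟨1 + M, 1 - M, by
    rw [mul_sub, mul_one, add_mul, one_mul, hMM]; abel, by
    rw [mul_add, mul_one, sub_mul, one_mul, hMM]; abel⟩
  have hgv : ∀ x, (g : Matrix I27 I27 F) *ᵥ x = x + X x := by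
    intro x
    change (1 + M) *ᵥ x = _
    rw [Matrix.add_mulVec, Matrix.one_mulVec, hMX]
  have hg : g ∈ E6univ F := by
    intro v
    change cubicT ((g : Matrix I27 I27 F) *ᵥ v) = cubicT v
    have hN : cubicT (X v) = 0 := by
      have h1 := sh_sh (X v)
      have h0 : sh (0 : I27 → F) = 0 := by
        have := sh_smul (0 : F) (0 : I27 → F)
        rwa [zero_smul, zero_pow two_ne_zero, zero_smul] at this
      rw [hts, h0] at h1
      rcases smul_eq_zero.1 h1.symm with h | h
      · exact h
      · rw [h, ← zero_smul F (0 : I27 → F), N_smul]; ring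
    rw [hgv, N_add, hX.one, hts, tf_zero_right, hN, add_zero, add_zero, add_zero]
  rw [← Cfsg.Agent.ChevalleyStructure.E6Min.Torus.Zgrp_eq hF] at hg
  exact ⟨⟨g, hg⟩, fun x => hgv x⟩

/-- the exponential in odd characteristic -/
theorem one_add_mem_odd [Finite F] (h2 : (2 : F) ≠ 0) (c : chevE6.Idx → F) (hsq : ∀ x, D c (D c x) = 0) :
    TS (LinearMap.range (D c)) ∧ ∃ g : ↥(Zgrp F), ∀ x, V F g x = x + D c x := by
  have hts := ts_of_sq h2 (isDer_D c) hsq
  have h3 : 3 ≤ Nat.card F := by
    classical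
    have := Fintype.ofFinite F
    rw [Nat.card_eq_fintype_card]
    have h1 : ({0, 1, 2} : Finset F).card = 3 := by
      rw [Finset.card_insert_of_notMem, Finset.card_insert_of_notMem, Finset.card_singleton]
      · rw [Finset.mem_singleton]
        intro h
        have : (1 : F) = 0 := by linear_combination -h
        exact one_ne_zero this
      · rw [Finset.mem_insert, Finset.mem_singleton, not_or]
        exact ⟨zero_ne_one, fun h => h2 h.symm⟩
    rw [← h1]
    exact Finset.card_le_univ _
  exact ⟨hts, one_add_mem_of_ts h3 (isDer_D c) hsq fun y => hts.1 _ ⟨y, rfl⟩⟩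

/-! ### the grading -/

theorem IsDer.grading_aux {X : (I27 → F) →ₗ[F] (I27 → F)} (hX : IsDer X) {l m n : F} (h : l + m + n ≠ 0) :
    ∀ (N a b c : ℕ), a + b + c ≤ N → ∀ x y z, ((X - l • (1 : Module.End F (I27 → F))) ^ a) x = 0 →
      ((X - m • (1 : Module.End F (I27 → F))) ^ b) y = 0 → ((X - n • (1 : Module.End F (I27 → F))) ^ c) z = 0 →
      tf (cr x y) z = 0 := by
  intro N
  induction N with
  | zero =>
    intro a b c hN x y z hx _ _
    have ha : a = 0 := by omega
    subst ha
    rw [pow_zero] at hx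
    have hx : x = 0 := hx
    have e : cr x y = 0 := by
      rw [hx, cr_zero_left]
    rw [e, tf_zero_left]
  | succ N ih =>
    intro a b c hN x y z hx hy hz
    rcases a with _ | a
    · rw [pow_zero] at hx
      have hx : x = 0 := hx
      have e : cr x y = 0 := by
        rw [hx, cr_zero_left]
      rw [e, tf_zero_left]
    rcases b with _ | b
    · rw [pow_zero] at hy
      have hy : y = 0 := hy
      have e : cr x y = 0 := by
        rw [hy, cr_zero_right]
      rw [e, tf_zero_left]
    rcases c with _ | c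
    · rw [pow_zero] at hz
      have hz : z = 0 := hz
      rw [hz, tf_zero_right]
    have e1 := ih a (b + 1) (c + 1) (by omega) ((X - l • (1 : Module.End F (I27 → F))) x) y z
      (by rw [pow_succ] at hx; exact hx) hy hz
    have e2 := ih (a + 1) b (c + 1) (by omega) x ((X - m • (1 : Module.End F (I27 → F))) y) z hx
      (by rw [pow_succ] at hy; exact hy) hz
    have e3 := ih (a + 1) (b + 1) c (by omega) x y ((X - n • (1 : Module.End F (I27 → F))) z) hx hy
      (by rw [pow_succ] at hz; exact hz)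
    have ex : (X - l • (1 : Module.End F (I27 → F))) x = X x + (-l) • x := by
      rw [neg_smul, ← sub_eq_add_neg]; rfl
    have ey : (X - m • (1 : Module.End F (I27 → F))) y = X y + (-m) • y := by
      rw [neg_smul, ← sub_eq_add_neg]; rfl
    have ez : (X - n • (1 : Module.End F (I27 → F))) z = X z + (-n) • z := by
      rw [neg_smul, ← sub_eq_add_neg]; rfl
    rw [ex, cr_add_left, cr_smul_left, tf_add_left, tf_smul_left] at e1
    rw [ey, cr_add_right, cr_smul_right, tf_add_left, tf_smul_left] at e2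
    rw [ez, tf_add_right, tf_smul_right] at e3
    have h4 := hX.tri x y z
    have e5 : tf (cr y z) (X x) = tf (cr (X x) y) z := by
      rw [tri_comm y z, cr_comm y]
    have e6 : tf (cr x z) (X y) = tf (cr x (X y)) z := tri_comm _ _ _
    rw [e5, e6] at h4
    have h5 : (l + m + n) * tf (cr x y) z = 0 := by linear_combination h4 - e1 - e2 - e3
    exact (mul_eq_zero.1 h5).resolve_left h

/-- the grading by generalized eigenspaces -/
theorem IsDer.grading {X : (I27 → F) →ₗ[F] (I27 → F)} (hX : IsDer X) {l m n : F} (h : l + m + n ≠ 0) {x y z : I27 → F}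
    (hx : x ∈ Module.End.maxGenEigenspace X l) (hy : y ∈ Module.End.maxGenEigenspace X m)
    (hz : z ∈ Module.End.maxGenEigenspace X n) : tf (cr x y) z = 0 := by
  rw [Module.End.mem_maxGenEigenspace] at hx hy hz
  obtain ⟨a, ha⟩ := hx
  obtain ⟨b, hb⟩ := hy
  obtain ⟨c, hc⟩ := hz
  exact hX.grading_aux h _ a b c le_rfl x y z ha hb hc

theorem IsDer.cr_aux {X X' : (I27 → F) →ₗ[F] (I27 → F)} (hX : IsDer X) (ha : Adj X X') {l m : F} :
    ∀ (N a b : ℕ), a + b ≤ N → ∀ x y, ((X - l • (1 : Module.End F (I27 → F))) ^ a) x = 0 →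
      ((X - m • (1 : Module.End F (I27 → F))) ^ b) y = 0 →
      ((X' - (l + m) • (1 : Module.End F (I27 → F))) ^ N) (cr x y) = 0 := by
  intro N
  induction N with
  | zero =>
    intro a b hN x y hx _
    have ha : a = 0 := by omega
    subst ha
    rw [pow_zero] at hx
    have hx : x = 0 := hx
    rw [hx, cr_zero_left, map_zero]
  | succ N ih =>
    intro a b hN x y hx hy
    rcases a with _ | a
    · rw [pow_zero] at hx
      have hx : x = 0 := hx
      rw [hx, cr_zero_left, map_zero]
    rcases b with _ | b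
    · rw [pow_zero] at hy
      have hy : y = 0 := hy
      rw [hy, cr_zero_right, map_zero]
    have e1 := ih a (b + 1) (by omega) ((X - l • (1 : Module.End F (I27 → F))) x) y
      (by rw [pow_succ] at hx; exact hx) hy
    have e2 := ih (a + 1) b (by omega) x ((X - m • (1 : Module.End F (I27 → F))) y) hx
      (by rw [pow_succ] at hy; exact hy)
    have ex : (X - l • (1 : Module.End F (I27 → F))) x = X x + (-l) • x := by
      rw [neg_smul, ← sub_eq_add_neg]; rfl
    have ey : (X - m • (1 : Module.End F (I27 → F))) y = X y + (-m) • y := by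
      rw [neg_smul, ← sub_eq_add_neg]; rfl
    have e3 : (X' - (l + m) • (1 : Module.End F (I27 → F))) (cr x y) =
        cr ((X - l • (1 : Module.End F (I27 → F))) x) y + cr x ((X - m • (1 : Module.End F (I27 → F))) y) := by
      rw [ex, ey, cr_add_left, cr_smul_left, cr_add_right, cr_smul_right]
      have : (X' - (l + m) • (1 : Module.End F (I27 → F))) (cr x y) = X' (cr x y) - (l + m) • cr x y := rfl
      rw [this, hX.cr_eq ha]
      module
    rw [pow_succ]
    show ((X' - (l + m) • (1 : Module.End F (I27 → F))) ^ N) ((X' - (l + m) • (1 : Module.End F (I27 → F))) (cr x y)) = 0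
    rw [e3, map_add, e1, e2, add_zero]

/-- `cr : V_l × V_m → V'_(l+m)` -/
theorem IsDer.cr_mem {X X' : (I27 → F) →ₗ[F] (I27 → F)} (hX : IsDer X) (ha : Adj X X') {l m : F} {x y : I27 → F}
    (hx : x ∈ Module.End.maxGenEigenspace X l) (hy : y ∈ Module.End.maxGenEigenspace X m) :
    cr x y ∈ Module.End.maxGenEigenspace X' (l + m) := by
  rw [Module.End.mem_maxGenEigenspace] at hx hy ⊢
  obtain ⟨a, ha'⟩ := hx
  obtain ⟨b, hb⟩ := hy
  exact ⟨a + b, hX.cr_aux ha _ a b le_rfl x y ha' hb⟩

/-- `sh : V_l → V'_(2l)` -/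
theorem IsDer.sh_mem {X X' : (I27 → F) →ₗ[F] (I27 → F)} (hX : IsDer X) (ha : Adj X X') {l : F} {x : I27 → F}
    (hx : x ∈ Module.End.maxGenEigenspace X l) : sh x ∈ Module.End.maxGenEigenspace X' (2 * l) := by
  have hx' := hx
  rw [Module.End.mem_maxGenEigenspace] at hx' ⊢
  obtain ⟨a, ha'⟩ := hx'
  have h1 : (X - l • (1 : Module.End F (I27 → F))) x ∈ Module.End.maxGenEigenspace X l := by
    rw [Module.End.mem_maxGenEigenspace]
    refine ⟨a, ?_⟩
    have : ((X - l • (1 : Module.End F (I27 → F))) ^ a) ((X - l • (1 : Module.End F (I27 → F))) x) =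
        (X - l • (1 : Module.End F (I27 → F))) (((X - l • (1 : Module.End F (I27 → F))) ^ a) x) := by
      have h : (X - l • (1 : Module.End F (I27 → F))) ^ a * (X - l • (1 : Module.End F (I27 → F))) =
          (X - l • (1 : Module.End F (I27 → F))) * (X - l • (1 : Module.End F (I27 → F))) ^ a := by
        rw [← pow_succ, ← pow_succ']
      exact LinearMap.congr_fun h x
    rw [this, ha', map_zero]
  have h2 := hX.cr_mem ha hx h1
  rw [Module.End.mem_maxGenEigenspace] at h2
  obtain ⟨k, hk⟩ := h2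
  refine ⟨k + 1, ?_⟩
  have ex : (X - l • (1 : Module.End F (I27 → F))) x = X x + (-l) • x := by
    rw [neg_smul, ← sub_eq_add_neg]; rfl
  have e3 : (X' - (2 * l) • (1 : Module.End F (I27 → F))) (sh x) =
      cr x ((X - l • (1 : Module.End F (I27 → F))) x) := by
    have : (X' - (2 * l) • (1 : Module.End F (I27 → F))) (sh x) = X' (sh x) - (2 * l) • sh x := rfl
    rw [this, hX.sh_eq ha, ex, cr_add_right, cr_smul_right, cr_self]
    module
  rw [pow_succ]
  show ((X' - (2 * l) • (1 : Module.End F (I27 → F))) ^ k) ((X' - (2 * l) • (1 : Module.End F (I27 → F))) (sh x)) = 0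
  rw [e3, two_mul]
  exact hk

/-- adjoint generalized eigenspaces: `V_l ⊥ V'_m` unless `l + m = 0` -/
theorem Adj.perp {X X' : (I27 → F) →ₗ[F] (I27 → F)} (ha : Adj X X') {l m : F} (h : l + m ≠ 0) {x y : I27 → F}
    (hx : x ∈ Module.End.maxGenEigenspace X l) (hy : y ∈ Module.End.maxGenEigenspace X' m) : tf x y = 0 := by
  rw [Module.End.mem_maxGenEigenspace] at hx hy
  obtain ⟨a, ha'⟩ := hx
  obtain ⟨b, hb⟩ := hy
  have key : ∀ (N a b : ℕ), a + b ≤ N → ∀ x y, ((X - l • (1 : Module.End F (I27 → F))) ^ a) x = 0 →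
      ((X' - m • (1 : Module.End F (I27 → F))) ^ b) y = 0 → tf x y = 0 := by
    intro N
    induction N with
    | zero =>
      intro a b hN x y hx _
      have ha : a = 0 := by omega
      subst ha
      rw [pow_zero] at hx
      have hx : x = 0 := hx
      rw [hx, tf_zero_left]
    | succ N ih =>
      intro a b hN x y hx hy
      rcases a with _ | a
      · rw [pow_zero] at hx
        have hx : x = 0 := hx
        rw [hx, tf_zero_left]
      rcases b with _ | b
      · rw [pow_zero] at hy
        have hy : y = 0 := hy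
        rw [hy, tf_zero_right]
      have e1 := ih a (b + 1) (by omega) ((X - l • (1 : Module.End F (I27 → F))) x) y
        (by rw [pow_succ] at hx; exact hx) hy
      have e2 := ih (a + 1) b (by omega) x ((X' - m • (1 : Module.End F (I27 → F))) y) hx
        (by rw [pow_succ] at hy; exact hy)
      have ex : (X - l • (1 : Module.End F (I27 → F))) x = X x + (-l) • x := by
        rw [neg_smul, ← sub_eq_add_neg]; rfl
      have ey : (X' - m • (1 : Module.End F (I27 → F))) y = X' y + (-m) • y := by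
        rw [neg_smul, ← sub_eq_add_neg]; rfl
      rw [ex, tf_add_left, tf_smul_left] at e1
      rw [ey, tf_add_right, tf_smul_right] at e2
      have h4 := ha x y
      have h5 : (l + m) * tf x y = 0 := by linear_combination h4 - e1 - e2
      exact (mul_eq_zero.1 h5).resolve_left h
  exact key _ a b le_rfl x y ha' hb

end Cfsg.Agent.H163.E6.Der
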