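import Cfsg.Agent.H927.SzLaur
import Cfsg.Agent.H334.Symp.ModelSetup
import Cfsg.Agent.LieClassical.SLTwoUnipotent
import Cfsg.Agent.ClassicalGeometry.PSL2Basic
import Cfsg.Agent.S1030

/-!
# The group generated by opposite long root subgroups is perfect and has no small quotients (S2539, part 1)
-/

set_option autoImplicit false

namespace Cfsg.Agent.H927.Sz

open Cfsg.Lie Cfsg.Agent.ChevalleyStructure Cfsg.Agent.ChevalleyStructure.RootCombGood
  Cfsg.Agent.ChevalleyStructure.RootWord Cfsg.Agent.ChevalleyStructure.Elts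
  Cfsg.Agent.H86.Lev Cfsg.Agent.H86.Graded Cfsg.Agent.H86.Par
  Cfsg.Agent.LieClassical.SLTwoUnipotent

open Matrix (SpecialLinearGroup)

universe u

variable {D : ChevalleyDatum} {K : Type u} [Field K]

open scoped commutatorElement in
/-- `A ⊔ B` is perfect -/
theorem Opp.perfect (hD : InList D) {c : K} (hc0 : c ≠ 0) (hc2 : c ^ 2 ≠ 1) {A B : Subgroup (GL D.Idx K)}
    (h : Opp A B) : ⁅A ⊔ B, A ⊔ B⁆ = A ⊔ B := by
  have key : ∀ A B : Subgroup (GL D.Idx K), Opp A B → A ≤ ⁅A ⊔ B, A ⊔ B⁆ := by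
    rintro A B ⟨g, hg, rfl, rfl⟩ a ha
    obtain ⟨a', ha', e⟩ := exists_comm hD hc0 hc2 ha
    have hh := hG_mem_sup hD c g
    set h := g * hG hD (top D) c * g⁻¹ with hhd
    have e2 : a' * (h * a' * h⁻¹)⁻¹ = ⁅a', h⁆ := by
      show _ = a' * h * a'⁻¹ * h⁻¹
      group
    rw [e, e2]
    exact Subgroup.commutator_mem_commutator ((le_sup_left : Sz.cj g (XT D K) ≤ _) ha') hh
  refine le_antisymm ?_ (sup_le (key A B h) ?_)
  · rw [Subgroup.commutator_le]
    intro x hx y hy
    rw [commutatorElement_def]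
    exact Subgroup.mul_mem _ (Subgroup.mul_mem _ (Subgroup.mul_mem _ hx hy) (Subgroup.inv_mem _ hx))
      (Subgroup.inv_mem _ hy)
  · have := key B A (h.symm hD)
    rwa [sup_comm B A] at this

/-- a perfect subgroup of an extension with abelian quotient -/
theorem le_of_comm_le {G : Type*} [Group G] {X N N' : Subgroup G} (hX : ⁅X, X⁆ = X) (h1 : X ≤ N')
    (h2 : ⁅N', N'⁆ ≤ N) : X ≤ N := by
  rw [← hX]
  exact (Subgroup.commutator_mono h1 h1).trans h2

/-- homomorphism from `SL₂` onto `A ⊔ B` -/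
theorem Opp.exists_phi (hD : InList D) {A B : Subgroup (GL D.Idx K)} (h : Opp A B) :
    ∃ φ : SpecialLinearGroup (Fin 2) K →* GL D.Idx K, φ.range = A ⊔ B := by
  obtain ⟨g, hg, rfl, rfl⟩ := h
  obtain ⟨φ, -, hφ⟩ := Cfsg.Agent.S1030.result (F := K) D hD (top D) (top_lt hD)
  have hu : ∀ t : K, φ (u t) = xG hD (top D) t := fun t => Units.ext ((hφ (u t) t).1 rfl)
  have hl : ∀ t : K, φ (l t) = xG hD 0 t := fun t => Units.ext (by
    have := (hφ (l t) t).2 rfl
    rw [neg_top hD] at this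
    exact this)
  refine ⟨(MulAut.conj g).toMonoidHom.comp φ, ?_⟩
  rw [← cj_sup, MonoidHom.range_comp]
  show Sz.cj g φ.range = _
  congr 1
  refine le_antisymm ?_ (sup_le ?_ ?_)
  · have h1 : (XT D K ⊔ XB D K).comap φ = ⊤ := by
      refine eq_top_of_u_mem_of_l_mem _ (fun x => ?_) (fun x => ?_)
      · show φ (u x) ∈ XT D K ⊔ XB D K
        rw [hu]; exact (le_sup_left : XT D K ≤ _) (xG_mem_rootSubgroup hD _ _)
      · show φ (l x) ∈ XT D K ⊔ XB D K
        rw [hl]; exact (le_sup_right : XB D K ≤ _) (xG_mem_rootSubgroup hD _ _)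
    rintro _ ⟨x, rfl⟩
    have : x ∈ (XT D K ⊔ XB D K).comap φ := by rw [h1]; trivial
    exact this
  · intro x hx
    obtain ⟨t, rfl⟩ := (mem_rootSubgroup_iff hD _ _).1 hx
    exact ⟨u t, hu t⟩
  · intro x hx
    obtain ⟨t, rfl⟩ := (mem_rootSubgroup_iff hD _ _).1 hx
    exact ⟨l t, hl t⟩

theorem num_aux : ∀ q < 1118, 13 ≤ q → q * (q ^ 2 - 1) ∣ 1393459200 → q = 15 := by decide +kernel

theorem num {q : ℕ} (hq : 13 ≤ q) (h : q * (q ^ 2 - 1) ∣ 1393459200) : q = 15 := by
  refine num_aux q ?_ hq h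
  by_contra hlt
  push Not at hlt
  have h1 := Nat.le_of_dvd (by norm_num) h
  have h2 : 1118 ^ 2 ≤ q ^ 2 := Nat.pow_le_pow_left hlt 2
  have h3 : 1118 * (1118 ^ 2 - 1) ≤ q * (q ^ 2 - 1) := Nat.mul_le_mul hlt (by omega)
  norm_num at h3
  omega

theorem card_ne_fifteen (K : Type u) [Field K] [Fintype K] : Fintype.card K ≠ 15 := by
  intro h
  obtain ⟨p, hp⟩ := CharP.exists K
  obtain ⟨n, hpp, hn⟩ := FiniteField.card K p
  rw [h] at hn
  have h3 : 3 ∣ p ^ (n : ℕ) := by rw [← hn]; norm_num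
  have h5 : 5 ∣ p ^ (n : ℕ) := by rw [← hn]; norm_num
  have e3 := (Nat.prime_dvd_prime_iff_eq (by norm_num) hpp).1 (Nat.Prime.dvd_of_dvd_pow (by norm_num) h3)
  have e5 := (Nat.prime_dvd_prime_iff_eq (by norm_num) hpp).1 (Nat.Prime.dvd_of_dvd_pow (by norm_num) h5)
  omega

theorem card_center_le (K : Type u) [Field K] [Fintype K] :
    Nat.card (Subgroup.center (SpecialLinearGroup (Fin 2) K)) ≤ 2 := by
  classical
  have h1 : ∀ x ∈ Subgroup.center (SpecialLinearGroup (Fin 2) K), x = 1 ∨ x = -1 := by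
    intro x hx
    obtain ⟨r, hr, hx⟩ := Matrix.SpecialLinearGroup.mem_center_iff.1 hx
    rw [Fintype.card_fin] at hr
    rcases mul_self_eq_one_iff.1 (by rw [← sq]; exact hr : r * r = 1) with h | h
    · left
      apply Subtype.ext
      rw [← hx, h]
      simp
    · right
      apply Subtype.ext
      rw [← hx, h]
      ext i j
      fin_cases i <;> fin_cases j <;> simp
  have h2 : (Subgroup.center (SpecialLinearGroup (Fin 2) K) : Set (SpecialLinearGroup (Fin 2) K)) ⊆
      (({1, -1} : Finset (SpecialLinearGroup (Fin 2) K)) : Set (SpecialLinearGroup (Fin 2) K)) := by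
    intro x hx
    rcases h1 x hx with h | h <;> simp [h]
  have h3 := Set.ncard_le_ncard h2 (Finset.finite_toSet _)
  rw [Set.ncard_coe_finset] at h3
  exact h3.trans Finset.card_le_two

/-- homomorphisms of `SL₂(q)` into small groups are trivial -/
theorem hom_trivial [Fintype K] (hK : 13 ≤ Fintype.card K) {Y : Type*} [Group Y] [Finite Y]
    (hY : Nat.card Y ∣ 696729600) (ψ : SpecialLinearGroup (Fin 2) K →* Y) (x : SpecialLinearGroup (Fin 2) K) :
    ψ x = 1 := by
  rcases Cfsg.Agent.H334.Symp.El.sl_normal (F := K) (by omega) ψ.ker inferInstance with h | h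
  · exact MonoidHom.mem_ker.1 (by rw [h]; trivial)
  · exfalso
    have h1 : Nat.card ψ.ker * Nat.card ψ.range = Nat.card (SpecialLinearGroup (Fin 2) K) := by
      rw [← Subgroup.index_ker, Subgroup.card_mul_index]
    have h2 : Nat.card ψ.ker ≤ 2 := (Subgroup.card_le_of_le h).trans (card_center_le K)
    have h3 : Nat.card ψ.range ∣ 696729600 := (Subgroup.card_subgroup_dvd_card _).trans hY
    have h4 : 0 < Nat.card ψ.ker := Nat.card_pos
    have h5 : Nat.card ψ.ker ∣ 2 := (Nat.dvd_prime Nat.prime_two).2 (by omega)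
    have h6 : Nat.card (SpecialLinearGroup (Fin 2) K) ∣ 1393459200 := by
      rw [← h1, show (1393459200 : ℕ) = 2 * 696729600 by norm_num]
      exact Nat.mul_dvd_mul h5 h3
    rw [Cfsg.Agent.ClassicalGeometry.PSL2Basic.card_SL2] at h6
    exact card_ne_fifteen K (num hK h6)

/-- **no small quotients** -/
theorem Opp.le_of_index (hD : InList D) [Finite K] (hK : 13 ≤ Nat.card K) {A B M N : Subgroup (GL D.Idx K)}
    (h : Opp A B) (hA : A ≤ M) (hB : B ≤ M) (hN : (N.subgroupOf M).Normal) (hidx : N.relIndex M ∣ 696729600) :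
    A ⊔ B ≤ N := by
  have := Fintype.ofFinite K
  rw [Nat.card_eq_fintype_card] at hK
  obtain ⟨φ, hφ⟩ := h.exists_phi hD
  have hle : ∀ x, φ x ∈ M := fun x => (sup_le hA hB) (by rw [← hφ]; exact ⟨x, rfl⟩)
  let ψ : SpecialLinearGroup (Fin 2) K →* (M ⧸ N.subgroupOf M) :=
    (QuotientGroup.mk' (N.subgroupOf M)).comp (φ.codRestrict M hle)
  have hfin : Finite (GL D.Idx K) := inferInstance
  have key := hom_trivial hK (Y := M ⧸ N.subgroupOf M) hidx ψ
  intro y hy
  rw [← hφ] at hy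
  obtain ⟨x, rfl⟩ := hy
  have h1 : (QuotientGroup.mk' (N.subgroupOf M)) ⟨φ x, hle x⟩ = 1 := key x
  rw [QuotientGroup.mk'_apply, QuotientGroup.eq_one_iff] at h1
  exact h1

end Cfsg.Agent.H927.Sz
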