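import Cfsg.Agent.H927.SzLaur

/-!
# The two definitions of long roots agree (S2539)

`isLong_iff'` : `H412.OT.IsLong D r ↔ Sz.IsLong D r` for the six types of S2539.
-/

set_option autoImplicit false

namespace Cfsg.Agent.H927.Sz

open Cfsg.Lie Cfsg.Agent.ChevalleyStructure Cfsg.Agent.ChevalleyStructure.RootCombGood
  Cfsg.Agent.ChevalleyStructure.RootWord Cfsg.Agent.ChevalleyStructure.Elts
  Cfsg.Agent.H86.Lev Cfsg.Agent.H86.Graded Cfsg.Agent.H86.Par

theorem short_G2 : ∀ r < chevG2.nroots, longG2 r = false →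
    ∃ s < chevG2.nroots, s ≠ r ∧ s ≠ chevG2.neg r ∧ 2 ≤ car chevG2 r s := by decide +kernel

theorem short_F4 : ∀ r < chevF4.nroots, longF4 r = false →
    ∃ s < chevF4.nroots, s ≠ r ∧ s ≠ chevF4.neg r ∧ 2 ≤ car chevF4 r s := by decide +kernel

/-- table facts -/
theorem exists_hip' {D : ChevalleyDatum} (h : D ∈ [chevG2, chevD4, chevF4, chevE6, chevE7, chevE8]) :
    ∃ isL : ℕ → Bool, HiP D isL ∧ ∀ r < D.nroots, isL r = false →
      ∃ s < D.nroots, s ≠ r ∧ s ≠ D.neg r ∧ 2 ≤ car D r s := by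
  simp only [List.mem_cons, List.not_mem_nil, or_false] at h
  rcases h with rfl | rfl | rfl | rfl | rfl | rfl
  · exact ⟨_, hpG2, short_G2⟩
  · exact ⟨_, hpD4, fun r _ h => absurd h (by simp)⟩
  · exact ⟨_, hpF4, short_F4⟩
  · exact ⟨_, hpE6, fun r _ h => absurd h (by simp)⟩
  · exact ⟨_, hpE7, fun r _ h => absurd h (by simp)⟩
  · exact ⟨_, hpE8, fun r _ h => absurd h (by simp)⟩

theorem isLong_iff' {D : ChevalleyDatum} (h : D ∈ [chevG2, chevD4, chevF4, chevE6, chevE7, chevE8]) {r : ℕ} :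
    Cfsg.Agent.H412.OT.IsLong D r ↔ IsLong D r := by
  have hD : InList D := Cfsg.Agent.H412.OT.inList_of_mem h
  obtain ⟨isL, H, hsh⟩ := exists_hip' h
  constructor
  · rintro ⟨hr, hall⟩
    rw [isLong_iff hD H hr]
    by_contra hne
    obtain ⟨s, hs, h1, h2, h3⟩ := hsh r hr (by simpa using hne)
    have h4 := hall s hs h1 h2
    rw [pr_eq_car] at h4
    have h5 := le_abs_self (car D r s)
    omega
  · intro hl
    refine ⟨hl.1, fun s hs h1 h2 => ?_⟩
    rw [pr_eq_car, abs_le]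
    obtain ⟨h3, h4⟩ := hl.car_bound hD hs
    have h5 : car D r s ≠ 2 := fun e => h1 (hl.eq_of_car hD hs e)
    have h6 : car D r s ≠ -2 := by
      intro e
      have h7 : car D r (D.neg s) = 2 := by
        rw [car_neg_right (good hD) r hs, e]; norm_num
      have h8 := hl.eq_of_car hD (RootWord.neg_lt (good hD) hs) h7
      exact h2 (by rw [← h8, RootWord.neg_neg (good hD) hs])
    omega

end Cfsg.Agent.H927.Sz
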