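import Cfsg.Agent.H163.E6.Defs
import Cfsg.Agent.H952.F4.Jord

/-!
# S5927: the Lie algebra acts on `V` by derivations of the cubic form (helper927)

* `D c` : the element `c` of the Lie algebra as an endomorphism of `V`; `D_injective`, `D_act`;
* `tf_sh_D`, `tf_cr_D`, `tri_D` : derivations of the cubic form and the polarizations;
* `sq_mem` : characteristic 2: the Lie algebra is closed under squares;
* `sh_D_eq_zero` : `D c ∘ D c = 0` and rank at most 6: the image is totally singular; `one_add_mem`.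
-/

set_option autoImplicit false

namespace Cfsg.Agent.H163.E6.Der

open Cfsg Cfsg.Lie Module
open Cfsg.Agent.ChevalleyStructure.E6Min.Tables Cfsg.Agent.ChevalleyStructure.E6Min.Basic
  Cfsg.Agent.ChevalleyStructure.E6Min.Adjoint
open Cfsg.Agent.H952.F4 (sh cr tf matRep)
open Cfsg.Agent.H952.F4.Jord
open scoped Matrix

universe u

/-! ### the basis vectors over an arbitrary ring -/

section Ring

variable {R : Type u} [CommRing R]

open Polynomial in
theorem Nm_cst (r : ℕ) (x : I27 → R) : Nm R[X] r *ᵥ cst x = cst (Nm R r *ᵥ x) := by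
  funext a
  rw [Nm_mulVec, cst_apply, cst_apply, Nm_mulVec, map_mul, map_intCast]

open Polynomial in
theorem Hm_cst (i : ℕ) (x : I27 → R) : Hm R[X] i *ᵥ cst x = cst (Hm R i *ᵥ x) := by
  funext a
  unfold Hm
  rw [cst_apply, Matrix.mulVec_diagonal, Matrix.mulVec_diagonal, cst_apply, map_mul, map_intCast]

open Polynomial in
theorem coeff_aux {a0 a1 a2 a3 b : R} (h : (C a0 + X * C a1 + X ^ 2 * C a2 + X ^ 3 * C a3 : R[X]) = C b) : a1 = 0 := by
  have h1 := congrArg (fun p : R[X] => p.coeff 1) h
  simp only [coeff_add, coeff_X_pow_mul', coeff_C] at h1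
  rw [show (1 : ℕ) = 0 + 1 from rfl, coeff_X_mul] at h1
  simpa using h1

open Polynomial in
theorem der_N {r : ℕ} (hr : r < 72) (x : I27 → R) : tf (sh x) (Nm R r *ᵥ x) = 0 := by
  have h1 := Cfsg.Agent.ChevalleyStructure.E6Min.Inv.cubicT_zM hr (X : R[X]) (cst x)
  rw [zM_def, Matrix.add_mulVec, Matrix.one_mulVec, Matrix.smul_mulVec, Nm_cst, N_add, sh_smul, cst_sh, cst_sh, N_smul,
    tf_smul_right, tf_smul_right, cst_N, cst_tf, cst_tf, cst_N] at h1
  exact coeff_aux h1

open Polynomial in
/-- polarization of `tf (sh x) (A x) = 0` -/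
theorem polar_aux {A : Matrix I27 I27 R} {A' : Matrix I27 I27 R[X]} (hA : ∀ x, A' *ᵥ cst x = cst (A *ᵥ x))
    (h : ∀ x, tf (sh x) (A' *ᵥ x) = 0) (x y : I27 → R) : tf (cr x y) (A *ᵥ x) + tf (sh x) (A *ᵥ y) = 0 := by
  have h1 := h (cst x + (X : R[X]) • cst y)
  rw [Matrix.mulVec_add, Matrix.mulVec_smul, hA, hA, sh_add, sh_smul, cst_sh, cst_sh, cr_smul_right, cst_cr,
    tf_add_right, tf_add_left, tf_add_left, tf_add_left, tf_add_left, tf_smul_right, tf_smul_right, tf_smul_right,
    tf_smul_left, tf_smul_left, tf_smul_left, tf_smul_left, cst_tf, cst_tf, cst_tf, cst_tf, cst_tf, cst_tf] at h1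
  refine coeff_aux (a0 := tf (sh x) (A *ᵥ x)) (a2 := tf (sh y) (A *ᵥ x) + tf (cr x y) (A *ᵥ y)) (a3 := tf (sh y) (A *ᵥ y))
    (b := 0) ?_
  rw [map_zero, ← h1, map_add, map_add]
  ring

theorem der2_N {r : ℕ} (hr : r < 72) (x y : I27 → R) :
    tf (cr x y) (Nm R r *ᵥ x) + tf (sh x) (Nm R r *ᵥ y) = 0 :=
  polar_aux (Nm_cst r) (fun x => der_N hr x) x y

theorem tri_comm (x y z : I27 → R) : tf (cr x y) z = tf (cr x z) y := by
  rw [tf_cr, cr_comm y z, ← tf_cr]

/-- `H_i` is the bracket of root vectors -/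
theorem Hm_eq {i : ℕ} (hi : i < 6) : Hm R i =
    Nm R (Cfsg.Agent.ChevalleyStructure.E6Min.Torus.sI i) * Nm R (71 - Cfsg.Agent.ChevalleyStructure.E6Min.Torus.sI i) -
      Nm R (71 - Cfsg.Agent.ChevalleyStructure.E6Min.Torus.sI i) * Nm R (Cfsg.Agent.ChevalleyStructure.E6Min.Torus.sI i) := by
  have hr := Cfsg.Agent.ChevalleyStructure.E6Min.Torus.sI_lt hi
  rw [Nm_mul_opp hr, Nm_opp_mul hr]
  ext x y
  rw [Hm_apply, Matrix.sub_apply, Matrix.diagonal_apply, Matrix.diagonal_apply]
  by_cases hxy : x = y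
  · simp only [hxy, if_true]
    have := allLt_spec Cfsg.Agent.ChevalleyStructure.E6Min.Torus.sI_all i hi
    rw [Bool.and_eq_true] at this
    have := allLt_spec this.2 _ (code_lt y)
    simp only [Bool.or_eq_true, Bool.and_eq_true, beq_iff_eq] at this
    unfold ind wt
    rcases this with (⟨⟨h1, h2⟩, h3⟩ | ⟨⟨h1, h2⟩, h3⟩) | ⟨⟨h1, h2⟩, h3⟩
    · rw [h1, h2, h3]; simp
    · rw [h1, h2, h3]; simp
    · rw [h1, h2, h3]; simp
  · simp only [hxy, if_false]; simp

theorem der_H {i : ℕ} (hi : i < 6) (x : I27 → R) : tf (sh x) (Hm R i *ᵥ x) = 0 := by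
  have hr := Cfsg.Agent.ChevalleyStructure.E6Min.Torus.sI_lt hi
  set r := Cfsg.Agent.ChevalleyStructure.E6Min.Torus.sI i with hrdef
  have hr' : 71 - r < 72 := by omega
  have e1 := der2_N hr x (Nm R (71 - r) *ᵥ x)
  have e2 := der2_N hr' x (Nm R r *ᵥ x)
  rw [tri_comm x (Nm R (71 - r) *ᵥ x)] at e1
  rw [Hm_eq hi, Matrix.sub_mulVec, ← Matrix.mulVec_mulVec, ← Matrix.mulVec_mulVec, ← hrdef, sub_eq_add_neg,
    ← neg_one_smul R, tf_add_right, tf_smul_right]
  linear_combination e1 - e2

theorem der2_H {i : ℕ} (hi : i < 6) (x y : I27 → R) :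
    tf (cr x y) (Hm R i *ᵥ x) + tf (sh x) (Hm R i *ᵥ y) = 0 :=
  polar_aux (Hm_cst i) (fun x => der_H hi x) x y

theorem tf_zero_right (x : I27 → R) : tf x 0 = 0 := by
  have := tf_smul_right (0 : R) x 0
  rwa [zero_smul, zero_mul] at this

theorem tf_zero_left (x : I27 → R) : tf 0 x = 0 := by rw [tf_comm, tf_zero_right]

theorem tf_neg_right (x y : I27 → R) : tf x (-y) = -tf x y := by
  rw [← neg_one_smul R y, tf_smul_right, neg_one_mul]

theorem tf_sum_right {ι : Type*} (s : Finset ι) (x : I27 → R) (f : ι → I27 → R) :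
    tf x (∑ i ∈ s, f i) = ∑ i ∈ s, tf x (f i) := by
  classical
  induction s using Finset.induction_on with
  | empty => rw [Finset.sum_empty, Finset.sum_empty, tf_zero_right]
  | insert a s ha ih => rw [Finset.sum_insert ha, Finset.sum_insert ha, tf_add_right, ih]

end Ring

variable {F : Type u} [Field F]

/-- the element of the Lie algebra as an endomorphism of `V` -/
noncomputable def D (c : chevE6.Idx → F) : (I27 → F) →ₗ[F] (I27 → F) := Matrix.toLin' (comb c)

theorem D_apply (c : chevE6.Idx → F) (x : I27 → F) : D c x = comb c *ᵥ x := Matrix.toLin'_apply _ _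

theorem D_injective : Function.Injective (D (F := F)) := by
  intro c c' h
  exact comb_injective (Matrix.toLin'.injective h)

theorem D_act (g : ↥(Zgrp F)) (c : chevE6.Idx → F) (x : I27 → F) : V F g (D c x) = D (L F g c) (V F g x) := by
  rw [D_apply, D_apply, V_apply, V_apply, Matrix.mulVec_mulVec, Matrix.mulVec_mulVec, comb_mul_of (ad_P g) c]
  rfl

theorem D_sum (c : chevE6.Idx → F) (x : I27 → F) : D c x = ∑ row, c row • (B F row *ᵥ x) := by
  rw [D_apply, comb_def, Matrix.sum_mulVec]
  refine Finset.sum_congr rfl fun row _ => ?_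
  rw [Matrix.smul_mulVec]

/-- derivations of the cubic form -/
theorem tf_sh_D (c : chevE6.Idx → F) (x : I27 → F) : tf (sh x) (D c x) = 0 := by
  rw [D_sum, tf_sum_right]
  refine Finset.sum_eq_zero fun row _ => ?_
  rw [tf_smul_right]
  rcases row with i | r
  · rw [B_inl, der_H (lt6 i), mul_zero]
  · rw [B_inr, der_N (lt72 r), mul_zero]

/-- the polarization -/
theorem tf_cr_D (c : chevE6.Idx → F) (x y : I27 → F) : tf (cr x y) (D c x) + tf (sh x) (D c y) = 0 := by
  rw [D_sum, D_sum, tf_sum_right, tf_sum_right, ← Finset.sum_add_distrib]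
  refine Finset.sum_eq_zero fun row _ => ?_
  rw [tf_smul_right, tf_smul_right, ← mul_add]
  rcases row with i | r
  · rw [B_inl, der2_H (lt6 i), mul_zero]
  · rw [B_inr, der2_N (lt72 r), mul_zero]

/-- the full polarization -/
theorem tri_D (c : chevE6.Idx → F) (x y z : I27 → F) :
    tf (cr y z) (D c x) + tf (cr x z) (D c y) + tf (cr x y) (D c z) = 0 := by
  have h1 := tf_cr_D c (x + z) y
  have h2 := tf_cr_D c x y
  have h3 := tf_cr_D c z y
  rw [cr_add_left, map_add, tf_add_left, tf_add_right, tf_add_right, sh_add, tf_add_left, tf_add_left] at h1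
  rw [cr_comm y z]
  linear_combination h1 - h2 - h3

/-! ### squares in characteristic 2 -/

/-- the Lie algebra as a space of matrices -/
noncomputable def LA (F : Type*) [Field F] : Submodule F (Matrix I27 I27 F) := Submodule.span F (Set.range (B F))

theorem mem_LA_iff {M : Matrix I27 I27 F} : M ∈ LA F ↔ ∃ c : chevE6.Idx → F, comb c = M := by
  unfold LA
  rw [Submodule.mem_span_range_iff_exists_fun]
  rfl

theorem B_mem (a : chevE6.Idx) : B F a ∈ LA F := Submodule.subset_span ⟨a, rfl⟩

theorem Nm_mem {r : ℕ} (hr : r < 72) : Nm F r ∈ LA F := B_mem (Sum.inr ⟨r, hr⟩)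

theorem Hm_mem {i : ℕ} (hi : i < 6) : Hm F i ∈ LA F := B_mem (Sum.inl ⟨i, hi⟩)

/-- the Lie algebra is closed under brackets (basis vectors) -/
theorem bracket_B (a b : chevE6.Idx) : B F a * B F b - B F b * B F a ∈ LA F := by
  rcases a with i | r <;> rcases b with j | s
  · rw [B_inl, B_inl]
    unfold Hm
    rw [Matrix.diagonal_mul_diagonal, Matrix.diagonal_mul_diagonal]
    have : (fun x => (((wt x i.val : ℤ) : F)) * ((wt x j.val : ℤ) : F)) =
        fun x => ((wt x j.val : ℤ) : F) * ((wt x i.val : ℤ) : F) := by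
      funext x; exact mul_comm _ _
    rw [this, sub_self]
    exact zero_mem _
  · rw [B_inl, B_inr, Hm_comm (lt72 s) (lt6 i)]
    exact Submodule.smul_mem _ _ (Nm_mem (lt72 s))
  · rw [B_inl, B_inr, ← neg_sub, Hm_comm (lt72 r) (lt6 j)]
    exact Submodule.neg_mem _ (Submodule.smul_mem _ _ (Nm_mem (lt72 r)))
  · rw [B_inr, B_inr]
    by_cases h : s.val + r.val = 71
    · have hs : s.val = 71 - r.val := by omega
      rw [hs, Nm_bracket_opp (lt72 r)]
      refine Submodule.sum_mem _ fun i hi => ?_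
      exact Submodule.smul_mem _ _ (Hm_mem (Finset.mem_range.1 hi))
    · by_cases hk : kN r.val s.val = 127
      · rw [Nm_comm_of_none (lt72 r) (lt72 s) h hk, sub_self]
        exact zero_mem _
      · rw [Nm_comm_of_some (lt72 r) (lt72 s) h hk]
        exact Submodule.smul_mem _ _ (Nm_mem (kN_lt (lt72 r) (lt72 s) hk))

theorem bracket_mem {M N : Matrix I27 I27 F} (hM : M ∈ LA F) (hN : N ∈ LA F) : M * N - N * M ∈ LA F := by
  unfold LA at hM hN
  induction hM using Submodule.span_induction with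
  | mem x hx =>
    obtain ⟨a, rfl⟩ := hx
    induction hN using Submodule.span_induction with
    | mem y hy =>
      obtain ⟨b, rfl⟩ := hy
      exact bracket_B a b
    | zero => rw [mul_zero, zero_mul, sub_zero]; exact zero_mem _
    | add y z _ _ h1 h2 =>
      have : B F a * (y + z) - (y + z) * B F a = (B F a * y - y * B F a) + (B F a * z - z * B F a) := by
        rw [mul_add, add_mul]; abel
      rw [this]; exact add_mem h1 h2
    | smul t y _ h1 =>
      have : B F a * (t • y) - (t • y) * B F a = t • (B F a * y - y * B F a) := by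
        rw [mul_smul_comm, smul_mul_assoc, smul_sub]
      rw [this]; exact Submodule.smul_mem _ _ h1
  | zero => rw [mul_zero, zero_mul, sub_zero]; exact zero_mem _
  | add y z _ _ h1 h2 =>
    have : (y + z) * N - N * (y + z) = (y * N - N * y) + (z * N - N * z) := by
      rw [mul_add, add_mul]; abel
    rw [this]; exact add_mem h1 h2
  | smul t y _ h1 =>
    have : (t • y) * N - N * (t • y) = t • (y * N - N * y) := by
      rw [mul_smul_comm, smul_mul_assoc, smul_sub]
    rw [this]; exact Submodule.smul_mem _ _ h1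

theorem sq_B (h2 : (2 : F) = 0) (a : chevE6.Idx) : B F a * B F a ∈ LA F := by
  rcases a with i | r
  · have : B F (Sum.inl i) * B F (Sum.inl i) = B F (Sum.inl i) := by
      rw [B_inl]
      unfold Hm
      rw [Matrix.diagonal_mul_diagonal]
      congr 1
      funext x
      have h1 : (2 : ℤ) ∣ wt x i.val * wt x i.val - wt x i.val := by
        have := Int.even_mul_pred_self (wt x i.val)
        rw [mul_sub, mul_one] at this
        exact this.two_dvd
      obtain ⟨k, hk⟩ := h1
      have h3 : (((wt x i.val * wt x i.val - wt x i.val : ℤ)) : F) = 0 := by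
        rw [hk]; push_cast; rw [h2, zero_mul]
      push_cast at h3
      exact sub_eq_zero.1 h3
    rw [this]
    exact B_mem _
  · rw [B_inr, Nm_sq (lt72 r)]
    exact zero_mem _

theorem sq_mem_LA (h2 : (2 : F) = 0) {M : Matrix I27 I27 F} (hM : M ∈ LA F) : M * M ∈ LA F := by
  unfold LA at hM
  induction hM using Submodule.span_induction with
  | mem x hx => obtain ⟨a, rfl⟩ := hx; exact sq_B h2 a
  | zero => rw [mul_zero]; exact zero_mem _
  | add y z hy hz h3 h4 =>
    have h5 : (z * y : Matrix I27 I27 F) + z * y = 0 := by rw [← two_smul F, h2, zero_smul]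
    have h6 : (y + z) * (y + z) = y * y + z * z + (y * z - z * y) := by
      calc (y + z) * (y + z) = y * y + z * z + (y * z - z * y) + (z * y + z * y) := by noncomm_ring
        _ = _ := by rw [h5, add_zero]
    rw [h6]
    exact add_mem (add_mem h3 h4) (bracket_mem hy hz)
  | smul t y _ h1 =>
    rw [smul_mul_smul_comm]
    exact Submodule.smul_mem _ _ h1

/-- characteristic 2: the Lie algebra is closed under squares -/
theorem sq_mem [CharP F 2] (c : chevE6.Idx → F) : ∃ c' : chevE6.Idx → F, ∀ x, D c' x = D c (D c x) := by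
  have h2 : (2 : F) = 0 := by
    have := CharP.cast_eq_zero F 2
    exact_mod_cast this
  obtain ⟨c', hc'⟩ := mem_LA_iff.1 (sq_mem_LA h2 (mem_LA_iff.2 ⟨c, rfl⟩))
  refine ⟨c', fun x => ?_⟩
  rw [D_apply, D_apply, D_apply, hc', Matrix.mulVec_mulVec]

/-! ### the cubic form as a sum over triads -/

open Cfsg.Agent.ChevalleyStructure.E6Min.Forms (T3 T3_polar T3_inv D_inv rel th e e_apply T3_basis_eq_zero D_basis tsN_ne_zero
  rel_cases th_spec tn)

section Ring2

variable {R : Type u} [CommRing R]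

theorem T3_eq (x y z : I27 → R) : T3 x y z = tf (cr x y) z := by
  rw [T3_polar, N_add (x + y) z, N_add x y, N_add x z, N_add y z, sh_add, tf_add_left, tf_add_left, tf_add_left]
  ring

open Polynomial in
theorem DF_eq (v w : I27 → R) : Cfsg.Agent.ChevalleyStructure.E6Min.Forms.D v w = tf (sh v) w := by
  have h1 := Cfsg.Agent.ChevalleyStructure.E6Min.Forms.cubicT_add_smul (cst v) (cst w) (X : R[X])
  have e : ∀ a b : I27 → R, Cfsg.Agent.ChevalleyStructure.E6Min.Forms.D (cst a) (cst b) =
      C (Cfsg.Agent.ChevalleyStructure.E6Min.Forms.D a b) := by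
    intro a b
    unfold Cfsg.Agent.ChevalleyStructure.E6Min.Forms.D
    simp only [map_sum, map_mul, map_add, cst_apply, map_intCast]
  rw [N_add, sh_smul, tf_smul_right, tf_smul_right, cst_sh, cst_sh, cst_tf, cst_tf, e, e, N_smul] at h1
  have h2 : (C 0 + X * C (tf (sh v) w - Cfsg.Agent.ChevalleyStructure.E6Min.Forms.D v w) +
      X ^ 2 * C (tf v (sh w) - Cfsg.Agent.ChevalleyStructure.E6Min.Forms.D w v) + X ^ 3 * C 0 : R[X]) = C 0 := by
    rw [map_zero, map_sub, map_sub]
    linear_combination h1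
  have h3 := coeff_aux h2
  exact (sub_eq_zero.1 h3).symm

end Ring2

theorem exists_tf_ne {s : I27 → F} (hs : s ≠ 0) : ∃ z, tf s z = 1 := by
  by_contra hcon
  push Not at hcon
  apply hs
  apply tf_nondeg
  intro y
  by_contra hy
  apply hcon ((tf s y)⁻¹ • y)
  rw [tf_smul_right, inv_mul_cancel₀ hy]

/-- coordinates through the trace form -/
theorem eq_zero_of_tf_basis {y : I27 → F} {z : GL I27 F}
    (h : ∀ k, tf y (((z⁻¹ : GL I27 F) : Matrix I27 I27 F) *ᵥ e F k) = 0) : y = 0 := by
  apply tf_nondeg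
  intro u
  have h1 : u = ((z⁻¹ : GL I27 F) : Matrix I27 I27 F) *ᵥ ((z : Matrix I27 I27 F) *ᵥ u) := by
    rw [Matrix.mulVec_mulVec, ← Units.val_mul, inv_mul_cancel, Units.val_one, Matrix.one_mulVec]
  rw [h1]
  generalize ((z : Matrix I27 I27 F) *ᵥ u) = w
  have h2 : w = ∑ k, w k • e F k := by
    funext j
    rw [Finset.sum_apply, Finset.sum_eq_single j]
    · rw [Pi.smul_apply, e_apply, if_pos rfl, smul_eq_mul, mul_one]
    · intro k _ hk
      rw [Pi.smul_apply, e_apply, if_neg (Ne.symm hk), smul_zero]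
    · intro h; exact absurd (Finset.mem_univ _) h
  rw [h2, Matrix.mulVec_sum, tf_sum_right]
  refine Finset.sum_eq_zero fun k _ => ?_
  rw [Matrix.mulVec_smul, tf_smul_right, h k, mul_zero]

/-- a singular vector is equivalent to a multiple of a basis vector -/
theorem exists_basis [Finite F] (h3 : 3 ≤ Nat.card F) {s : I27 → F} (hs : s ≠ 0) (hss : sh s = 0) :
    ∃ z ∈ Zgrp F, ∃ i : I27, ∃ c : F, c ≠ 0 ∧ (z : Matrix I27 I27 F) *ᵥ s = c • e F i := by
  obtain ⟨i, hi⟩ : ∃ i, s i ≠ 0 := by
    by_contra hcon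
    push Not at hcon
    exact hs (funext hcon)
  classical
  have := Fintype.ofFinite F
  have hF : 3 ≤ Fintype.card F := by rwa [← Nat.card_eq_fintype_card]
  obtain ⟨z, hz, -, h1, h2, -⟩ := Cfsg.Agent.ChevalleyStructure.E6Min.Elim.clear_aux s hi [] (by simp)
    (fun m hm => by simp at hm) (Finset.univ.toList.filter fun j => rel i j = 1) (by
      intro j hj
      simpa using hj)
  have h2' : ∀ j, rel i j = 1 → ((z : Matrix I27 I27 F) *ᵥ s) j = 0 := fun j hj => h2 j (by simpa using hj)
  refine ⟨z, hz, i, s i, hi, ?_⟩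
  funext j
  rw [Pi.smul_apply, e_apply]
  by_cases hji : j = i
  · rw [if_pos hji, hji, h1, smul_eq_mul, mul_one]
  · rw [if_neg hji, smul_zero]
    rcases rel_cases i j with h | h | h
    · exact absurd h.symm hji
    · exact h2' j h
    · obtain ⟨-, -, -, -, e1, -, e2⟩ := th_spec h
      have h4 := D_basis (F := F) e1 ((z : Matrix I27 I27 F) *ᵥ s) h2'
      have h5 : Cfsg.Agent.ChevalleyStructure.E6Min.Forms.D ((z : Matrix I27 I27 F) *ᵥ s) (e F (th i j)) = 0 := by
        have h6 : e F (th i j) = (z : Matrix I27 I27 F) *ᵥ (((z⁻¹ : GL I27 F) : Matrix I27 I27 F) *ᵥ e F (th i j)) := by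
          rw [Matrix.mulVec_mulVec, ← Units.val_mul, mul_inv_cancel, Units.val_one, Matrix.one_mulVec]
        rw [h6, D_inv hF (Cfsg.Agent.ChevalleyStructure.E6Min.Elim.mem_E6univ_of_mem hz), DF_eq, hss, tf_zero_left]
      rw [h5, h1, e2] at h4
      rcases mul_eq_zero.1 h4.symm with h7 | h7
      · exact absurd h7 (tsN_ne_zero _)
      · exact (mul_eq_zero.1 h7).resolve_left hi

theorem card_rel : ∀ i : I27, Fintype.card {k : I27 // rel i k = 2} ≤ 10 := by
  decide +kernel

/-- the subspace of `w'` with `w' = cr s v` for some `v`, `s` singular, has dimension at most 10 -/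
theorem finrank_le [Finite F] (h3 : 3 ≤ Nat.card F) {s : I27 → F} (hs : s ≠ 0) (hss : sh s = 0)
    (K : Submodule F (I27 → F)) (hK : ∀ y ∈ K, ∃ v, y = cr s v) : finrank F ↥K ≤ 10 := by
  obtain ⟨z, hz, i, c, hc, hzs⟩ := exists_basis h3 hs hss
  let f : ↥K →ₗ[F] ({k : I27 // rel i k = 2} → F) :=
    { toFun := fun y k => tf y.1 (((z⁻¹ : GL I27 F) : Matrix I27 I27 F) *ᵥ e F k.1)
      map_add' := by
        intro y y'
        funext k
        exact tf_add_left _ _ _
      map_smul' := by
        intro c y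
        funext k
        exact tf_smul_left _ _ _ }
  have hf : Function.Injective f := by
    rw [← LinearMap.ker_eq_bot, LinearMap.ker_eq_bot']
    intro y hy
    apply Subtype.ext
    apply eq_zero_of_tf_basis (z := z)
    intro k
    by_cases hk : rel i k = 2
    · exact congrFun hy ⟨k, hk⟩
    · obtain ⟨v, hv⟩ := hK y.1 y.2
      rw [hv, ← T3_eq, ← T3_inv (Cfsg.Agent.ChevalleyStructure.E6Min.Elim.mem_E6univ_of_mem hz)]
      rw [Matrix.mulVec_mulVec (e F k), ← Units.val_mul, mul_inv_cancel, Units.val_one, Matrix.one_mulVec, hzs,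
        Cfsg.Agent.ChevalleyStructure.E6Min.Forms.T3_smul_left, T3_basis_eq_zero hk, mul_zero]
  have h4 := LinearMap.finrank_le_finrank_of_injective hf
  rw [finrank_fintype_fun_eq_card] at h4
  exact h4.trans (card_rel i)

/-- `x ↦ cr w x` -/
noncomputable def R (w : I27 → F) : (I27 → F) →ₗ[F] (I27 → F) where
  toFun := cr w
  map_add' := cr_add_right w
  map_smul' c x := cr_smul_right c w x

theorem R_apply (w x : I27 → F) : R w x = cr w x := rfl

/-- the kernel of `x ↦ cr w x` for a vector with `N w = 0`, `sh w ≠ 0` -/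
theorem finrank_ker_R [Finite F] (h3 : 3 ≤ Nat.card F) {w : I27 → F} (hw : cubicT w = 0) (hs : sh w ≠ 0) :
    finrank F ↥(LinearMap.ker (R w)) ≤ 10 := by
  have hss : sh (sh w) = 0 := by rw [sh_sh, hw, zero_smul]
  have hw0 : w ≠ 0 := by
    rintro rfl
    apply hs
    have := sh_smul (0 : F) (0 : I27 → F)
    rw [zero_smul, zero_pow two_ne_zero, zero_smul] at this
    exact this
  refine finrank_le h3 hs hss _ fun y hy => ?_
  have hy' : cr w y = 0 := hy
  obtain ⟨z, hz⟩ := exists_tf_ne hs
  refine ⟨cr z y, ?_⟩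
  -- `tf (sh w) y = 0`
  have h0 : cr (sh w) 0 = 0 := by
    have := cr_smul_right (0 : F) (sh w) 0
    rwa [zero_smul, zero_smul] at this
  have h0' : ∀ a : I27 → F, cr a 0 = 0 := by
    intro a
    have := cr_smul_right (0 : F) a 0
    rwa [zero_smul, zero_smul] at this
  have h1 : tf (sh w) y = 0 := by
    have := cr_sh_cr w y
    rw [hy', h0, hw, zero_smul, zero_add] at this
    rcases smul_eq_zero.1 this.symm with h | h
    · exact h
    · exact absurd h hw0
  have h2 := cr_cr w z y
  rw [hy', h0', zero_add, hz, h1, one_smul, zero_smul, add_zero, ← tf_cr, tri_comm w z y, hy', tf_zero_left, zero_smul,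
    add_zero] at h2
  exact h2.symm

/-- totally isotropic subspaces of the bilinear form `tf (cr w x) z` -/
theorem isotropic (w : I27 → F) (X : Submodule F (I27 → F)) (h : ∀ x ∈ X, ∀ z ∈ X, tf (cr w x) z = 0) :
    2 * finrank F ↥X ≤ 27 + finrank F ↥(LinearMap.ker (R w)) := by
  -- the map into the dual space
  let Θ : (I27 → F) →ₗ[F] Module.Dual F (I27 → F) :=
    { toFun := fun u =>
        { toFun := tf u
          map_add' := tf_add_right u
          map_smul' := fun c x => tf_smul_right c u x }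
      map_add' := fun u u' => LinearMap.ext fun x => tf_add_left u u' x
      map_smul' := fun c u => LinearMap.ext fun x => tf_smul_left c u x }
  have hΘ : Function.Injective Θ := by
    rw [← LinearMap.ker_eq_bot, LinearMap.ker_eq_bot']
    intro u hu
    exact tf_nondeg fun y => LinearMap.congr_fun hu y
  set f := (R w).domRestrict X with hf
  have h1 := LinearMap.finrank_range_add_finrank_ker f
  have h2 : finrank F ↥(LinearMap.ker f) ≤ finrank F ↥(LinearMap.ker (R w)) := by
    have h3 : (LinearMap.ker f).map X.subtype ≤ LinearMap.ker (R w) := by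
      rintro _ ⟨x, hx, rfl⟩
      exact hx
    have h4 := Submodule.finrank_mono h3
    rwa [Submodule.finrank_map_subtype_eq] at h4
  have h5 : finrank F ↥(LinearMap.range f) + finrank F ↥X ≤ 27 := by
    have h6 : (LinearMap.range f).map Θ ≤ X.dualAnnihilator := by
      rintro _ ⟨_, ⟨x, rfl⟩, rfl⟩
      rw [Submodule.mem_dualAnnihilator]
      intro z hz
      exact h x.1 x.2 z hz
    have h7 := Submodule.finrank_mono h6
    have h8 := Subspace.finrank_add_finrank_dualAnnihilator_eq X
    have h9 : finrank F (I27 → F) = 27 := by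
      rw [finrank_fintype_fun_eq_card]; rfl
    have h10 : finrank F ↥((LinearMap.range f).map Θ) = finrank F ↥(LinearMap.range f) :=
      (Submodule.equivMapOfInjective Θ hΘ _).finrank_eq.symm
    omega
  omega

/-- an element of the Lie algebra of square 0 and rank at most 8: its image is totally singular -/
theorem sh_D_eq_zero [Finite F] (h3 : 3 ≤ Nat.card F) (hF3 : (3 : F) ≠ 0) (c : chevE6.Idx → F)
    (hsq : ∀ x, D c (D c x) = 0) (hr : finrank F ↥(LinearMap.range (D c)) ≤ 8) (y : I27 → F) : sh (D c y) = 0 := by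
  by_contra hs
  have hN : cubicT (D c y) = 0 := by
    have h1 := tf_cr_D c (D c y) y
    rw [hsq, tf_zero_right, zero_add, tf_sh_self] at h1
    exact (mul_eq_zero.1 h1).resolve_left hF3
  have h4 := finrank_ker_R h3 hN hs
  have h5 := isotropic (D c y) (LinearMap.ker (D c)) (by
    intro x hx z hz
    have hx' : D c x = 0 := hx
    have hz' : D c z = 0 := hz
    have h6 := tri_D c y x z
    rw [hx', hz', tf_zero_right, tf_zero_right, add_zero, add_zero] at h6
    rw [tf_cr, tf_comm, h6])
  have h6 := LinearMap.finrank_range_add_finrank_ker (D c)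
  have h9 : finrank F (I27 → F) = 27 := by
    rw [finrank_fintype_fun_eq_card]; rfl
  omega

/-- the nilpotent trick -/
theorem one_add_mem [Finite F] (h3 : 3 ≤ Nat.card F) (h2 : (2 : F) = 0) (c : chevE6.Idx → F)
    (hsq : ∀ x, D c (D c x) = 0) (hr : finrank F ↥(LinearMap.range (D c)) ≤ 6) :
    TS (LinearMap.range (D c)) ∧ ∃ g : ↥(Zgrp F), ∀ x, V F g x = x + D c x := by
  have hF3 : (3 : F) ≠ 0 := by
    have : (3 : F) = 2 + 1 := by norm_num
    rw [this, h2, zero_add]; exact one_ne_zero
  have hsh : ∀ y, sh (D c y) = 0 := fun y => sh_D_eq_zero h3 hF3 c hsq (by omega) y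
  refine ⟨⟨?_, ?_⟩, ?_⟩
  · rintro _ ⟨y, rfl⟩
    exact hsh y
  · rintro _ ⟨y, rfl⟩ _ ⟨z, rfl⟩
    unfold cr
    rw [← map_add, hsh, hsh, hsh, sub_zero, sub_zero]
  · classical
    have := Fintype.ofFinite F
    have hF : 3 ≤ Fintype.card F := by rwa [← Nat.card_eq_fintype_card]
    have hcc : comb c * comb c = 0 := by
      apply Matrix.toLin'.injective
      rw [map_zero, Matrix.toLin'_mul]
      ext1 j
      refine LinearMap.ext fun x => ?_
      exact congrFun (congrArg _ rfl) _ |>.trans (by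
        simpa [D] using hsq ((LinearMap.single F (fun _ : I27 => F) j) x))
    let g : GL I27 F := ⟨1 + comb c, 1 - comb c, by
      rw [mul_sub, mul_one, add_mul, one_mul, hcc]; abel, by
      rw [mul_add, mul_one, sub_mul, one_mul, hcc]; abel⟩
    have hgv : ∀ x, (g : Matrix I27 I27 F) *ᵥ x = x + D c x := by
      intro x
      change (1 + comb c) *ᵥ x = _
      rw [Matrix.add_mulVec, Matrix.one_mulVec, D_apply]
    have hg : g ∈ E6univ F := by
      intro v
      change cubicT ((g : Matrix I27 I27 F) *ᵥ v) = cubicT v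
      have hN : cubicT (D c v) = 0 := by
        have := tf_sh_self (D c v)
        rw [hsh, tf_zero_left] at this
        exact (mul_eq_zero.1 this.symm).resolve_left hF3
      rw [hgv, N_add, tf_sh_D, hsh, tf_zero_right, hN, add_zero, add_zero, add_zero]
    rw [← Cfsg.Agent.ChevalleyStructure.E6Min.Torus.Zgrp_eq hF] at hg
    exact ⟨⟨g, hg⟩, fun x => hgv x⟩

end Cfsg.Agent.H163.E6.Der
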