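import Mathlib
import Cfsg.Agent.H163.E6.Cen
import Cfsg.Agent.H65.E6Inv
import Cfsg.Agent.H927.E6Cnt
import Cfsg.Agent.H16.E6.Cov

/-!
# S5927: the property `Cen` for maximal subgroups of `E₆(q)` (helper927)
-/

set_option autoImplicit false

namespace Cfsg.Agent.H927.E6Cen

open Cfsg Cfsg.Lie Module Cfsg.Agent.H163.E6
open Cfsg.Agent.ChevalleyStructure.E6Min.Tables Cfsg.Agent.ChevalleyStructure.E6Min.Basic
  Cfsg.Agent.ChevalleyStructure.E6Min.Adjoint
open Cfsg.Agent.H952.F4 (ev es matRep sh cr tf MaxAlt)
open scoped commutatorElement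

universe u

/-- a perfect group stabilizing a line fixes it pointwise -/
theorem fix_of_perfect {F P W : Type*} [Field F] [Group P] (hP : commutator P = ⊤) [AddCommGroup W] [Module F W]
    (ρ : Representation F P W) {X : W} (hX : X ≠ 0) (h : ∀ g, ∃ c : F, ρ g X = c • X) (g : P) : ρ g X = X := by
  choose c hc using h
  have hmul : ∀ a b, c (a * b) = c a * c b := fun a b => by
    have h1 : ρ (a * b) X = (c a * c b) • X := by
      rw [map_mul, Module.End.mul_apply, hc b, map_smul, hc a, smul_smul, mul_comm]
    rw [hc] at h1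
    exact smul_left_injective F hX h1
  have hone : c 1 = 1 := by
    have h1 : ρ 1 X = (1 : F) • X := by rw [map_one, one_smul]; rfl
    rw [hc] at h1
    exact smul_left_injective F hX h1
  have h2 : g ∈ commutator P := by rw [hP]; trivial
  have h3 := Abelianization.commutator_subset_ker
    (MonoidHom.toHomUnits ({ toFun := c, map_one' := hone, map_mul' := hmul } : P →* F)) h2
  rw [MonoidHom.mem_ker] at h3
  have h4 : c g = 1 := congrArg Units.val h3
  rw [hc, h4, one_smul]

section

variable {F : Type u} [Field F] {H : Subgroup ↥(chevE6.group F)} {n : ℕ}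
  {φ : ↥(alternatingGroup (Fin n)) →* ↥(chevE6.group F)}

theorem cen_of [Finite F] (h3 : (3 : F) ≠ 0) (hM : MaxAlt H n φ) (hn : 5 ≤ n)
    (hT : ∀ x : ↥(Zgrp F), x ^ 3 = 1 → ev (V F x) 1 = 9 → ev (L F x) 1 = 30 →
      ∃ τ : ↥(Zgrp F), τ * τ = 1 ∧ τ ≠ 1 ∧ τ * x = x * τ ∧ ∀ X, L F x X = X → L F τ X = X) : Cen H φ := by
  intro X hX hH x hxφ hx3 hx9 hx30
  obtain ⟨τ, h1, h2, hτx, hτ⟩ := hT x hx3 hx9 hx30
  refine ⟨τ, h1, h2, hτx, ?_⟩
  -- the stabilizer of the line
  let S : Subgroup ↥(chevE6.group F) :=
    { carrier := {g | ∃ c : F, LK F g X = c • X}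
      one_mem' := ⟨1, by rw [map_one, one_smul]; rfl⟩
      mul_mem' := by
        rintro a b ⟨c, hc⟩ ⟨d, hd⟩
        exact ⟨c * d, by rw [map_mul, Module.End.mul_apply, hd, map_smul, hc, smul_smul, mul_comm]⟩
      inv_mem' := by
        rintro a ⟨c, hc⟩
        have hc0 : c ≠ 0 := by
          rintro rfl
          rw [zero_smul] at hc
          apply hX
          have h5 : LK F a⁻¹ (LK F a X) = X := by
            rw [← Module.End.mul_apply, ← map_mul, inv_mul_cancel, map_one]; rfl
          rw [← h5, hc, map_zero]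
        refine ⟨c⁻¹, ?_⟩
        have h5 : LK F a⁻¹ (LK F a X) = X := by
          rw [← Module.End.mul_apply, ← map_mul, inv_mul_cancel, map_one]; rfl
        rw [hc, map_smul] at h5
        rw [← h5, smul_smul, inv_mul_cancel₀ hc0, one_smul, h5] }
  have hS : ∀ g, g ∈ S ↔ ∃ c : F, LK F g X = c • X := fun g => Iff.rfl
  have hHS : H ≤ S := fun h hh => hH h hh
  have hStop : S ≠ ⊤ := by
    intro htop
    have hs : IsSimpleGroup ↥(chevE6.group F) := Cnt.simpleE6
    have hP : commutator ↥(chevE6.group F) = ⊤ := by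
      rcases hs.eq_bot_or_eq_top_of_normal (commutator ↥(chevE6.group F)) inferInstance with h | h
      · exfalso
        have hcomm : ∀ a b : ↥(chevE6.group F), a * b = b * a := fun a b => by
          have : ⁅a, b⁆ ∈ commutator ↥(chevE6.group F) :=
            Subgroup.commutator_mem_commutator (Subgroup.mem_top a) (Subgroup.mem_top b)
          rw [h, Subgroup.mem_bot, commutatorElement_eq_one_iff_mul_comm] at this
          exact this
        have hA := Cov.alt_perfect hn
        have h6 : ∀ a b : ↥(alternatingGroup (Fin n)), a * b = b * a := fun a b =>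
          hM.inj (by rw [map_mul, map_mul, hcomm])
        have h7 : commutator ↥(alternatingGroup (Fin n)) = ⊥ := by
          rw [commutator_def, Subgroup.commutator_eq_bot_iff_le_centralizer]
          intro a _
          rw [Subgroup.mem_centralizer_iff]
          intro b _
          exact h6 b a
        rw [h7] at hA
        have h8 : (1 : ↥(alternatingGroup (Fin n))) ≠ 1 := by
          have : Nontrivial ↥(alternatingGroup (Fin n)) :=
            (alternatingGroup.nontrivial_of_three_le_card (by simp; omega))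
          obtain ⟨a, ha⟩ := exists_ne (1 : ↥(alternatingGroup (Fin n)))
          have : a ∈ (⊥ : Subgroup ↥(alternatingGroup (Fin n))) := by rw [hA]; trivial
          exact absurd (Subgroup.mem_bot.1 this) ha
        exact h8 rfl
      · exact h
    have h9 : X ∈ (LK F).invariants := by
      rw [Representation.mem_invariants]
      exact fix_of_perfect hP (LK F) hX fun g => by
        have : g ∈ S := by rw [htop]; trivial
        exact this
    rw [Act.L_invariants h3] at h9
    exact hX ((Submodule.mem_bot F).1 h9)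
  have hSH : S = H := by
    rcases hM.coatom.le_iff.1 hHS with h | h
    · exact absurd h hStop
    · exact h
  rw [← hSH, hS]
  refine ⟨1, ?_⟩
  rw [one_smul, ← L_eq]
  apply hτ
  obtain ⟨a, ha⟩ := hxφ
  rw [L_eq, ← ha]
  exact fix_of_perfect (Cov.alt_perfect hn) ((LK F).comp φ) hX (fun b => hH _ (hM.le ⟨b, rfl⟩)) a

end

end Cfsg.Agent.H927.E6Cen
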