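import Mathlib
import Cfsg.Agent.LieClassical.HermSiegel

/-!
# Real structures on a Hermitian space

`|F| = q²`, `V = Fⁿ` with the Hermitian form `hermForm n F q`. A *real structure* is a semilinear
involution `τ` with `h(τ x, τ y) = h(x, y) ^ q`; its fixed vectors form an `F_q`-form of `V` on which
`h` is symmetric. Subspaces which are `τ`-stable and nondegenerate (`Nd`), existence of anisotropic
real vectors and of real hyperbolic pairs (`q` odd).
-/

set_option autoImplicit false
set_option linter.unusedSectionVars false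
set_option linter.unusedVariables false
set_option linter.style.haveILetI false

namespace Cfsg.Agent.H927

open Cfsg Cfsg.Agent.LieClassical.HermBasic Cfsg.Agent.LieClassical.HermSiegel

section RealStr

variable {F : Type*} [Field F] {n q : ℕ}

/-- A real structure on the Hermitian space: semilinear involution compatible with the form. -/
structure IsReal (q : ℕ) (τ : (Fin n → F) → (Fin n → F)) : Prop where
  add : ∀ x y, τ (x + y) = τ x + τ y
  smul : ∀ (c : F) x, τ (c • x) = c ^ q • τ x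
  invol : ∀ x, τ (τ x) = x
  herm : ∀ x y, hermForm n F q (τ x) (τ y) = hermForm n F q x y ^ q

/-- A `τ`-stable nondegenerate subspace. -/
structure Nd (q : ℕ) (τ : (Fin n → F) → (Fin n → F)) (W : Submodule F (Fin n → F)) : Prop where
  stable : ∀ x ∈ W, τ x ∈ W
  nondeg : ∀ x ∈ W, x ≠ 0 → ∃ y ∈ W, hermForm n F q x y ≠ 0

variable [Fintype F] (hF : Fintype.card F = q ^ 2)

/-- The vectors orthogonal to a vector. -/
def perp (hF : Fintype.card F = q ^ 2) (v : Fin n → F) : Submodule F (Fin n → F) where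
  carrier := {x | hermForm n F q x v = 0}
  add_mem' {a b} ha hb := by
    simp only [Set.mem_ofPred_eq] at *
    rw [herm_add_left, ha, hb, add_zero]
  zero_mem' := herm_zero_left v
  smul_mem' c x hx := by
    simp only [Set.mem_ofPred_eq] at *
    rw [herm_smul_left, hx, mul_zero]

@[simp] theorem mem_perp {v x : Fin n → F} : x ∈ perp hF v ↔ hermForm n F q x v = 0 := Iff.rfl

theorem finrank_inf_perp (W : Submodule F (Fin n → F)) (v : Fin n → F) :
    Module.finrank F W ≤ Module.finrank F (W ⊓ perp hF v : Submodule F (Fin n → F)) + 1 := by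
  classical
  let φ : W →ₗ[F] F :=
    { toFun := fun x => hermForm n F q (x : Fin n → F) v
      map_add' := fun x y => by
        rw [Submodule.coe_add, herm_add_left]
      map_smul' := fun c x => by
        rw [Submodule.coe_smul, herm_smul_left, RingHom.id_apply, smul_eq_mul] }
  have h1 := LinearMap.finrank_range_add_finrank_ker φ
  have h2 : Module.finrank F (LinearMap.range φ) ≤ 1 := by
    have := Submodule.finrank_le (LinearMap.range φ)
    rwa [Module.finrank_self] at this
  have h3 : Module.finrank F (LinearMap.ker φ) ≤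
      Module.finrank F (W ⊓ perp hF v : Submodule F (Fin n → F)) := by
    let ψ : LinearMap.ker φ →ₗ[F] (W ⊓ perp hF v : Submodule F (Fin n → F)) :=
      { toFun := fun x => ⟨((x : W) : Fin n → F), (x : W).2, by
          have := x.2
          rw [LinearMap.mem_ker] at this
          exact this⟩
        map_add' := fun x y => rfl
        map_smul' := fun c x => rfl }
    apply LinearMap.finrank_le_finrank_of_injective (f := ψ)
    intro x y hxy
    apply Subtype.ext
    apply Subtype.ext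
    exact congrArg (fun z : (W ⊓ perp hF v : Submodule F (Fin n → F)) => (z : Fin n → F)) hxy
  omega

namespace IsReal

variable {τ : (Fin n → F) → (Fin n → F)} (hτ : IsReal q τ)
include hτ

omit [Fintype F] in
theorem neg (x : Fin n → F) (hq : (-1 : F) ^ q = -1) : τ (-x) = -τ x := by
  have := hτ.smul (-1) x
  rwa [hq, neg_one_smul, neg_one_smul] at this

omit [Fintype F] in
theorem zero : τ 0 = 0 := by
  have := hτ.add 0 0
  rw [add_zero] at this
  simpa using this

include hF in
theorem neg' (x : Fin n → F) : τ (-x) = -τ x :=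
  hτ.neg x (by rw [neg_pow_q hF, one_pow])

include hF in
theorem sub (x y : Fin n → F) : τ (x - y) = τ x - τ y := by
  rw [sub_eq_add_neg, hτ.add, hτ.neg' hF, sub_eq_add_neg]

/-- `h(x, y)` for real `x, y` is real. -/
theorem herm_real {x y : Fin n → F} (hx : τ x = x) (hy : τ y = y) :
    hermForm n F q x y ^ q = hermForm n F q x y := by
  rw [← hτ.herm, hx, hy]

include hF in
theorem herm_symm {x y : Fin n → F} (hx : τ x = x) (hy : τ y = y) :
    hermForm n F q x y = hermForm n F q y x := by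
  rw [herm_swap hF y x, hτ.herm_real hy hx]

/-- for `x` imaginary, `y` real the product is imaginary. -/
theorem herm_imag (hF : Fintype.card F = q ^ 2) {x y : Fin n → F} (hx : τ x = -x) (hy : τ y = y) :
    hermForm n F q x y ^ q = -hermForm n F q x y := by
  rw [← hτ.herm, hx, hy, herm_neg_left]

/-- real part -/
theorem real_part (hF : Fintype.card F = q ^ 2) (h2 : (2 : F) ≠ 0) (x : Fin n → F) :
    τ ((2 : F)⁻¹ • (x + τ x)) = (2 : F)⁻¹ • (x + τ x) := by
  have h2q : ((2 : F)⁻¹) ^ q = (2 : F)⁻¹ := by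
    rw [inv_pow]
    congr 1
    have : (2 : F) = 1 + 1 := by norm_num
    rw [this, add_pow_q hF, one_pow]
  rw [hτ.smul, hτ.add, hτ.invol, h2q, add_comm]

/-- imaginary part -/
theorem imag_part (hF : Fintype.card F = q ^ 2) (h2 : (2 : F) ≠ 0) (x : Fin n → F) :
    τ ((2 : F)⁻¹ • (x - τ x)) = -((2 : F)⁻¹ • (x - τ x)) := by
  have h2q : ((2 : F)⁻¹) ^ q = (2 : F)⁻¹ := by
    rw [inv_pow]
    congr 1
    have : (2 : F) = 1 + 1 := by norm_num
    rw [this, add_pow_q hF, one_pow]
  rw [hτ.smul, hτ.sub hF, hτ.invol, h2q, ← smul_neg, neg_sub]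

omit hτ in
omit [Fintype F] in
theorem part_add (h2 : (2 : F) ≠ 0) (x : Fin n → F) :
    x = (2 : F)⁻¹ • (x + τ x) + (2 : F)⁻¹ • (x - τ x) := by
  rw [← smul_add]
  have : x + τ x + (x - τ x) = (2 : F) • x := by rw [two_smul]; abel
  rw [this, smul_smul, inv_mul_cancel₀ h2, one_smul]

/-- scaling an imaginary vector by an imaginary scalar gives a real one -/
theorem smul_imag {κ : F} (hκ : κ ^ q = -κ) {x : Fin n → F} (hx : τ x = -x) : τ (κ • x) = κ • x := by
  rw [hτ.smul, hκ, hx, neg_smul, smul_neg, neg_neg]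

theorem smul_real_imag {κ : F} (hκ : κ ^ q = -κ) {x : Fin n → F} (hx : τ x = x) :
    τ (κ • x) = -(κ • x) := by
  rw [hτ.smul, hκ, hx, neg_smul]

theorem smul_real {r : F} (hr : r ^ q = r) {x : Fin n → F} (hx : τ x = x) :
    τ (r • x) = r • x := by
  rw [hτ.smul, hr, hx]

end IsReal

omit [Fintype F] in
theorem two_pow_q [Fintype F] (hF : Fintype.card F = q ^ 2) : (2 : F) ^ q = 2 := by
  have : (2 : F) = 1 + 1 := by norm_num
  rw [this, add_pow_q hF, one_pow]

/-- A nonzero imaginary scalar. -/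
theorem exists_kappa (hF : Fintype.card F = q ^ 2) : ∃ κ : F, κ ≠ 0 ∧ κ ^ q = -κ := by
  obtain ⟨κ, h0, h⟩ := exists_trace_zero_ne hF
  exact ⟨κ, h0, by linear_combination h⟩

theorem two_ne_zero_of_odd (hF : Fintype.card F = q ^ 2) (hodd : Odd q) : (2 : F) ≠ 0 := by
  intro h
  have h1 : ringChar F = 2 := by
    apply ((Nat.prime_dvd_prime_iff_eq (CharP.prime_ringChar F) Nat.prime_two).1 _)
    rw [← ringChar.spec]
    exact_mod_cast h
  have h2 : Even (Fintype.card F) := by
    rw [← Nat.not_odd_iff_even]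
    intro hodd'
    have := FiniteField.odd_card_of_char_ne_two (F := F)
    have h3 := FiniteField.even_card_of_char_two (F := F) h1
    rw [Nat.odd_iff] at hodd'
    omega
  rw [hF] at h2
  have h3 : Odd (q ^ 2) := hodd.pow
  exact (Nat.not_even_iff_odd.2 h3) h2

namespace Nd

variable {τ : (Fin n → F) → (Fin n → F)} (hτ : IsReal q τ) (h2 : (2 : F) ≠ 0)

theorem top (hF : Fintype.card F = q ^ 2) : Nd q τ (⊤ : Submodule F (Fin n → F)) :=
  ⟨fun _ _ => Submodule.mem_top, fun x _ hx => by
    obtain ⟨v, hv⟩ := exists_herm_ne_zero hF hx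
    exact ⟨v, Submodule.mem_top, hv⟩⟩

include hF hτ h2 in
/-- G0: real vectors of a nondegenerate stable subspace separate. -/
theorem exists_real {W : Submodule F (Fin n → F)} (hW : Nd q τ W) {x : Fin n → F} (hx : x ∈ W)
    (hx0 : x ≠ 0) : ∃ y ∈ W, τ y = y ∧ hermForm n F q x y ≠ 0 := by
  obtain ⟨y, hy, hxy⟩ := hW.nondeg x hx hx0
  obtain ⟨κ, hκ0, hκ⟩ := exists_kappa hF
  have hy1 : (2 : F)⁻¹ • (y + τ y) ∈ W := W.smul_mem _ (W.add_mem hy (hW.stable y hy))
  have hy2 : (2 : F)⁻¹ • (y - τ y) ∈ W := W.smul_mem _ (W.sub_mem hy (hW.stable y hy))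
  by_cases h1 : hermForm n F q x ((2 : F)⁻¹ • (y + τ y)) = 0
  · refine ⟨κ • ((2 : F)⁻¹ • (y - τ y)), W.smul_mem _ hy2,
      hτ.smul_imag hκ (hτ.imag_part hF h2 y), ?_⟩
    rw [herm_smul_right]
    refine mul_ne_zero (pow_ne_zero _ hκ0) ?_
    intro h3
    apply hxy
    rw [IsReal.part_add (τ := τ) h2 y, herm_add_right hF, h1, h3, add_zero]
  · exact ⟨_, hy1, hτ.real_part hF h2 y, h1⟩

include hF hτ h2 in
/-- G1: a nonzero nondegenerate stable subspace contains a real anisotropic vector. -/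
theorem exists_aniso {W : Submodule F (Fin n → F)} (hW : Nd q τ W) (hW0 : W ≠ ⊥) :
    ∃ t ∈ W, τ t = t ∧ hermForm n F q t t ≠ 0 := by
  by_contra hcon
  push Not at hcon
  obtain ⟨x, hx, hx0⟩ := Submodule.exists_mem_ne_zero_of_ne_bot hW0
  obtain ⟨y, hy, hyr, hxy⟩ := hW.exists_real hF hτ h2 hx hx0
  -- make `x` real as well
  have hyx : hermForm n F q y x ≠ 0 := fun h => hxy (herm_eq_zero_swap hF h)
  have hy0 : y ≠ 0 := by
    rintro rfl
    exact hyx (herm_zero_left _)
  obtain ⟨z, hz, hzr, hyz⟩ := hW.exists_real hF hτ h2 hy hy0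
  have h1 := hcon (y + z) (W.add_mem hy hz) (by rw [hτ.add, hyr, hzr])
  rw [herm_add_left, herm_add_right hF, herm_add_right hF, hcon y hy hyr, hcon z hz hzr,
    hτ.herm_symm hF hzr hyr] at h1
  apply hyz
  have : (2 : F) * hermForm n F q y z = 0 := by linear_combination h1
  rcases mul_eq_zero.1 this with h | h
  · exact absurd h h2
  · exact h

include hF hτ in
/-- G3: cutting with the orthogonal of a real anisotropic vector. -/
theorem cut {W : Submodule F (Fin n → F)} (hW : Nd q τ W) {t : Fin n → F} (ht : t ∈ W)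
    (htr : τ t = t) (ht0 : hermForm n F q t t ≠ 0) : Nd q τ (W ⊓ perp hF t) := by
  refine ⟨?_, ?_⟩
  · rintro x ⟨hx, hxt⟩
    refine ⟨hW.stable x hx, ?_⟩
    change hermForm n F q (τ x) t = 0
    rw [SetLike.mem_coe, mem_perp] at hxt
    have h := hτ.herm x t
    rw [htr, hxt, zero_pow_q hF] at h
    exact h
  · rintro x ⟨hx, hxt⟩ hx0
    rw [SetLike.mem_coe, mem_perp] at hxt
    obtain ⟨y, hy, hxy⟩ := hW.nondeg x hx hx0
    refine ⟨y - (hermForm n F q y t / hermForm n F q t t) • t, ⟨W.sub_mem hy (W.smul_mem _ ht), ?_⟩, ?_⟩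
    · change hermForm n F q _ t = 0
      rw [herm_sub_left, herm_smul_left, div_mul_cancel₀ _ ht0, sub_self]
    · rw [herm_sub_right hF, herm_smul_right, hxt, mul_zero, sub_zero]
      exact hxy

include hF in
/-- G4: cutting with the orthogonal of a stable hyperbolic plane. -/
theorem cutPair {W : Submodule F (Fin n → F)} (hW : Nd q τ W) {w w' : Fin n → F} (hw : w ∈ W)
    (hw' : w' ∈ W) (h11 : hermForm n F q w w = 0) (h22 : hermForm n F q w' w' = 0)
    (h12 : hermForm n F q w w' ≠ 0)
    (hst : ∀ x, hermForm n F q x w = 0 → hermForm n F q x w' = 0 →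
      hermForm n F q (τ x) w = 0 ∧ hermForm n F q (τ x) w' = 0) :
    Nd q τ (W ⊓ perp hF w ⊓ perp hF w') := by
  have h21 : hermForm n F q w' w ≠ 0 := fun h => h12 (herm_eq_zero_swap hF h)
  refine ⟨?_, ?_⟩
  · rintro x ⟨⟨hx, hxw⟩, hxw'⟩
    rw [SetLike.mem_coe, mem_perp] at hxw hxw'
    exact ⟨⟨hW.stable x hx, (hst x hxw hxw').1⟩, (hst x hxw hxw').2⟩
  · rintro x ⟨⟨hx, hxw⟩, hxw'⟩ hx0
    rw [SetLike.mem_coe, mem_perp] at hxw hxw'
    obtain ⟨y, hy, hxy⟩ := hW.nondeg x hx hx0
    refine ⟨y - (hermForm n F q y w' / hermForm n F q w w') • w -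
      (hermForm n F q y w / hermForm n F q w' w) • w',
      ⟨⟨W.sub_mem (W.sub_mem hy (W.smul_mem _ hw)) (W.smul_mem _ hw'), ?_⟩, ?_⟩, ?_⟩
    · change hermForm n F q _ w = 0
      rw [herm_sub_left, herm_sub_left, herm_smul_left, herm_smul_left, h11,
        div_mul_cancel₀ _ h21, mul_zero, sub_zero, sub_self]
    · change hermForm n F q _ w' = 0
      rw [herm_sub_left, herm_sub_left, herm_smul_left, herm_smul_left, h22,
        div_mul_cancel₀ _ h12, mul_zero, sub_zero, sub_self]
    · rw [herm_sub_right hF, herm_sub_right hF, herm_smul_right, herm_smul_right, hxw, hxw',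
        mul_zero, mul_zero, sub_zero, sub_zero]
      exact hxy

end Nd

/-- Real scalars `a, b, c ≠ 0`: `x² a + y² b + c = 0` has a real solution. -/
theorem exists_quad_root (hF : Fintype.card F = q ^ 2) (h2 : (2 : F) ≠ 0) {a b c : F}
    (ha : a ^ q = a) (hb : b ^ q = b) (hc : c ^ q = c) (ha0 : a ≠ 0) (hb0 : b ≠ 0) :
    ∃ x y : F, x ^ q = x ∧ y ^ q = y ∧ x ^ 2 * a + y ^ 2 * b + c = 0 := by
  classical
  let K : Subfield F := RingHom.eqLocusField ((conj hF : F ≃+* F) : F →+* F) (RingHom.id F)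
  have hK : ∀ x : F, x ∈ K ↔ x ^ q = x := fun x => Iff.rfl
  haveI : Fintype K := Fintype.ofFinite K
  have hcard : Fintype.card K = q := by
    rw [← Nat.card_eq_fintype_card]
    exact card_fixed hF
  have hodd : Fintype.card K % 2 = 1 := by
    apply FiniteField.odd_card_of_char_ne_two
    intro h
    apply h2
    have h3 : ((2 : ℕ) : K) = 0 := by
      rw [ringChar.spec, h]
    have h4 := congrArg (fun x : K => (x : F)) h3
    have h5 : (((2 : ℕ) : K) : F) = 2 := by push_cast; rfl
    rw [← h5]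
    exact h4
  let A : K := ⟨a, ha⟩
  let B : K := ⟨b, hb⟩
  let C : K := ⟨c, hc⟩
  have hA : A ≠ 0 := fun h => ha0 (congrArg (fun x : K => (x : F)) h)
  have hB : B ≠ 0 := fun h => hb0 (congrArg (fun x : K => (x : F)) h)
  obtain ⟨x, y, hxy⟩ := FiniteField.exists_root_sum_quadratic
    (f := Polynomial.C A * Polynomial.X ^ 2 + Polynomial.C C)
    (g := Polynomial.C B * Polynomial.X ^ 2) (by
      compute_degree!) (by compute_degree!) hodd
  refine ⟨x, y, x.2, y.2, ?_⟩
  have h5 := congrArg (fun z : K => (z : F)) hxy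
  simp only [Polynomial.eval_add, Polynomial.eval_mul, Polynomial.eval_C, Polynomial.eval_pow,
    Polynomial.eval_X] at h5
  push_cast at h5
  have h6 : a * (x : F) ^ 2 + c + b * (y : F) ^ 2 = 0 := h5
  linear_combination h6

namespace Nd

variable {τ : (Fin n → F) → (Fin n → F)} (hτ : IsReal q τ) (h2 : (2 : F) ≠ 0)

theorem ne_bot_of_finrank {W : Submodule F (Fin n → F)} (h : 1 ≤ Module.finrank F W) : W ≠ ⊥ := by
  rintro rfl
  rw [finrank_bot] at h
  omega

include hF hτ h2 in
/-- A real isotropic vector in a nondegenerate stable subspace is in a real hyperbolic pair. -/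
theorem exists_partner {W : Submodule F (Fin n → F)} (hW : Nd q τ W) {e : Fin n → F} (he : e ∈ W)
    (her : τ e = e) (he0 : e ≠ 0) (hee : hermForm n F q e e = 0) :
    ∃ f ∈ W, τ f = f ∧ hermForm n F q f f = 0 ∧ hermForm n F q e f = 1 := by
  obtain ⟨y, hy, hyr, hey⟩ := hW.exists_real hF hτ h2 he he0
  set a := hermForm n F q e y with ha
  have haq : a ^ q = a := hτ.herm_real her hyr
  have haiq : (a⁻¹) ^ q = a⁻¹ := by rw [inv_pow, haq]
  set z := a⁻¹ • y with hz
  have hzr : τ z = z := hτ.smul_real haiq hyr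
  have hez : hermForm n F q e z = 1 := by
    rw [hz, herm_smul_right, haiq, ← ha, inv_mul_cancel₀ hey]
  have hze : hermForm n F q z e = 1 := by rw [hτ.herm_symm hF hzr her, hez]
  set N := hermForm n F q z z with hN
  have hNq : N ^ q = N := hτ.herm_real hzr hzr
  have hcq : (N / 2) ^ q = N / 2 := by rw [div_pow, hNq, two_pow_q hF]
  refine ⟨z - (N / 2) • e, W.sub_mem (W.smul_mem _ hy) (W.smul_mem _ he), ?_, ?_, ?_⟩
  · rw [hτ.sub hF, hzr, hτ.smul_real hcq her]
  · have h1 : ∀ c : F, c ^ q = c → hermForm n F q (z - c • e) (z - c • e) =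
        hermForm n F q z z - 2 * c := by
      intro c hc
      rw [herm_sub_left, herm_sub_right hF, herm_sub_right hF, herm_smul_left c, herm_smul_left c,
        herm_smul_right c, herm_smul_right c, hc, hee, hez, hze]
      ring
    rw [h1 _ hcq, ← hN]
    field_simp
    ring
  · rw [herm_sub_right hF, herm_smul_right (N / 2), hcq, hee, hez]
    ring

include hF hτ h2 in
/-- G2: a nondegenerate stable subspace of dimension at least three contains a real hyperbolic
pair. -/
theorem exists_pair {W : Submodule F (Fin n → F)} (hW : Nd q τ W)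
    (h3 : 3 ≤ Module.finrank F W) :
    ∃ e ∈ W, ∃ f ∈ W, τ e = e ∧ τ f = f ∧ hermForm n F q e e = 0 ∧ hermForm n F q f f = 0 ∧
      hermForm n F q e f = 1 := by
  obtain ⟨t₁, ht₁, ht₁r, ht₁0⟩ := hW.exists_aniso hF hτ h2 (ne_bot_of_finrank (by omega))
  have hW1 := hW.cut hF hτ ht₁ ht₁r ht₁0
  have hd1 := finrank_inf_perp hF W t₁
  obtain ⟨t₂, ht₂, ht₂r, ht₂0⟩ := hW1.exists_aniso hF hτ h2 (ne_bot_of_finrank (by omega))
  have hW2 := hW1.cut hF hτ ht₂ ht₂r ht₂0
  have hd2 := finrank_inf_perp hF (W ⊓ perp hF t₁) t₂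
  obtain ⟨t₃, ht₃, ht₃r, ht₃0⟩ := hW2.exists_aniso hF hτ h2 (ne_bot_of_finrank (by omega))
  obtain ⟨⟨ht₃W, h31⟩, h32⟩ := ht₃
  obtain ⟨ht₂W, h21⟩ := ht₂
  rw [SetLike.mem_coe, mem_perp] at h31 h32 h21
  have h12 := herm_eq_zero_swap hF h21
  have h13 := herm_eq_zero_swap hF h31
  have h23 := herm_eq_zero_swap hF h32
  obtain ⟨x, y, hx, hy, hxy⟩ := exists_quad_root hF h2 (hτ.herm_real ht₁r ht₁r)
    (hτ.herm_real ht₂r ht₂r) (hτ.herm_real ht₃r ht₃r) ht₁0 ht₂0
  set e := x • t₁ + y • t₂ + t₃ with he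
  have heW : e ∈ W := W.add_mem (W.add_mem (W.smul_mem _ ht₁) (W.smul_mem _ ht₂W)) ht₃W
  have her : τ e = e := by
    rw [he, hτ.add, hτ.add, hτ.smul_real hx ht₁r, hτ.smul_real hy ht₂r, ht₃r]
  have he3 : hermForm n F q e t₃ = hermForm n F q t₃ t₃ := by
    rw [he, herm_add_left, herm_add_left, herm_smul_left, herm_smul_left, h13, h23]
    ring
  have he0 : e ≠ 0 := by
    intro h
    rw [h, herm_zero_left] at he3
    exact ht₃0 he3.symm
  have hee : hermForm n F q e e = 0 := by
    simp only [he, herm_add_left, herm_add_right hF, herm_smul_left, herm_smul_right, h12, h21,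
      h13, h31, h23, h32, hx, hy]
    linear_combination hxy
  obtain ⟨f, hf, hfr, hff, hef⟩ := hW.exists_partner hF hτ h2 heW her he0 hee
  exact ⟨e, heW, f, hf, her, hfr, hee, hff, hef⟩

include hF hτ h2 in
/-- S0: isotropic real vectors of a nondegenerate stable subspace of dimension at least three
separate its vectors. -/
theorem exists_iso {W : Submodule F (Fin n → F)} (hW : Nd q τ W)
    (h3 : 3 ≤ Module.finrank F W) {x : Fin n → F} (hx : x ∈ W) (hx0 : x ≠ 0) :
    ∃ s ∈ W, τ s = s ∧ hermForm n F q s s = 0 ∧ hermForm n F q x s ≠ 0 := by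
  obtain ⟨e, he, f, hf, her, hfr, hee, hff, hef⟩ := hW.exists_pair hF hτ h2 h3
  by_cases h1 : hermForm n F q x e = 0
  swap
  · exact ⟨e, he, her, hee, h1⟩
  by_cases h1' : hermForm n F q x f = 0
  swap
  · exact ⟨f, hf, hfr, hff, h1'⟩
  have hst : ∀ x, hermForm n F q x e = 0 → hermForm n F q x f = 0 →
      hermForm n F q (τ x) e = 0 ∧ hermForm n F q (τ x) f = 0 := by
    intro x hx hx'
    constructor
    · have h := hτ.herm x e
      rwa [her, hx, zero_pow_q hF] at h
    · have h := hτ.herm x f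
      rwa [hfr, hx', zero_pow_q hF] at h
  have hW' := hW.cutPair hF he hf hee hff (by rw [hef]; exact one_ne_zero) hst
  obtain ⟨y, ⟨⟨hy, hye⟩, hyf⟩, hyr, hxy⟩ := hW'.exists_real hF hτ h2 (x := x) ⟨⟨hx, h1⟩, h1'⟩ hx0
  rw [SetLike.mem_coe, mem_perp] at hye hyf
  set N := hermForm n F q y y with hN
  have hNq : N ^ q = N := hτ.herm_real hyr hyr
  have hcq : (N / 2) ^ q = N / 2 := by rw [div_pow, hNq, two_pow_q hF]
  refine ⟨e - (N / 2) • f + y, W.add_mem (W.sub_mem he (W.smul_mem _ hf)) hy, ?_, ?_, ?_⟩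
  · rw [hτ.add, hτ.sub hF, her, hτ.smul_real hcq hfr, hyr]
  · have hfe : hermForm n F q f e = 1 := by rw [hτ.herm_symm hF hfr her, hef]
    have hey := herm_eq_zero_swap hF hye
    have hfy := herm_eq_zero_swap hF hyf
    simp only [herm_add_left, herm_add_right hF, herm_sub_left, herm_sub_right hF, herm_smul_left,
      herm_smul_right, hee, hff, hef, hfe, hye, hyf, hey, hfy, hcq, ← hN]
    field_simp
    ring
  · rw [herm_add_right hF, herm_sub_right hF, herm_smul_right, h1, h1', mul_zero, sub_zero,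
      zero_add]
    exact hxy

end Nd

end RealStr

end Cfsg.Agent.H927
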