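import Mathlib
import Cfsg.Agent.H927.RealStr
import Cfsg.Agent.LieClassical.HermGen

/-!
# Subgroups of `SU_n(q)` containing the real isometries: Siegel elements

`X ≤ SU n F q` contains every element commuting with the real structure `τ` (`Hyp X τ`), `q` odd,
`n ≥ 5`. If `X` contains a Siegel element attached to a real isotropic vector `u` which does not commute
with `τ`, then `X` is the whole group.
-/

set_option autoImplicit false
set_option linter.unusedSectionVars false
set_option linter.unusedVariables false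

namespace Cfsg.Agent.H927

open Cfsg Cfsg.Agent.LieClassical.HermBasic Cfsg.Agent.LieClassical.HermSiegel

variable {F : Type*} [Field F] [Fintype F] {n q : ℕ} (hF : Fintype.card F = q ^ 2)

/-- `X` contains all elements of `SU` commuting with `τ`. -/
def Hyp (X : Subgroup (SU n F q)) (τ : (Fin n → F) → (Fin n → F)) : Prop :=
  ∀ g : SU n F q, (∀ x, act g (τ x) = τ (act g x)) → g ∈ X

/-- some Siegel element with parameters `u, z` is in `X`. -/
def InR (hF : Fintype.card F = q ^ 2) (X : Subgroup (SU n F q)) (u z : Fin n → F) : Prop :=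
  ∃ (μ : F) (h : IsSiegel q u z μ), siegel hF u z μ h ∈ X

/-- all Siegel elements attached to `u` are in `X`. -/
def Full (hF : Fintype.card F = q ^ 2) (X : Subgroup (SU n F q)) (u : Fin n → F) : Prop :=
  ∀ (w : Fin n → F) (μ : F) (h : IsSiegel q u w μ), siegel hF u w μ h ∈ X

section general

variable {X : Subgroup (SU n F q)}

theorem InR.add {u z z' : Fin n → F} (h : InR hF X u z) (h' : InR hF X u z') :
    InR hF X u (z + z') := by
  obtain ⟨μ, hs, hm⟩ := h
  obtain ⟨μ', hs', hm'⟩ := h'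
  refine ⟨_, hs.mul hF hs', ?_⟩
  rw [← siegel_mul hF hs hs']
  exact X.mul_mem hm hm'

theorem InR.neg {u z : Fin n → F} (h : InR hF X u z) : InR hF X u (-z) := by
  obtain ⟨μ, hs, hm⟩ := h
  refine ⟨_, hs.inv hF, ?_⟩
  rw [← siegel_inv hF hs]
  exact X.inv_mem hm

theorem InR.sub {u z z' : Fin n → F} (h : InR hF X u z) (h' : InR hF X u z') :
    InR hF X u (z - z') := by
  rw [sub_eq_add_neg]
  exact h.add hF (h'.neg hF)

theorem InR.map {u z : Fin n → F} (h : InR hF X u z) {g : SU n F q} (hg : g ∈ X) :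
    InR hF X (act g u) (act g z) := by
  obtain ⟨μ, hs, hm⟩ := h
  refine ⟨μ, hs.map g, ?_⟩
  rw [← conj_siegel hF hs]
  exact X.mul_mem (X.mul_mem hg hm) (X.inv_mem hg)

theorem InR.smul_self {u : Fin n → F} (hu : hermForm n F q u u = 0) (c : F) :
    InR hF X u (c • u) := by
  have hs : IsSiegel q u (c • u) (c ^ q - c) := by
    refine ⟨hu, by rw [herm_smul_left, hu, mul_zero], ?_⟩
    rw [herm_smul_left, herm_smul_right, hu, sub_pow_q hF, pow_q_pow_q hF]
    ring
  refine ⟨_, hs, ?_⟩
  have : siegel hF u (c • u) (c ^ q - c) hs = 1 := by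
    apply ext_act
    intro v
    rw [act_siegel, act_one, herm_smul_right]
    funext i
    simp only [Pi.add_apply, Pi.smul_apply, smul_eq_mul]
    ring
  rw [this]
  exact X.one_mem

theorem Full.map {u : Fin n → F} (h : Full hF X u) {g : SU n F q} (hg : g ∈ X) :
    Full hF X (act g u) := by
  intro w μ hs
  have h1 : IsSiegel q u (act g⁻¹ w) μ := by
    have := hs.map g⁻¹
    rwa [act_inv_act] at this
  have h2 := conj_siegel hF h1 g
  have h3 : siegel hF (act g u) w μ hs = g * siegel hF u (act g⁻¹ w) μ h1 * g⁻¹ := by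
    rw [h2]
    exact siegel_congr hF _ _ rfl (by rw [act_act_inv]) rfl
  rw [h3]
  exact X.mul_mem (X.mul_mem hg (h _ _ _)) (X.inv_mem hg)

theorem Full.smul {u : Fin n → F} (h : Full hF X u) {c : F} (hc : c ≠ 0) :
    Full hF X (c • u) := by
  intro w μ hs
  have h1 : IsSiegel q u w μ := by
    refine ⟨?_, ?_, hs.tr⟩
    · have := hs.iso
      rw [herm_smul_left, herm_smul_right] at this
      rcases mul_eq_zero.1 this with h | h
      · exact absurd h hc
      · rcases mul_eq_zero.1 h with h | h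
        · exact absurd h (pow_ne_zero _ hc)
        · exact h
    · have := hs.orth
      rw [herm_smul_right] at this
      rcases mul_eq_zero.1 this with h | h
      · exact absurd h (pow_ne_zero _ hc)
      · exact h
  have h2 := siegel_smul hF (c := c) h1
  have h3 : siegel hF (c • u) w μ hs = siegel hF (c • u) w μ h1.smul := rfl
  rw [h3, h2]
  exact h _ _ _

/-- Two full opposite isotropic vectors generate everything. -/
theorem eq_top_of_full (hn : 3 ≤ n) {u u' : Fin n → F} (hu : hermForm n F q u u = 0)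
    (hu' : hermForm n F q u' u' = 0) (huu' : hermForm n F q u u' = 1)
    (h : Full hF X u) (h' : Full hF X u') : X = ⊤ := by
  have hu'u : hermForm n F q u' u = 1 := by rw [herm_swap hF u u', huu', one_pow]
  -- transfer along `siegelmap`
  have key : ∀ a a' : Fin n → F, hermForm n F q a a = 0 → hermForm n F q a' a' = 0 →
      hermForm n F q a a' = 1 → Full hF X a → Full hF X a' → ∀ v : Fin n → F,
      hermForm n F q v v = 0 → hermForm n F q v a ≠ 0 → Full hF X v := by
    intro a a' ha ha' haa' hfa hfa' v hv hva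
    have ha'a : hermForm n F q a' a = 1 := by rw [herm_swap hF a a', haa', one_pow]
    set c := hermForm n F q v a with hc
    obtain ⟨d, μ, hs, hact⟩ := exists_siegel_map hF (u := a) (v := c • a') (v' := v) ha
      (by rw [herm_smul_left, herm_smul_right, ha', hv, mul_zero, mul_zero])
      (by rw [herm_smul_left, ha'a, mul_one])
      (by rw [herm_smul_left, ha'a, mul_one]; exact hva)
    rw [← hact]
    exact (hfa'.smul hF hva).map hF (hfa _ _ _)
  have key2 : ∀ v : Fin n → F, v ≠ 0 → hermForm n F q v v = 0 → Full hF X v := by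
    intro v hv0 hv
    by_cases h1 : hermForm n F q v u = 0
    swap
    · exact key u u' hu hu' huu' h h' v hv h1
    by_cases h2 : hermForm n F q v u' = 0
    swap
    · exact key u' u hu' hu hu'u h' h v hv h2
    obtain ⟨z, hz⟩ := exists_herm_ne_zero hF hv0
    set w := z - hermForm n F q z u' • u with hw
    have hwu' : hermForm n F q w u' = 0 := by
      rw [hw, herm_sub_left, herm_smul_left, huu', mul_one, sub_self]
    have hvw : hermForm n F q v w = hermForm n F q v z := by
      rw [hw, herm_sub_right hF, herm_smul_right, h1, mul_zero, sub_zero]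
    obtain ⟨μ, hμ⟩ := exists_trace_eq hF (c := -hermForm n F q w w) (by
      rw [neg_pow_q hF, herm_self_pow hF])
    have hs : IsSiegel q u' w μ := ⟨hu', hwu', by rw [hμ]; ring⟩
    set g := siegel hF u' w μ hs with hg
    have hgX : g ∈ X := h' _ _ _
    have hgv : act g v = v - hermForm n F q v z • u' := by
      rw [hg, act_siegel, h2, hvw]
      simp [sub_eq_add_neg]
    have h3 : hermForm n F q (act g v) u ≠ 0 := by
      rw [hgv, herm_sub_left, h1, herm_smul_left, hu'u, mul_one, zero_sub]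
      exact neg_ne_zero.2 hz
    have h4 : Full hF X (act g v) := key u u' hu hu' huu' h h' _ (by rw [herm_act]; exact hv) h3
    have h5 := h4.map hF (X.inv_mem hgX)
    rwa [act_inv_act] at h5
  rw [eq_top_iff, ← Cfsg.Agent.LieClassical.HermGen.siegelGroup_eq_top hF hn,
    Cfsg.Agent.LieClassical.HermGen.siegelGroup, Subgroup.closure_le]
  rintro _ ⟨v, w, μ, hs, rfl⟩
  by_cases hv0 : v = 0
  · have : siegel hF v w μ hs = 1 := by
      apply ext_act
      intro x
      rw [act_siegel, act_one, hv0, herm_zero_right hF]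
      simp
    rw [this]
    exact X.one_mem
  · exact key2 v hv0 hs.iso w μ hs

end general

section conj

variable {τ : (Fin n → F) → (Fin n → F)} (hτ : IsReal q τ)
include hτ

theorem isSiegel_conj {u x : Fin n → F} {μ : F} (hu : τ u = u) (h : IsSiegel q u x μ)
    (hF : Fintype.card F = q ^ 2) : IsSiegel q u (τ x) (μ ^ q) := by
  refine ⟨h.iso, ?_, ?_⟩
  · have := hτ.herm x u
    rwa [hu, h.orth, zero_pow_q hF] at this
  · rw [hτ.herm, herm_self_pow hF, pow_q_pow_q hF]
    linear_combination h.tr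

theorem tau_siegel {u x : Fin n → F} {μ : F} (hu : τ u = u) (h : IsSiegel q u x μ)
    (hF : Fintype.card F = q ^ 2) (y : Fin n → F) :
    τ (act (siegel hF u x μ h) y) = act (siegel hF u (τ x) (μ ^ q) (isSiegel_conj hτ hu h hF)) (τ y) := by
  rw [act_siegel, act_siegel, hτ.add, hτ.add, hτ.smul, hτ.smul, hu, sub_pow_q hF, mul_pow,
    hτ.herm y x]
  have : hermForm n F q (τ y) u = hermForm n F q y u ^ q := by
    have := hτ.herm y u
    rwa [hu] at this
  rw [this]

/-- Real Siegel elements. -/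
theorem isSiegel_real {u x : Fin n → F} (hF : Fintype.card F = q ^ 2) (h2 : (2 : F) ≠ 0)
    (hx : τ x = x) (huu : hermForm n F q u u = 0)
    (hxu : hermForm n F q x u = 0) : IsSiegel q u x (-(hermForm n F q x x / 2)) := by
  refine ⟨huu, hxu, ?_⟩
  rw [neg_pow_q hF, div_pow, two_pow_q hF, herm_self_pow hF]
  field_simp
  ring

theorem siegel_real_comm {u x : Fin n → F} (hF : Fintype.card F = q ^ 2) (h2 : (2 : F) ≠ 0)
    (hu : τ u = u) (hx : τ x = x) (huu : hermForm n F q u u = 0)
    (hxu : hermForm n F q x u = 0) (y : Fin n → F) :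
    act (siegel hF u x _ (isSiegel_real hτ hF h2 hx huu hxu)) (τ y) =
      τ (act (siegel hF u x _ (isSiegel_real hτ hF h2 hx huu hxu)) y) := by
  rw [tau_siegel hτ hu]
  have : siegel hF u (τ x) ((-(hermForm n F q x x / 2)) ^ q)
      (isSiegel_conj hτ hu (isSiegel_real hτ hF h2 hx huu hxu) hF) =
      siegel hF u x _ (isSiegel_real hτ hF h2 hx huu hxu) := by
    apply siegel_congr hF _ _ rfl hx
    rw [neg_pow_q hF, div_pow, two_pow_q hF, herm_self_pow hF]
  rw [this]

theorem siegel_real_mem {X : Subgroup (SU n F q)} (hX : Hyp X τ) {u x : Fin n → F}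
    (hF : Fintype.card F = q ^ 2) (h2 : (2 : F) ≠ 0)
    (hu : τ u = u) (hx : τ x = x) (huu : hermForm n F q u u = 0)
    (hxu : hermForm n F q x u = 0) :
    siegel hF u x _ (isSiegel_real hτ hF h2 hx huu hxu) ∈ X :=
  hX _ (siegel_real_comm hτ hF h2 hu hx huu hxu)

theorem InR.of_real {X : Subgroup (SU n F q)} (hX : Hyp X τ) {u x : Fin n → F}
    (hF : Fintype.card F = q ^ 2) (h2 : (2 : F) ≠ 0)
    (hu : τ u = u) (hx : τ x = x) (huu : hermForm n F q u u = 0)
    (hxu : hermForm n F q x u = 0) : InR hF X u x :=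
  ⟨_, _, siegel_real_mem hτ hX hF h2 hu hx huu hxu⟩

end conj

section exist

variable {τ : (Fin n → F) → (Fin n → F)} (hτ : IsReal q τ) (h2 : (2 : F) ≠ 0)
include hF hτ h2

/-- the plane of a real pair is stable -/
theorem pair_stable {u u' : Fin n → F} (hu : τ u = u) (hu' : τ u' = u') (x : Fin n → F)
    (h1 : hermForm n F q x u = 0) (h1' : hermForm n F q x u' = 0) :
    hermForm n F q (τ x) u = 0 ∧ hermForm n F q (τ x) u' = 0 := by
  constructor
  · have h := hτ.herm x u
    rwa [hu, h1, zero_pow_q hF] at h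
  · have h := hτ.herm x u'
    rwa [hu', h1', zero_pow_q hF] at h

/-- Lemma S. -/
theorem exists_iso_perp (hn : 5 ≤ n) {u x : Fin n → F} (hu : τ u = u) (hu0 : u ≠ 0)
    (huu : hermForm n F q u u = 0) (hxu : hermForm n F q x u = 0) (hx : ∀ c : F, x ≠ c • u) :
    ∃ s, τ s = s ∧ hermForm n F q s s = 0 ∧ hermForm n F q s u = 0 ∧ hermForm n F q x s ≠ 0 := by
  have hT : Nd q τ (⊤ : Submodule F (Fin n → F)) := Nd.top hF
  obtain ⟨u', -, hu', huu', huu1⟩ := hT.exists_partner hF hτ h2 Submodule.mem_top hu hu0 huu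
  have hW := hT.cutPair hF (w := u) (w' := u') Submodule.mem_top Submodule.mem_top huu huu'
    (by rw [huu1]; exact one_ne_zero) (fun x => pair_stable hF hτ h2 hu hu' x)
  have hd1 := finrank_inf_perp hF (⊤ : Submodule F (Fin n → F)) u
  have hd2 := finrank_inf_perp hF ((⊤ : Submodule F (Fin n → F)) ⊓ perp hF u) u'
  rw [finrank_top, Module.finrank_fin_fun] at hd1
  have hu'u : hermForm n F q u' u = 1 := by rw [hτ.herm_symm hF hu' hu, huu1]
  obtain ⟨s, ⟨⟨-, hs1⟩, hs2⟩, hsr, hss, hxs⟩ := hW.exists_iso hF hτ h2 (by omega)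
    (x := x - hermForm n F q x u' • u) (by
      refine ⟨⟨Submodule.mem_top, ?_⟩, ?_⟩
      · change hermForm n F q _ u = 0
        rw [herm_sub_left, hxu, herm_smul_left, huu, mul_zero, sub_zero]
      · change hermForm n F q _ u' = 0
        rw [herm_sub_left, herm_smul_left, huu1, mul_one, sub_self])
    (by
      intro h
      exact hx _ (sub_eq_zero.1 h))
  rw [SetLike.mem_coe, mem_perp] at hs1 hs2
  refine ⟨s, hsr, hss, hs1, ?_⟩
  rwa [herm_sub_left, herm_smul_left, herm_eq_zero_swap hF hs1, mul_zero, sub_zero] at hxs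

/-- Lemma T. -/
theorem exists_aniso_perp (hn : 5 ≤ n) {u s : Fin n → F} (hu : τ u = u) (hu0 : u ≠ 0)
    (huu : hermForm n F q u u = 0) (hs : τ s = s) (hss : hermForm n F q s s = 0)
    (hsu : hermForm n F q s u = 0) :
    ∃ t, τ t = t ∧ hermForm n F q t t ≠ 0 ∧ hermForm n F q t u = 0 ∧ hermForm n F q t s = 0 := by
  have hT : Nd q τ (⊤ : Submodule F (Fin n → F)) := Nd.top hF
  obtain ⟨u', -, hu', huu', huu1⟩ := hT.exists_partner hF hτ h2 Submodule.mem_top hu hu0 huu
  have hW := hT.cutPair hF (w := u) (w' := u') Submodule.mem_top Submodule.mem_top huu huu'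
    (by rw [huu1]; exact one_ne_zero) (fun x => pair_stable hF hτ h2 hu hu' x)
  have hd1 := finrank_inf_perp hF (⊤ : Submodule F (Fin n → F)) u
  have hd2 := finrank_inf_perp hF ((⊤ : Submodule F (Fin n → F)) ⊓ perp hF u) u'
  rw [finrank_top, Module.finrank_fin_fun] at hd1
  set a := hermForm n F q s u' with ha
  have haq : a ^ q = a := hτ.herm_real hs hu'
  set s₁ := s - a • u with hs₁
  have hs₁r : τ s₁ = s₁ := by rw [hs₁, hτ.sub hF, hs, hτ.smul_real haq hu]
  have hus := herm_eq_zero_swap hF hsu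
  have hs₁s₁ : hermForm n F q s₁ s₁ = 0 := by
    rw [hs₁, herm_sub_left, herm_sub_right hF, herm_sub_right hF, herm_smul_left, herm_smul_left,
      herm_smul_right, herm_smul_right, huu, hss, hsu, hus]
    ring
  have hs₁W : s₁ ∈ (⊤ : Submodule F (Fin n → F)) ⊓ perp hF u ⊓ perp hF u' := by
    refine ⟨⟨Submodule.mem_top, ?_⟩, ?_⟩
    · change hermForm n F q _ u = 0
      rw [hs₁, herm_sub_left, hsu, herm_smul_left, huu, mul_zero, sub_zero]
    · change hermForm n F q _ u' = 0
      rw [hs₁, herm_sub_left, herm_smul_left, huu1, mul_one, ← ha, sub_self]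
  by_cases h0 : s₁ = 0
  · obtain ⟨t, ⟨⟨-, ht1⟩, ht2⟩, htr, htt⟩ := hW.exists_aniso hF hτ h2
      (Nd.ne_bot_of_finrank (by omega))
    rw [SetLike.mem_coe, mem_perp] at ht1 ht2
    refine ⟨t, htr, htt, ht1, ?_⟩
    have : s = a • u := sub_eq_zero.1 (hs₁ ▸ h0)
    rw [this, herm_smul_right, ht1, mul_zero]
  · obtain ⟨f, hf, hfr, hff, hsf⟩ := hW.exists_partner hF hτ h2 hs₁W hs₁r h0 hs₁s₁
    have hW2 := hW.cutPair hF (w := s₁) (w' := f) hs₁W hf hs₁s₁ hff
      (by rw [hsf]; exact one_ne_zero) (fun x => pair_stable hF hτ h2 hs₁r hfr x)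
    have hd3 := finrank_inf_perp hF ((⊤ : Submodule F (Fin n → F)) ⊓ perp hF u ⊓ perp hF u') s₁
    have hd4 := finrank_inf_perp hF
      ((⊤ : Submodule F (Fin n → F)) ⊓ perp hF u ⊓ perp hF u' ⊓ perp hF s₁) f
    obtain ⟨t, ⟨⟨⟨⟨-, ht1⟩, ht2⟩, ht3⟩, ht4⟩, htr, htt⟩ := hW2.exists_aniso hF hτ h2
      (Nd.ne_bot_of_finrank (by omega))
    rw [SetLike.mem_coe, mem_perp] at ht1 ht2 ht3 ht4
    refine ⟨t, htr, htt, ht1, ?_⟩
    have : s = s₁ + a • u := by rw [hs₁]; abel
    rw [this, herm_add_right hF, herm_smul_right, ht1, ht3, mul_zero, add_zero]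

end exist

section lemmaA

variable {τ : (Fin n → F) → (Fin n → F)} (hτ : IsReal q τ) (h2 : (2 : F) ≠ 0)
  {X : Subgroup (SU n F q)} (hX : Hyp X τ)
include hτ hX h2

/-- step 1 -/
theorem step_one {u z s t : Fin n → F} (hsr : τ s = s)
    (hss : hermForm n F q s s = 0) (hsu : hermForm n F q s u = 0) (htr : τ t = t)
    (hts : hermForm n F q t s = 0) (htu : hermForm n F q t u = 0) (hz : InR hF X u z) :
    InR hF X u (hermForm n F q z s • t - (hermForm n F q t t / 2 * hermForm n F q z s +
      hermForm n F q z t) • s) := by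
  set k := siegel hF s t _ (isSiegel_real hτ hF h2 htr hss hts) with hk
  have hkX : k ∈ X := siegel_real_mem hτ hX hF h2 hsr htr hss hts
  have hku : act k u = u := by
    rw [hk]
    exact act_siegel_of_orth hF _ (herm_eq_zero_swap hF hsu) (herm_eq_zero_swap hF htu)
  have h1 := hz.map hF hkX
  rw [hku] at h1
  have h3 := h1.sub hF hz
  have h4 : act k z - z = hermForm n F q z s • t - (hermForm n F q t t / 2 * hermForm n F q z s +
      hermForm n F q z t) • s := by
    rw [hk, act_siegel]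
    funext i
    simp only [Pi.add_apply, Pi.sub_apply, Pi.smul_apply, smul_eq_mul]
    ring
  rwa [h4] at h3

/-- step 1b -/
theorem step_oneB {u z s t : Fin n → F} (hu : τ u = u) (hzi : τ z = -z) (hsr : τ s = s)
    (hss : hermForm n F q s s = 0) (hsu : hermForm n F q s u = 0) (htr : τ t = t)
    (hts : hermForm n F q t s = 0) (htu : hermForm n F q t u = 0)
    (htt : hermForm n F q t t ≠ 0) (hz : InR hF X u z) (hzs : hermForm n F q z s ≠ 0)
    {c : F} (hc : c ^ q = -c) : InR hF X u (c • s) := by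
  set a := hermForm n F q z s with ha
  set N := hermForm n F q t t with hN
  have haq : a ^ q = -a := hτ.herm_imag hF hzi hsr
  have hNq : N ^ q = N := hτ.herm_real htr htr
  have key : ∀ r : F, r ^ q = r → InR hF X u (-(r ^ 2 * N * a) • s) := by
    intro r hr
    have h3 := step_one hF hτ h2 hX hsr hss hsu (hτ.smul_real hr htr)
      (by rw [herm_smul_left, hts, mul_zero]) (by rw [herm_smul_left, htu, mul_zero]) hz
    have h4 := step_one hF hτ h2 hX (t := -(r • t)) hsr hss hsu
      (by rw [hτ.neg' hF, hτ.smul_real hr htr])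
      (by rw [herm_neg_left, herm_smul_left, hts, mul_zero, neg_zero])
      (by rw [herm_neg_left, herm_smul_left, htu, mul_zero, neg_zero]) hz
    have h5 := h3.add hF h4
    have h6 : (hermForm n F q z s • (r • t) - (hermForm n F q (r • t) (r • t) / 2 *
        hermForm n F q z s + hermForm n F q z (r • t)) • s) +
        (hermForm n F q z s • (-(r • t)) - (hermForm n F q (-(r • t)) (-(r • t)) / 2 *
        hermForm n F q z s + hermForm n F q z (-(r • t))) • s) = -(r ^ 2 * N * a) • s := by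
      rw [herm_neg_left, herm_neg_right hF, herm_neg_right hF, herm_smul_left, herm_smul_right,
        herm_smul_right, hr, ← ha, ← hN]
      funext i
      simp only [Pi.add_apply, Pi.sub_apply, Pi.smul_apply, Pi.neg_apply, smul_eq_mul]
      field_simp
      ring
    rwa [h6] at h5
  set ρ := -c / (N * a) with hρ
  have hρq : ρ ^ q = ρ := by
    rw [hρ, div_pow, mul_pow, neg_pow_q hF, hc, hNq, haq]
    field_simp
  have h22 := two_pow_q hF
  have e1 : ((ρ + 1) / 2) ^ q = (ρ + 1) / 2 := by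
    rw [div_pow, add_pow_q hF, hρq, one_pow, h22]
  have e2 : ((ρ - 1) / 2) ^ q = (ρ - 1) / 2 := by
    rw [div_pow, sub_pow_q hF, hρq, one_pow, h22]
  have h7 := (key _ e1).sub hF (key _ e2)
  have h8 : -(((ρ + 1) / 2) ^ 2 * N * a) • s - -(((ρ - 1) / 2) ^ 2 * N * a) • s = c • s := by
    rw [← sub_smul]
    congr 1
    have h9 : ρ * (N * a) = -c := by
      rw [hρ]
      field_simp
    field_simp
    linear_combination (-4 : F) * h9
  rwa [h8] at h7

/-- step 1c -/
theorem step_oneC {u z s t t₀ : Fin n → F} (hu : τ u = u) (hzi : τ z = -z) (hsr : τ s = s)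
    (hss : hermForm n F q s s = 0) (hsu : hermForm n F q s u = 0) (ht₀r : τ t₀ = t₀)
    (ht₀s : hermForm n F q t₀ s = 0) (ht₀u : hermForm n F q t₀ u = 0)
    (ht₀t₀ : hermForm n F q t₀ t₀ ≠ 0) (htr : τ t = t)
    (hts : hermForm n F q t s = 0) (htu : hermForm n F q t u = 0)
    (hz : InR hF X u z) (hzs : hermForm n F q z s ≠ 0)
    {c : F} (hc : c ^ q = -c) : InR hF X u (c • t) := by
  set a := hermForm n F q z s with ha
  have haq : a ^ q = -a := hτ.herm_imag hF hzi hsr
  set r := c / a with hr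
  have hrq : r ^ q = r := by
    rw [hr, div_pow, hc, haq]
    field_simp
  have h3 := step_one hF hτ h2 hX hsr hss hsu (hτ.smul_real hrq htr)
      (by rw [herm_smul_left, hts, mul_zero]) (by rw [herm_smul_left, htu, mul_zero]) hz
  have h4 : InR hF X u ((hermForm n F q (r • t) (r • t) / 2 * a +
        hermForm n F q z (r • t)) • s) := by
    apply step_oneB hF hτ h2 hX hu hzi hsr hss hsu ht₀r ht₀s ht₀u ht₀t₀ hz hzs
    rw [add_pow_q hF, mul_pow, div_pow, haq, herm_self_pow hF, two_pow_q hF,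
      hτ.herm_imag hF hzi (hτ.smul_real hrq htr)]
    ring
  have h5 := h3.add hF h4
  rw [sub_add_cancel, smul_smul] at h5
  have h6 : a * r = c := by rw [hr]; field_simp
  rwa [← ha, h6] at h5

/-- step 2 -/
theorem step_two (hn : 5 ≤ n) {u z s : Fin n → F} (hu : τ u = u) (hu0 : u ≠ 0)
    (huu : hermForm n F q u u = 0) (hzi : τ z = -z) (hz : InR hF X u z)
    (hzu : ∀ c : F, z ≠ c • u) (hsr : τ s = s) (hss : hermForm n F q s s = 0)
    (hsu : hermForm n F q s u = 0) {c : F} (hc : c ^ q = -c) : InR hF X u (c • s) := by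
  have hz0 : hermForm n F q z u = 0 := by
    obtain ⟨μ, hs, -⟩ := hz
    exact hs.orth
  obtain ⟨s₀, hs₀r, hs₀s₀, hs₀u, hzs₀⟩ := exists_iso_perp hF hτ h2 hn hu hu0 huu hz0 hzu
  obtain ⟨t₀, ht₀r, ht₀t₀, ht₀u, ht₀s₀⟩ := exists_aniso_perp hF hτ h2 hn hu hu0 huu hs₀r hs₀s₀ hs₀u
  by_cases h : hermForm n F q s s₀ = 0
  · exact step_oneC hF hτ h2 hX hu hzi hs₀r hs₀s₀ hs₀u ht₀r ht₀s₀ ht₀u ht₀t₀ hsr h hsu hz hzs₀ hc
  · obtain ⟨κ, hκ0, hκ⟩ := exists_kappa hF
    have h1 : InR hF X u (κ • s₀) :=
      step_oneB hF hτ h2 hX hu hzi hs₀r hs₀s₀ hs₀u ht₀r ht₀s₀ ht₀u ht₀t₀ hz hzs₀ hκ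
    obtain ⟨t, htr, htt, htu, hts⟩ := exists_aniso_perp hF hτ h2 hn hu hu0 huu hsr hss hsu
    refine step_oneB hF hτ h2 hX hu (hτ.smul_real_imag hκ hs₀r) hsr hss hsu htr hts htu htt h1 ?_ hc
    rw [herm_smul_left]
    exact mul_ne_zero hκ0 (fun h' => h (herm_eq_zero_swap hF h'))

/-- step 3 -/
theorem step_three (hn : 5 ≤ n) {u z y : Fin n → F} (hu : τ u = u) (hu0 : u ≠ 0)
    (huu : hermForm n F q u u = 0) (hzi : τ z = -z) (hz : InR hF X u z)
    (hzu : ∀ c : F, z ≠ c • u) (hyr : τ y = y)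
    (hyu : hermForm n F q y u = 0) {c : F} (hc : c ^ q = -c) : InR hF X u (c • y) := by
  by_cases h : ∃ d : F, y = d • u
  · obtain ⟨d, rfl⟩ := h
    rw [smul_smul]
    exact InR.smul_self hF huu _
  · push Not at h
    obtain ⟨s, hsr, hss, hsu, hys⟩ := exists_iso_perp hF hτ h2 hn hu hu0 huu hyu h
    set N := hermForm n F q y y with hN
    set a := hermForm n F q y s with ha
    have haq : a ^ q = a := hτ.herm_real hyr hsr
    have hNq : N ^ q = N := hτ.herm_real hyr hyr
    set ρ := N / (2 * a) with hρ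
    have hρq : ρ ^ q = ρ := by
      rw [hρ, div_pow, mul_pow, hNq, haq, two_pow_q hF]
    have hsy : hermForm n F q s y = a := by rw [hτ.herm_symm hF hsr hyr]
    have h1 : InR hF X u (c • (y - ρ • s)) := by
      apply step_two hF hτ h2 hX hn hu hu0 huu hzi hz hzu _ _ _ hc
      · rw [hτ.sub hF, hyr, hτ.smul_real hρq hsr]
      · rw [herm_sub_left, herm_sub_right hF, herm_sub_right hF, herm_smul_left, herm_smul_left,
          herm_smul_right, herm_smul_right, hρq, hss, hsy, ← ha, ← hN, hρ]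
        field_simp
        ring
      · rw [herm_sub_left, herm_smul_left, hyu, hsu, mul_zero, sub_zero]
    have h3 : InR hF X u ((c * ρ) • s) := by
      apply step_two hF hτ h2 hX hn hu hu0 huu hzi hz hzu hsr hss hsu
      rw [mul_pow, hc, hρq]
      ring
    have h4 := h1.add hF h3
    have h5 : c • (y - ρ • s) + (c * ρ) • s = c • y := by
      rw [smul_sub, smul_smul, sub_add_cancel]
    rwa [h5] at h4

/-- step 4 -/
theorem step_four (hn : 5 ≤ n) {u z w : Fin n → F} (hu : τ u = u) (hu0 : u ≠ 0)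
    (huu : hermForm n F q u u = 0) (hzi : τ z = -z) (hz : InR hF X u z)
    (hzu : ∀ c : F, z ≠ c • u) (hwu : hermForm n F q w u = 0) : InR hF X u w := by
  obtain ⟨κ, hκ0, hκ⟩ := exists_kappa hF
  have hτwu : hermForm n F q (τ w) u = 0 := by
    have h := hτ.herm w u
    rwa [hu, hwu, zero_pow_q hF] at h
  rw [IsReal.part_add (τ := τ) h2 w]
  apply InR.add
  · apply InR.of_real hτ hX hF h2 hu (hτ.real_part hF h2 w) huu
    rw [herm_smul_left, herm_add_left, hwu, hτwu]
    ring
  · have h1 : (2 : F)⁻¹ • (w - τ w) = κ⁻¹ • (κ • ((2 : F)⁻¹ • (w - τ w))) := by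
      rw [smul_smul κ⁻¹, inv_mul_cancel₀ hκ0, one_smul]
    rw [h1]
    apply step_three hF hτ h2 hX hn hu hu0 huu hzi hz hzu (hτ.smul_imag hκ (hτ.imag_part hF h2 w))
    · rw [herm_smul_left, herm_smul_left, herm_sub_left, hwu, hτwu]
      ring
    · rw [inv_pow, hκ]
      field_simp

/-- step 6 -/
theorem step_six (hn : 5 ≤ n) {u z : Fin n → F} (hu : τ u = u) (hu0 : u ≠ 0)
    (huu : hermForm n F q u u = 0) (hzi : τ z = -z) (hz : InR hF X u z)
    (hzu : ∀ c : F, z ≠ c • u) : Full hF X u := by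
  have hw : ∀ w, hermForm n F q w u = 0 → InR hF X u w :=
    fun w => step_four hF hτ h2 hX hn hu hu0 huu hzi hz hzu
  -- transvections
  have htv : ∀ (c : F) (h : IsSiegel q u 0 c), siegel hF u 0 c h ∈ X := by
    intro c h
    have hc : c ^ q = -c := by
      have := h.tr
      rw [herm_zero_left] at this
      linear_combination this
    -- two vectors orthogonal to `u` with product one
    obtain ⟨s, hsr, hss, hsu, hzs⟩ := exists_iso_perp hF hτ h2 hn hu hu0 huu (by
      obtain ⟨μ, hs, -⟩ := hz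
      exact hs.orth) hzu
    set a := hermForm n F q z s with ha
    have haq : a ^ q = -a := hτ.herm_imag hF hzi hsr
    have hzu0 : hermForm n F q z u = 0 := by
      obtain ⟨μ, hs, -⟩ := hz
      exact hs.orth
    obtain ⟨μ₁, hs₁, hm₁⟩ := hw ((c / (2 * a)) • z) (by rw [herm_smul_left, hzu0, mul_zero])
    obtain ⟨μ₂, hs₂, hm₂⟩ := hw s hsu
    have h3 := siegel_mul hF hs₁ hs₂
    have h4 := siegel_mul hF hs₂ hs₁
    have h5 := siegel_mul hF h (hs₂.mul hF hs₁)
    have e1 : hermForm n F q ((c / (2 * a)) • z) s = c / 2 := by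
      rw [herm_smul_left, ← ha]
      field_simp
    have e2 : hermForm n F q s ((c / (2 * a)) • z) = -(c / 2) := by
      rw [herm_swap hF, e1, div_pow, hc, two_pow_q hF]
      ring
    have h6 : siegel hF u 0 c h = (siegel hF u ((c / (2 * a)) • z) μ₁ hs₁ * siegel hF u s μ₂ hs₂) *
        (siegel hF u s μ₂ hs₂ * siegel hF u ((c / (2 * a)) • z) μ₁ hs₁)⁻¹ := by
      rw [eq_mul_inv_iff_mul_eq, h4, h3, h5]
      apply siegel_congr hF _ _ rfl
      · rw [zero_add, add_comm]
      · rw [e1, e2, herm_zero_right hF]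
        field_simp
        ring
    rw [h6]
    exact X.mul_mem (X.mul_mem hm₁ hm₂) (X.inv_mem (X.mul_mem hm₂ hm₁))
  intro w μ hs
  obtain ⟨μ₁, hs₁, hm₁⟩ := hw w hs.orth
  have h0 : IsSiegel q u 0 (μ - μ₁) := by
    refine ⟨huu, herm_zero_left _, ?_⟩
    rw [herm_zero_left, sub_pow_q hF]
    linear_combination hs.tr - hs₁.tr
  have h1 := siegel_mul hF h0 hs₁
  have h3 : siegel hF u w μ hs = siegel hF u 0 (μ - μ₁) h0 * siegel hF u w μ₁ hs₁ := by
    rw [h1]
    apply siegel_congr hF _ _ rfl
    · rw [zero_add]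
    · rw [herm_zero_right hF]
      ring
  rw [h3]
  exact X.mul_mem (htv _ _) hm₁

/-- step 7 -/
theorem step_seven (hn : 5 ≤ n) {u : Fin n → F} (hu : τ u = u) (hu0 : u ≠ 0)
    (huu : hermForm n F q u u = 0) (hfull : Full hF X u) : X = ⊤ := by
  have hT : Nd q τ (⊤ : Submodule F (Fin n → F)) := Nd.top hF
  obtain ⟨u', -, hu', hu'u', huu1⟩ := hT.exists_partner hF hτ h2 Submodule.mem_top hu hu0 huu
  have hu'u : hermForm n F q u' u = 1 := by rw [hτ.herm_symm hF hu' hu, huu1]
  have hW := hT.cutPair hF (w := u) (w' := u') Submodule.mem_top Submodule.mem_top huu hu'u'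
    (by rw [huu1]; exact one_ne_zero) (fun x => pair_stable hF hτ h2 hu hu' x)
  have hd1 := finrank_inf_perp hF (⊤ : Submodule F (Fin n → F)) u
  have hd2 := finrank_inf_perp hF ((⊤ : Submodule F (Fin n → F)) ⊓ perp hF u) u'
  rw [finrank_top, Module.finrank_fin_fun] at hd1
  obtain ⟨t, ⟨⟨-, htu⟩, htu'⟩, htr, htt⟩ := hW.exists_aniso hF hτ h2
      (Nd.ne_bot_of_finrank (by omega))
  rw [SetLike.mem_coe, mem_perp] at htu htu'
  set N := hermForm n F q t t with hN
  have hNq : N ^ q = N := hτ.herm_real htr htr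
  have hut := herm_eq_zero_swap hF htu
  have hu't := herm_eq_zero_swap hF htu'
  set k₁ := siegel hF u' t _ (isSiegel_real hτ hF h2 htr hu'u' htu') with hk₁
  have hk₁X : k₁ ∈ X := siegel_real_mem hτ hX hF h2 hu' htr hu'u' htu'
  have hc2 : (2 / N) ^ q = 2 / N := by rw [div_pow, hNq, two_pow_q hF]
  have ht2r : τ ((2 / N) • t) = (2 / N) • t := hτ.smul_real hc2 htr
  have ht2u : hermForm n F q ((2 / N) • t) u = 0 := by rw [herm_smul_left, htu, mul_zero]
  set k₂ := siegel hF u ((2 / N) • t) _ (isSiegel_real hτ hF h2 ht2r huu ht2u) with hk₂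
  have hk₂X : k₂ ∈ X := hfull _ _ _
  have e1 : act k₁ u = u + t - (N / 2) • u' := by
    rw [hk₁, act_siegel, huu1, hut, ← hN]
    funext i
    simp only [Pi.add_apply, Pi.sub_apply, Pi.smul_apply, smul_eq_mul]
    ring
  have e2 : act k₂ (act k₁ u) = -(N / 2) • u' := by
    rw [e1, hk₂, act_siegel]
    have a1 : hermForm n F q (u + t - (N / 2) • u') u = -(N / 2) := by
      rw [herm_sub_left, herm_add_left, herm_smul_left, huu, htu, hu'u]
      ring
    have a2 : hermForm n F q (u + t - (N / 2) • u') ((2 / N) • t) = 2 := by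
      rw [herm_smul_right, hc2, herm_sub_left, herm_add_left, herm_smul_left, hut, hu't, ← hN]
      field_simp
      ring
    have a3 : hermForm n F q ((2 / N) • t) ((2 / N) • t) = 4 / N := by
      rw [herm_smul_right, hc2, herm_smul_left, ← hN]
      field_simp
      norm_num
    rw [a1, a2, a3]
    funext i
    simp only [Pi.add_apply, Pi.sub_apply, Pi.smul_apply, smul_eq_mul]
    field_simp
    ring
  have hf2 : Full hF X (-(N / 2) • u') := by
    rw [← e2, ← act_mul]
    exact hfull.map hF (X.mul_mem hk₂X hk₁X)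
  have hc0 : (-(N / 2)) ≠ 0 := neg_ne_zero.2 (div_ne_zero htt h2)
  have hf3 : Full hF X u' := by
    have := hf2.smul hF (inv_ne_zero hc0)
    rwa [smul_smul, inv_mul_cancel₀ hc0, one_smul] at this
  exact eq_top_of_full hF (by omega) huu hu'u' huu1 hfull hf3

/-- **Lemma A.** If `X` is proper, every Siegel element of `X` attached to a real isotropic vector
commutes with the real structure. -/
theorem comm_of_siegel_mem (hn : 5 ≤ n) (hXtop : X ≠ ⊤) {u x : Fin n → F} {μ : F} (hu : τ u = u)
    (hu0 : u ≠ 0) (h : IsSiegel q u x μ) (hmem : siegel hF u x μ h ∈ X) (y : Fin n → F) :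
    act (siegel hF u x μ h) (τ y) = τ (act (siegel hF u x μ h) y) := by
  have huu := h.iso
  have hxu := h.orth
  have hτxu : hermForm n F q (τ x) u = 0 := by
    have h := hτ.herm x u
    rwa [hu, hxu, zero_pow_q hF] at h
  set x₁ := (2 : F)⁻¹ • (x + τ x) with hx₁
  set x₂ := (2 : F)⁻¹ • (x - τ x) with hx₂
  have hx₁r : τ x₁ = x₁ := hτ.real_part hF h2 x
  have hx₂i : τ x₂ = -x₂ := hτ.imag_part hF h2 x
  have hxx : x = x₁ + x₂ := IsReal.part_add h2 x
  have hx₁u : hermForm n F q x₁ u = 0 := by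
    rw [hx₁, herm_smul_left, herm_add_left, hxu, hτxu]
    ring
  have hk := siegel_real_mem hτ hX hF h2 hu hx₁r huu hx₁u
  have hk' := isSiegel_real hτ hF h2 hx₁r huu hx₁u
  have hcomm := siegel_real_comm hτ hF h2 hu hx₁r huu hx₁u
  -- the quotient
  have hR2 : InR hF X u x₂ := by
    have h3 : InR hF X u x := ⟨μ, h, hmem⟩
    have h4 : InR hF X u x₁ := ⟨_, _, hk⟩
    have h5 := h3.sub hF h4
    have h6 : x - x₁ = x₂ := by rw [hxx]; abel
    rwa [h6] at h5
  by_cases h7 : ∃ c : F, x₂ = c • u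
  swap
  · push Not at h7
    exact absurd (step_seven hF hτ h2 hX hn hu hu0 huu
      (step_six hF hτ h2 hX hn hu hu0 huu hx₂i hR2 h7)) hXtop
  obtain ⟨c, hc⟩ := h7
  -- then the element is a transvection times a real Siegel element
  set d := μ + hermForm n F q x₁ x₁ / 2 + (c - c ^ q) with hd
  have hxx1 : hermForm n F q x x = hermForm n F q x₁ x₁ := by
    have h3 : hermForm n F q x x = hermForm n F q (x₁ + c • u) (x₁ + c • u) := by
      rw [← hc, ← hxx]
    rw [h3, herm_add_left, herm_add_right hF, herm_add_right hF, herm_smul_left c,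
      herm_smul_left c, herm_smul_right c, herm_smul_right c, huu, hx₁u,
      herm_eq_zero_swap hF hx₁u]
    ring
  have hdq : d + d ^ q = 0 := by
    rw [hd, add_pow_q hF, add_pow_q hF, sub_pow_q hF, pow_q_pow_q hF, div_pow, herm_self_pow hF,
      two_pow_q hF]
    have := h.tr
    rw [hxx1] at this
    field_simp
    linear_combination (2 : F) * this
  have hst : IsSiegel q u 0 d := ⟨huu, herm_zero_left _, by rw [herm_zero_left, hdq, add_zero]⟩
  have hprod : siegel hF u x μ h = siegel hF u 0 d hst * siegel hF u x₁ _ hk' := by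
    apply ext_act
    intro v
    rw [act_mul, act_siegel, act_siegel, act_siegel, hxx, hc]
    simp only [herm_add_left, herm_add_right hF, herm_smul_left, herm_smul_right, huu, hx₁u,
      herm_zero_right hF, hd]
    funext i
    simp only [Pi.add_apply, Pi.smul_apply, Pi.zero_apply, smul_eq_mul]
    ring
  by_cases hd0 : d = 0
  · have h8 : siegel hF u 0 d hst = 1 := by
      apply ext_act
      intro v
      rw [act_siegel, act_one, hd0, herm_zero_right hF]
      simp
    rw [hprod, h8, one_mul]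
    exact hcomm y
  -- otherwise `X` contains a transvection and then everything
  exfalso
  have htm : siegel hF u 0 d hst ∈ X := by
    have : siegel hF u 0 d hst = siegel hF u x μ h * (siegel hF u x₁ _ hk')⁻¹ := by
      rw [hprod, mul_inv_cancel_right]
    rw [this]
    exact X.mul_mem hmem (X.inv_mem hk)
  have hT : Nd q τ (⊤ : Submodule F (Fin n → F)) := Nd.top hF
  obtain ⟨u', -, hu', hu'u', huu1⟩ := hT.exists_partner hF hτ h2 Submodule.mem_top hu hu0 huu
  have hu'u : hermForm n F q u' u = 1 := by rw [hτ.herm_symm hF hu' hu, huu1]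
  have hW := hT.cutPair hF (w := u) (w' := u') Submodule.mem_top Submodule.mem_top huu hu'u'
    (by rw [huu1]; exact one_ne_zero) (fun x => pair_stable hF hτ h2 hu hu' x)
  have hd1 := finrank_inf_perp hF (⊤ : Submodule F (Fin n → F)) u
  have hd2 := finrank_inf_perp hF ((⊤ : Submodule F (Fin n → F)) ⊓ perp hF u) u'
  rw [finrank_top, Module.finrank_fin_fun] at hd1
  obtain ⟨e, ⟨⟨-, heu⟩, heu'⟩, f, hf, her, hfr, hee, hff, hef⟩ := hW.exists_pair hF hτ h2 (by omega)
  rw [SetLike.mem_coe, mem_perp] at heu heu'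
  have hue := herm_eq_zero_swap hF heu
  have hdq' : d ^ q = -d := by linear_combination hdq
  have key : ∀ e' : Fin n → F, τ e' = e' → hermForm n F q e' e' = 0 → hermForm n F q e' u = 0 →
      hermForm n F q e' u' = 0 → ∃ hs : IsSiegel q (u + e') 0 d,
        siegel hF (u + e') 0 d hs ∈ X := by
    intro e' he' he'e' he'u he'u'
    have h9 := isSiegel_real hτ hF h2 he' hu'u' he'u'
    have h10 := siegel_real_mem hτ hX hF h2 hu' he' hu'u' he'u'
    have h11 : act (siegel hF u' e' _ h9) u = u + e' := by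
      rw [act_siegel, huu1, he'e', herm_eq_zero_swap hF he'u]
      simp
    have h12 := hst.map (siegel hF u' e' _ h9)
    have h13 := conj_siegel hF hst (siegel hF u' e' _ h9)
    have h14 : act (siegel hF u' e' _ h9) 0 = 0 := act_zero _
    rw [h11, h14] at h12
    refine ⟨h12, ?_⟩
    have h15 : siegel hF (u + e') 0 d h12 = siegel hF (act (siegel hF u' e' _ h9) u)
        (act (siegel hF u' e' _ h9) 0) d (hst.map _) :=
      siegel_congr hF _ _ h11.symm h14.symm rfl
    rw [h15, ← h13]
    exact X.mul_mem (X.mul_mem h10 htm) (X.inv_mem h10)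
  obtain ⟨hs₁, hm₁⟩ := key e her hee heu heu'
  obtain ⟨hs₂, hm₂⟩ := key (-e) (by rw [hτ.neg' hF, her])
    (by rw [herm_neg_left, herm_neg_right hF, hee, neg_zero, neg_zero])
    (by rw [herm_neg_left, heu, neg_zero]) (by rw [herm_neg_left, heu', neg_zero])
  have hs₃ : IsSiegel q u ((2 * d) • e) 0 := by
    refine ⟨huu, by rw [herm_smul_left, heu, mul_zero], ?_⟩
    rw [herm_smul_left, herm_smul_right, hee, zero_pow_q hF]
    ring
  have hm₃ : siegel hF u ((2 * d) • e) 0 hs₃ ∈ X := by
    have : siegel hF u ((2 * d) • e) 0 hs₃ = siegel hF (u + e) 0 d hs₁ *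
        (siegel hF (u + -e) 0 d hs₂)⁻¹ := by
      rw [eq_mul_inv_iff_mul_eq]
      apply ext_act
      intro v
      rw [act_mul, act_siegel, act_siegel, act_siegel]
      simp only [herm_add_left, herm_add_right hF, herm_smul_left, herm_smul_right, huu, heu,
        herm_zero_right hF, herm_zero_left, herm_neg_right hF, herm_neg_left, hue, hee, mul_pow,
        two_pow_q hF, hdq']
      funext i
      simp only [Pi.add_apply, Pi.smul_apply, Pi.neg_apply, Pi.zero_apply, smul_eq_mul]
      ring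
    rw [this]
    exact X.mul_mem hm₁ (X.inv_mem hm₂)
  apply hXtop
  have hi : τ ((2 * d) • e) = -((2 * d) • e) := by
    apply hτ.smul_real_imag _ her
    rw [mul_pow, two_pow_q hF, hdq']
    ring
  refine step_seven hF hτ h2 hX hn hu hu0 huu
      (step_six hF hτ h2 hX hn hu hu0 huu hi ⟨_, hs₃, hm₃⟩ ?_)
  intro c' hc'
  have h16 := congrArg (fun v => hermForm n F q v u') hc'
  simp only [herm_smul_left, heu', huu1, mul_zero, mul_one] at h16
  rw [← h16, zero_smul] at hc'
  have h17 : e ≠ 0 := by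
    rintro rfl
    rw [herm_zero_left] at hef
    exact zero_ne_one hef
  exact (smul_ne_zero (mul_ne_zero h2 hd0) h17) hc'

end lemmaA

end Cfsg.Agent.H927
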