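import Mathlib
import Cfsg.Agent.H927.OrthA

/-!
# Proper subgroups of `SU_n(q)` containing the real isometries normalise the real structure

`X ≤ SU n F q` proper, containing every element commuting with the real structure `τ`, `q` odd,
`n ≥ 5`. Then every `g ∈ X` is a scalar multiple of an element commuting with `τ`
(`exists_comm_of_mem`).
-/

set_option autoImplicit false
set_option linter.unusedSectionVars false
set_option linter.unusedVariables false

namespace Cfsg.Agent.H927

open Cfsg Cfsg.Agent.LieClassical.HermBasic Cfsg.Agent.LieClassical.HermSiegel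

variable {F : Type*} [Field F] [Fintype F] {n q : ℕ} (hF : Fintype.card F = q ^ 2)

/-- Hilbert 90. -/
theorem exists_hilbert (hF : Fintype.card F = q ^ 2) {c : F} (hc : c * c ^ q = 1) :
    ∃ l : F, l ≠ 0 ∧ c ^ q * l ^ q = l := by
  by_contra hcon
  push Not at hcon
  have key : ∀ ξ : F, ξ + (c * ξ) ^ q = 0 := by
    intro ξ
    by_contra h
    apply hcon _ h
    rw [add_pow_q hF, pow_q_pow_q hF, mul_pow]
    linear_combination ξ * hc
  have h1 := key 1
  rw [mul_one] at h1
  obtain ⟨ξ, hξ⟩ := exists_not_fixed hF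
  apply hξ
  have h2 := key ξ
  rw [mul_pow] at h2
  linear_combination (-1 : F) * h2 + ξ ^ q * h1

theorem eq_of_forall_herm (hF : Fintype.card F = q ^ 2) {a b : Fin n → F}
    (h : ∀ x, hermForm n F q x a = hermForm n F q x b) : a = b := by
  by_contra hab
  obtain ⟨v, hv⟩ := exists_herm_ne_zero hF (sub_ne_zero.2 hab)
  apply hv
  apply herm_eq_zero_swap hF
  rw [herm_sub_right hF, h, sub_self]

section lemmaB

variable {τ : (Fin n → F) → (Fin n → F)} (hτ : IsReal q τ) (h2 : (2 : F) ≠ 0)

/-- The symmetric bilinear form `h(gx, τ(gy))`. -/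
def Phi (τ : (Fin n → F) → (Fin n → F)) (g : SU n F q) (x y : Fin n → F) : F :=
  hermForm n F q (act g x) (τ (act g y))

include hτ

omit [Fintype F] hτ in
theorem Phi_add_left (g : SU n F q) (x x' y : Fin n → F) :
    Phi τ g (x + x') y = Phi τ g x y + Phi τ g x' y := by
  unfold Phi
  rw [act_add, herm_add_left]

omit [Fintype F] hτ in
theorem Phi_smul_left (g : SU n F q) (c : F) (x y : Fin n → F) :
    Phi τ g (c • x) y = c * Phi τ g x y := by
  unfold Phi
  rw [act_smul, herm_smul_left]

omit [Fintype F] hτ in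
theorem Phi_sub_left (g : SU n F q) (x x' y : Fin n → F) :
    Phi τ g (x - x') y = Phi τ g x y - Phi τ g x' y := by
  unfold Phi
  rw [act_sub, herm_sub_left]

theorem Phi_symm (hF : Fintype.card F = q ^ 2) (g : SU n F q) (x y : Fin n → F) :
    Phi τ g y x = Phi τ g x y := by
  unfold Phi
  have h1 := hτ.herm (τ (act g y)) (act g x)
  rw [hτ.invol, herm_swap hF (act g x) (τ (act g y)), pow_q_pow_q hF] at h1
  exact h1

theorem Phi_add_right (hF : Fintype.card F = q ^ 2) (g : SU n F q) (x y y' : Fin n → F) :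
    Phi τ g x (y + y') = Phi τ g x y + Phi τ g x y' := by
  rw [Phi_symm hτ hF, Phi_add_left, Phi_symm hτ hF g y x, Phi_symm hτ hF g y' x]

theorem Phi_sub_right (hF : Fintype.card F = q ^ 2) (g : SU n F q) (x y y' : Fin n → F) :
    Phi τ g x (y - y') = Phi τ g x y - Phi τ g x y' := by
  rw [Phi_symm hτ hF, Phi_sub_left, Phi_symm hτ hF g y x, Phi_symm hτ hF g y' x]

theorem Phi_smul_right (hF : Fintype.card F = q ^ 2) (g : SU n F q) (c : F) (x y : Fin n → F) :
    Phi τ g x (c • y) = c * Phi τ g x y := by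
  rw [Phi_symm hτ hF, Phi_smul_left, Phi_symm hτ hF g y x]

include h2

theorem Phi_real_perp (hF : Fintype.card F = q ^ 2) (hn : 5 ≤ n) {g : SU n F q}
    (hiso : ∀ u, τ u = u → hermForm n F q u u = 0 → Phi τ g u u = 0) {u x : Fin n → F}
    (hu : τ u = u) (hu0 : u ≠ 0) (huu : hermForm n F q u u = 0) (hx : τ x = x)
    (hxu : hermForm n F q x u = 0) : Phi τ g x u = 0 := by
  have h1 : ∀ s, τ s = s → hermForm n F q s s = 0 → hermForm n F q s u = 0 → Phi τ g s u = 0 := by
    intro s hs hss hsu
    have h3 := hiso (s + u) (by rw [hτ.add, hs, hu]) (by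
      rw [herm_add_left, herm_add_right hF, herm_add_right hF, hss, hsu, huu,
        herm_eq_zero_swap hF hsu]
      ring)
    rw [Phi_add_left, Phi_add_right hτ hF, Phi_add_right hτ hF, hiso s hs hss, hiso u hu huu,
      Phi_symm hτ hF g s u] at h3
    have h4 : 2 * Phi τ g s u = 0 := by linear_combination h3
    exact (mul_eq_zero.1 h4).resolve_left h2
  by_cases h : ∃ d : F, x = d • u
  · obtain ⟨d, rfl⟩ := h
    rw [Phi_smul_left, hiso u hu huu, mul_zero]
  · push Not at h
    obtain ⟨s, hsr, hss, hsu, hxs⟩ := exists_iso_perp hF hτ h2 hn hu hu0 huu hxu h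
    set N := hermForm n F q x x with hN
    set a := hermForm n F q x s with ha
    have haq : a ^ q = a := hτ.herm_real hx hsr
    have hNq : N ^ q = N := hτ.herm_real hx hx
    set ρ := N / (2 * a) with hρ
    have hρq : ρ ^ q = ρ := by
      rw [hρ, div_pow, mul_pow, hNq, haq, two_pow_q hF]
    have hsx : hermForm n F q s x = a := by rw [hτ.herm_symm hF hsr hx]
    have h3 := h1 (x - ρ • s) (by rw [hτ.sub hF, hx, hτ.smul_real hρq hsr]) (by
      rw [herm_sub_left, herm_sub_right hF, herm_sub_right hF, herm_smul_left, herm_smul_left,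
          herm_smul_right, herm_smul_right, hρq, hss, hsx, ← ha, ← hN, hρ]
      field_simp
      ring) (by rw [herm_sub_left, herm_smul_left, hxu, hsu, mul_zero, sub_zero])
    rw [Phi_sub_left, Phi_smul_left, h1 s hsr hss hsu, mul_zero, sub_zero] at h3
    exact h3

theorem Phi_perp (hF : Fintype.card F = q ^ 2) (hn : 5 ≤ n) {g : SU n F q}
    (hiso : ∀ u, τ u = u → hermForm n F q u u = 0 → Phi τ g u u = 0) {u x : Fin n → F}
    (hu : τ u = u) (hu0 : u ≠ 0) (huu : hermForm n F q u u = 0)
    (hxu : hermForm n F q x u = 0) : Phi τ g x u = 0 := by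
  obtain ⟨κ, hκ0, hκ⟩ := exists_kappa hF
  have hτxu : hermForm n F q (τ x) u = 0 := by
    have h := hτ.herm x u
    rwa [hu, hxu, zero_pow_q hF] at h
  have h3 := Phi_real_perp hτ h2 hF hn hiso hu hu0 huu (hτ.real_part hF h2 x) (by
    rw [herm_smul_left, herm_add_left, hxu, hτxu]
    ring)
  have h4 := Phi_real_perp hτ h2 hF hn hiso hu hu0 huu
    (hτ.smul_imag hκ (hτ.imag_part hF h2 x)) (by
    rw [herm_smul_left, herm_smul_left, herm_sub_left, hxu, hτxu]
    ring)
  rw [Phi_smul_left] at h4
  have h5 := (mul_eq_zero.1 h4).resolve_left hκ0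
  rw [IsReal.part_add (τ := τ) h2 x, Phi_add_left, h3, h5, add_zero]

theorem Phi_iso (hF : Fintype.card F = q ^ 2) (hn : 5 ≤ n) {g : SU n F q}
    (hiso : ∀ u, τ u = u → hermForm n F q u u = 0 → Phi τ g u u = 0) {u u' : Fin n → F}
    (hu : τ u = u) (hu0 : u ≠ 0) (huu : hermForm n F q u u = 0)
    (hu'u : hermForm n F q u' u = 1) (x : Fin n → F) :
    Phi τ g x u = hermForm n F q x u * Phi τ g u' u := by
  have h1 : Phi τ g (x - hermForm n F q x u • u') u = 0 :=
    Phi_perp hτ h2 hF hn hiso hu hu0 huu (by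
      rw [herm_sub_left, herm_smul_left, hu'u, mul_one, sub_self])
  rw [Phi_sub_left, Phi_smul_left] at h1
  linear_combination h1

/-- the scalar of `g` -/
theorem exists_scalar (hF : Fintype.card F = q ^ 2) (hn : 5 ≤ n) {g : SU n F q}
    (hiso : ∀ u, τ u = u → hermForm n F q u u = 0 → Phi τ g u u = 0) :
    ∃ c : F, ∀ y, τ y = y → τ (act g y) = c ^ q • act g y := by
  have hT : Nd q τ (⊤ : Submodule F (Fin n → F)) := Nd.top hF
  obtain ⟨e, -, f, -, her, hfr, hee, hff, hef⟩ := hT.exists_pair hF hτ h2 (by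
    rw [finrank_top, Module.finrank_fin_fun]
    omega)
  have hfe : hermForm n F q f e = 1 := by rw [hτ.herm_symm hF hfr her, hef]
  have he0 : e ≠ 0 := by
    rintro rfl
    rw [herm_zero_left] at hef
    exact zero_ne_one hef
  have hf0 : f ≠ 0 := by
    rintro rfl
    rw [herm_zero_left] at hfe
    exact zero_ne_one hfe
  set c := Phi τ g f e with hc
  have hΦe : ∀ x, Phi τ g x e = hermForm n F q x e * c := Phi_iso hτ h2 hF hn hiso her he0 hee hfe
  have hΦf : ∀ x, Phi τ g x f = hermForm n F q x f * c := by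
    intro x
    rw [Phi_iso hτ h2 hF hn hiso hfr hf0 hff hef x, Phi_symm hτ hF g f e]
  refine ⟨c, fun y hy => ?_⟩
  have key : ∀ x, Phi τ g x y = hermForm n F q x y * c := by
    intro x
    set a := hermForm n F q y f with ha
    set b := hermForm n F q y e with hb
    have haq : a ^ q = a := hτ.herm_real hy hfr
    have hbq : b ^ q = b := hτ.herm_real hy her
    set y' := y - a • e - b • f with hy'
    have hy'r : τ y' = y' := by
      rw [hy', hτ.sub hF, hτ.sub hF, hy, hτ.smul_real haq her, hτ.smul_real hbq hfr]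
    have hy'e : hermForm n F q y' e = 0 := by
      rw [hy', herm_sub_left, herm_sub_left, herm_smul_left, herm_smul_left, hee, hfe, ← hb]
      ring
    have hy'f : hermForm n F q y' f = 0 := by
      rw [hy', herm_sub_left, herm_sub_left, herm_smul_left, herm_smul_left, hef, hff, ← ha]
      ring
    set N := hermForm n F q y' y' with hN
    have hNq : N ^ q = N := hτ.herm_real hy'r hy'r
    have hcq : (N / 2) ^ q = N / 2 := by rw [div_pow, hNq, two_pow_q hF]
    have hfy' := herm_eq_zero_swap hF hy'f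
    have hey' := herm_eq_zero_swap hF hy'e
    set u := e - (N / 2) • f + y' with hu
    have hur : τ u = u := by
      rw [hu, hτ.add, hτ.sub hF, her, hτ.smul_real hcq hfr, hy'r]
    have hfu : hermForm n F q f u = 1 := by
      rw [hu, herm_add_right hF, herm_sub_right hF, herm_smul_right, hcq, hfe, hff, hfy']
      ring
    have hu0 : u ≠ 0 := by
      intro h
      rw [h, herm_zero_right hF] at hfu
      exact zero_ne_one hfu
    have huu : hermForm n F q u u = 0 := by
      simp only [hu, herm_add_left, herm_add_right hF, herm_sub_left, herm_sub_right hF,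
        herm_smul_left, herm_smul_right, hee, hff, hef, hfe, hy'e, hy'f, hey', hfy', hcq, ← hN]
      field_simp
      ring
    have h1 := Phi_iso hτ h2 hF hn hiso hur hu0 huu hfu x
    have h3 : Phi τ g f u = c := by
      rw [hu, Phi_add_right hτ hF, Phi_sub_right hτ hF, Phi_smul_right hτ hF, ← hc, hΦf f, hff,
        ← Phi_symm hτ hF g f y', hΦf y', hy'f]
      ring
    rw [h3, hu, Phi_add_right hτ hF, Phi_sub_right hτ hF, Phi_smul_right hτ hF, hΦe x, hΦf x,
      herm_add_right hF, herm_sub_right hF, herm_smul_right, hcq] at h1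
    have h4 : Phi τ g x y' = hermForm n F q x y' * c := by linear_combination h1
    have h5 : y = y' + a • e + b • f := by rw [hy']; abel
    rw [h5, Phi_add_right hτ hF, Phi_add_right hτ hF, Phi_smul_right hτ hF, Phi_smul_right hτ hF,
      h4, hΦe x, hΦf x, herm_add_right hF, herm_add_right hF, herm_smul_right, herm_smul_right,
      haq, hbq]
    ring
  apply eq_of_forall_herm hF
  intro z
  have h1 := key (act g⁻¹ z)
  unfold Phi at h1
  rw [act_act_inv] at h1
  rw [h1, herm_smul_right, pow_q_pow_q hF, ← herm_act g, act_act_inv, mul_comm]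

/-- **Lemma B.** -/
theorem exists_comm_of_iso (hF : Fintype.card F = q ^ 2) (hn : 5 ≤ n) {g : SU n F q}
    (hiso : ∀ u, τ u = u → hermForm n F q u u = 0 → Phi τ g u u = 0) :
    ∃ l : F, l ≠ 0 ∧ ∀ y, τ (l • act g y) = l • act g (τ y) := by
  obtain ⟨c, hc⟩ := exists_scalar hτ h2 hF hn hiso
  have hT : Nd q τ (⊤ : Submodule F (Fin n → F)) := Nd.top hF
  obtain ⟨e, -, her, hee⟩ := hT.exists_aniso hF hτ h2 (Nd.ne_bot_of_finrank (by
    rw [finrank_top, Module.finrank_fin_fun]
    omega))
  have he0 : act g e ≠ 0 := by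
    intro h
    rw [act_eq_zero] at h
    rw [h, herm_zero_left] at hee
    exact hee rfl
  have hcc : c * c ^ q = 1 := by
    have h1 := congrArg τ (hc e her)
    rw [hτ.invol, hτ.smul, pow_q_pow_q hF, hc e her, smul_smul] at h1
    have h3 : (c * c ^ q - 1) • act g e = 0 := by
      rw [sub_smul, one_smul, ← h1, sub_self]
    rcases smul_eq_zero.1 h3 with h4 | h4
    · exact sub_eq_zero.1 h4
    · exact absurd h4 he0
  obtain ⟨l, hl0, hl⟩ := exists_hilbert hF hcc
  refine ⟨l, hl0, fun y => ?_⟩
  have hreal : ∀ y, τ y = y → τ (l • act g y) = l • act g y := by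
    intro y hy
    rw [hτ.smul, hc y hy, smul_smul, mul_comm, hl]
  obtain ⟨κ, hκ0, hκ⟩ := exists_kappa hF
  have h3 := hreal _ (hτ.real_part hF h2 y)
  have h4 := hreal _ (hτ.smul_imag hκ (hτ.imag_part hF h2 y))
  set y₁ := (2 : F)⁻¹ • (y + τ y) with hy₁
  set y₂ := (2 : F)⁻¹ • (y - τ y) with hy₂
  have hy₁r : τ y₁ = y₁ := hτ.real_part hF h2 y
  have hy₂i : τ y₂ = -y₂ := hτ.imag_part hF h2 y
  have hy : y = y₁ + y₂ := IsReal.part_add h2 y
  have h5 : τ (l • act g y₂) = -(l • act g y₂) := by
    have h6 : l • act g (κ • y₂) = κ • (l • act g y₂) := by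
      rw [act_smul, smul_comm]
    rw [h6, hτ.smul, hκ] at h4
    have h7 : κ • (τ (l • act g y₂) + l • act g y₂) = 0 := by
      rw [smul_add, ← h4]
      rw [neg_smul]
      abel
    rcases smul_eq_zero.1 h7 with h8 | h8
    · exact absurd h8 hκ0
    · exact eq_neg_of_add_eq_zero_left h8
  rw [hy, act_add, smul_add, hτ.add, h3, h5, hτ.add, hy₁r, hy₂i, act_add, smul_add, act_neg,
    smul_neg]

end lemmaB

section conjR

/-- the conjugate of a real structure -/
def conjR (g : SU n F q) (τ : (Fin n → F) → (Fin n → F)) : (Fin n → F) → (Fin n → F) :=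
  fun x => act g (τ (act g⁻¹ x))

variable {τ : (Fin n → F) → (Fin n → F)} (hτ : IsReal q τ)
include hτ

theorem IsReal.conjR (g : SU n F q) : IsReal q (conjR g τ) where
  add x y := by
    unfold H927.conjR
    rw [act_add, hτ.add, act_add]
  smul c x := by
    unfold H927.conjR
    rw [act_smul, hτ.smul, act_smul]
  invol x := by
    unfold H927.conjR
    rw [act_inv_act, hτ.invol, act_act_inv]
  herm x y := by
    unfold H927.conjR
    rw [herm_act, hτ.herm, herm_act]

omit hτ in
theorem conjR_act (g : SU n F q) (x : Fin n → F) :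
    H927.conjR g τ (act g x) = act g (τ x) := by
  unfold H927.conjR
  rw [act_inv_act]

omit hτ in
theorem Hyp.conjR {X : Subgroup (SU n F q)} (hX : Hyp X τ) {g : SU n F q} (hg : g ∈ X) :
    Hyp X (H927.conjR g τ) := by
  intro k hk
  have h1 : g⁻¹ * k * g ∈ X := by
    apply hX
    intro x
    have h3 := hk (act g x)
    rw [conjR_act] at h3
    unfold H927.conjR at h3
    rw [act_mul, act_mul, act_mul, act_mul, h3, act_inv_act]
  have h4 : k = g * (g⁻¹ * k * g) * g⁻¹ := by group
  rw [h4]
  exact X.mul_mem (X.mul_mem hg h1) (X.inv_mem hg)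

end conjR

section lemmaC

variable {τ : (Fin n → F) → (Fin n → F)} (hτ : IsReal q τ) (h2 : (2 : F) ≠ 0)
  {X : Subgroup (SU n F q)} (hX : Hyp X τ)
include hτ hX h2

/-- If `τ'` is a second real structure with the same property and `w` is `τ'`-real isotropic,
elements commuting with `τ` and fixing `w` commute with `τ'` on `w^⊥`. -/
theorem comm_perp (hF : Fintype.card F = q ^ 2) (hn : 5 ≤ n) (hXtop : X ≠ ⊤)
    {τ' : (Fin n → F) → (Fin n → F)} (hτ' : IsReal q τ') (hX' : Hyp X τ') {w : Fin n → F}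
    (hw : τ' w = w) (hw0 : w ≠ 0) (hww : hermForm n F q w w = 0) {k : SU n F q}
    (hk : ∀ x, act k (τ x) = τ (act k x)) (hkw : act k w = w) {x : Fin n → F}
    (hxw : hermForm n F q x w = 0) : act k (τ' x) = τ' (act k x) := by
  have hkX : k ∈ X := hX k hk
  have key : ∀ x, τ' x = x → hermForm n F q x w = 0 → τ' (act k x) = act k x := by
    intro x hx hxw
    have hs := isSiegel_real hτ' hF h2 hx hww hxw
    have hm := siegel_real_mem hτ' hX' hF h2 hw hx hww hxw
    have h1 : siegel hF (act k w) (act k x) _ (hs.map k) ∈ X := by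
      rw [← conj_siegel hF hs]
      exact X.mul_mem (X.mul_mem hkX hm) (X.inv_mem hkX)
    have hs' : IsSiegel q w (act k x) (-(hermForm n F q x x / 2)) := by
      have := hs.map k
      rwa [hkw] at this
    have h3 : siegel hF w (act k x) _ hs' ∈ X := by
      have : siegel hF w (act k x) _ hs' = siegel hF (act k w) (act k x) _ (hs.map k) :=
        siegel_congr hF _ _ hkw.symm rfl rfl
      rw [this]
      exact h1
    have h4 := comm_of_siegel_mem hF hτ' h2 hX' hn hXtop hw hw0 hs' h3
    obtain ⟨w', -, hw'r, hw'w', hww1⟩ := (Nd.top (q := q) (τ := τ') hF).exists_partner hF hτ' h2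
      Submodule.mem_top hw hw0 hww
    have hw'w : hermForm n F q w' w = 1 := by rw [hτ'.herm_symm hF hw'r hw, hww1]
    have h5 := h4 w'
    rw [tau_siegel hτ' hw hs' hF, act_siegel, act_siegel, hw'r, hw'w, one_smul, one_smul] at h5
    have hμq : (-(hermForm n F q x x / 2)) ^ q = -(hermForm n F q x x / 2) := by
      rw [neg_pow_q hF, div_pow, two_pow_q hF, herm_self_pow hF]
    rw [hμq] at h5
    -- `τ'(k x) = k x + m w`
    obtain ⟨m, hm'⟩ : ∃ m, m = hermForm n F q w' (τ' (act k x)) - hermForm n F q w' (act k x) :=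
      ⟨_, rfl⟩
    have h6 : τ' (act k x) = act k x + m • w := by
      funext i
      have := congrFun h5 i
      simp only [Pi.add_apply, Pi.smul_apply, smul_eq_mul] at this ⊢
      rw [hm']
      linear_combination (-1 : F) * this
    have h9 : m ^ q = -m := by
      have e1 := hτ'.herm w' (τ' (act k x))
      have e2 := hτ'.herm w' (act k x)
      rw [hw'r] at e1 e2
      rw [hτ'.invol] at e1
      rw [hm', sub_pow_q hF, ← e1, ← e2]
      ring
    have h10 : m = m ^ q := by
      have e1 := hm'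
      rw [h6, herm_add_right hF, herm_smul_right, hw'w] at e1
      linear_combination e1
    have h11 : m = 0 := by
      have : 2 * m = 0 := by linear_combination h10 + h9
      exact (mul_eq_zero.1 this).resolve_left h2
    rw [h6, h11, zero_smul, add_zero]
  obtain ⟨κ, hκ0, hκ⟩ := exists_kappa hF
  have hτxw : hermForm n F q (τ' x) w = 0 := by
    have h := hτ'.herm x w
    rwa [hw, hxw, zero_pow_q hF] at h
  set x₁ := (2 : F)⁻¹ • (x + τ' x) with hx₁
  set x₂ := (2 : F)⁻¹ • (x - τ' x) with hx₂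
  have hx₁r : τ' x₁ = x₁ := hτ'.real_part hF h2 x
  have hx₂i : τ' x₂ = -x₂ := hτ'.imag_part hF h2 x
  have hx : x = x₁ + x₂ := IsReal.part_add h2 x
  have h3 := key x₁ hx₁r (by
    rw [hx₁, herm_smul_left, herm_add_left, hxw, hτxw]
    ring)
  have h4 := key (κ • x₂) (hτ'.smul_imag hκ hx₂i) (by
    rw [hx₂, herm_smul_left, herm_smul_left, herm_sub_left, hxw, hτxw]
    ring)
  have h5 : τ' (act k x₂) = -(act k x₂) := by
    rw [act_smul, hτ'.smul, hκ] at h4
    have h7 : κ • (τ' (act k x₂) + act k x₂) = 0 := by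
      rw [smul_add, ← h4, neg_smul]
      abel
    rcases smul_eq_zero.1 h7 with h8 | h8
    · exact absurd h8 hκ0
    · exact eq_neg_of_add_eq_zero_left h8
  rw [hx, hτ'.add, act_add, act_add, hτ'.add, hx₁r, hx₂i, h3, h5, act_neg]

/-- **Lemma C.** -/
theorem Phi_eq_zero_of_mem (hF : Fintype.card F = q ^ 2) (hn : 5 ≤ n) (hXtop : X ≠ ⊤)
    {g : SU n F q} (hg : g ∈ X) {u : Fin n → F} (hu : τ u = u) (huu : hermForm n F q u u = 0) :
    Phi τ g u u = 0 := by
  by_contra hne
  unfold Phi at hne
  have hu0 : u ≠ 0 := by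
    rintro rfl
    rw [act_zero, herm_zero_left] at hne
    exact hne rfl
  have hτ' : IsReal q (H927.conjR g τ) := hτ.conjR g
  have hX' : Hyp X (H927.conjR g τ) := hX.conjR hg
  set τ' := H927.conjR g τ with hτ'def
  set w := act g u with hw
  have hw0 : w ≠ 0 := by
    rw [hw, Ne, act_eq_zero]
    exact hu0
  have hwr : τ' w = w := by rw [hτ'def, hw, conjR_act, hu]
  have hww : hermForm n F q w w = 0 := by rw [hw, herm_act, huu]
  have hτww : hermForm n F q (τ w) (τ w) = 0 := by rw [hτ.herm, hww, zero_pow_q hF]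
  -- the orthogonal of `w, τ w`
  have hT : Nd q τ (⊤ : Submodule F (Fin n → F)) := Nd.top hF
  have hW := hT.cutPair hF (w := w) (w' := τ w) Submodule.mem_top Submodule.mem_top hww hτww hne
    (fun x h1 h1' => by
      constructor
      · have h := hτ.herm x (τ w)
        rwa [hτ.invol, h1', zero_pow_q hF] at h
      · have h := hτ.herm x w
        rwa [h1, zero_pow_q hF] at h)
  have hd1 := finrank_inf_perp hF (⊤ : Submodule F (Fin n → F)) w
  have hd2 := finrank_inf_perp hF ((⊤ : Submodule F (Fin n → F)) ⊓ perp hF w) (τ w)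
  rw [finrank_top, Module.finrank_fin_fun] at hd1
  obtain ⟨e, heW, f, hfW, her, hfr, hee, hff, hef⟩ := hW.exists_pair hF hτ h2 (by omega)
  have hW2 := hW.cutPair hF (w := e) (w' := f) heW hfW hee hff
    (by rw [hef]; exact one_ne_zero) (fun x => pair_stable hF hτ h2 her hfr x)
  have hd3 := finrank_inf_perp hF ((⊤ : Submodule F (Fin n → F)) ⊓ perp hF w ⊓ perp hF (τ w)) e
  have hd4 := finrank_inf_perp hF
    ((⊤ : Submodule F (Fin n → F)) ⊓ perp hF w ⊓ perp hF (τ w) ⊓ perp hF e) f
  obtain ⟨⟨-, hew⟩, heτw⟩ := heW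
  obtain ⟨⟨-, hfw⟩, hfτw⟩ := hfW
  rw [SetLike.mem_coe, mem_perp] at hew heτw hfw hfτw
  have hfe : hermForm n F q f e = 1 := by rw [hτ.herm_symm hF hfr her, hef]
  have he0 : e ≠ 0 := by
    rintro rfl
    rw [herm_zero_left] at hef
    exact zero_ne_one hef
  have hτ'ew : hermForm n F q (τ' e) w = 0 := by
    have h := hτ'.herm e w
    rwa [hwr, hew, zero_pow_q hF] at h
  -- the elements `k_t`
  have hk : ∀ t : Fin n → F, τ t = t → hermForm n F q t w = 0 → hermForm n F q t e = 0 →
      ∃ hs : IsSiegel q e t (-(hermForm n F q t t / 2)), ∀ x, hermForm n F q x w = 0 →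
      act (siegel hF e t _ hs) (τ' x) = τ' (act (siegel hF e t _ hs) x) := by
    intro t ht htw hte
    have hs := isSiegel_real hτ hF h2 ht hee hte
    refine ⟨hs, fun x hx => ?_⟩
    refine comm_perp hτ h2 hX hF hn hXtop hτ' hX' hwr hw0 hww
      (siegel_real_comm hτ hF h2 her ht hee hte) ?_ hx
    exact act_siegel_of_orth hF _ (herm_eq_zero_swap hF hew) (herm_eq_zero_swap hF htw)
  -- `τ' e` is orthogonal to `e` and to the real vectors of `W2`
  have h1 : ∀ t : Fin n → F, τ t = t → hermForm n F q t w = 0 → hermForm n F q t e = 0 →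
      hermForm n F q (τ' e) e • t + (-(hermForm n F q t t / 2) * hermForm n F q (τ' e) e -
        hermForm n F q (τ' e) t) • e = 0 := by
    intro t ht htw hte
    obtain ⟨hs, hcomm⟩ := hk t ht htw hte
    have h3 := hcomm e hew
    rw [act_siegel_of_orth hF hs hee (herm_eq_zero_swap hF hte), act_siegel] at h3
    rw [add_assoc] at h3
    exact add_eq_left.1 h3
  obtain ⟨t, htW, htr, htt⟩ := hW2.exists_aniso hF hτ h2 (Nd.ne_bot_of_finrank (by omega))
  have hτ'ee : hermForm n F q (τ' e) e = 0 := by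
    obtain ⟨⟨⟨⟨-, htw⟩, htτw⟩, hte⟩, htf⟩ := htW
    rw [SetLike.mem_coe, mem_perp] at htw htτw hte htf
    have h3 := congrArg (fun v => hermForm n F q v t) (h1 t htr htw hte)
    simp only [herm_add_left, herm_smul_left, herm_zero_left, herm_eq_zero_swap hF hte, mul_zero,
      add_zero] at h3
    exact (mul_eq_zero.1 h3).resolve_right htt
  have hτ'et : ∀ t : Fin n → F, τ t = t → hermForm n F q t w = 0 → hermForm n F q t e = 0 →
      hermForm n F q (τ' e) t = 0 := by
    intro t ht htw hte
    have h3 := h1 t ht htw hte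
    rw [hτ'ee, zero_smul, mul_zero, zero_sub, zero_add] at h3
    have h4 := (smul_eq_zero.1 h3).resolve_right he0
    exact neg_eq_zero.1 h4
  -- `τ' e` is orthogonal to `τ w`
  have hτ'eτw : hermForm n F q (τ' e) (τ w) = 0 := by
    obtain ⟨⟨⟨⟨-, htw⟩, htτw⟩, hte⟩, htf⟩ := htW
    rw [SetLike.mem_coe, mem_perp] at htw htτw hte htf
    obtain ⟨hs, hcomm⟩ := hk t htr htw hte
    have h3 := hcomm t htw
    rw [act_siegel, act_siegel, hte, zero_smul, mul_zero, zero_sub, add_zero, hτ'.add,
      hτ'.smul] at h3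
    have h4 := congrArg (fun v => hermForm n F q v (τ w)) h3
    simp only [herm_add_left, herm_smul_left, htτw, heτw, mul_zero, add_zero] at h4
    have hNq : hermForm n F q t t ^ q = hermForm n F q t t := hτ.herm_real htr htr
    rw [neg_pow_q hF, hNq] at h4
    have h5 : hermForm n F q t t * hermForm n F q (τ' e) (τ w) = 0 := by
      linear_combination h4
    exact (mul_eq_zero.1 h5).resolve_left htt
  -- hence `τ' e = α e`
  obtain ⟨α, hα⟩ : ∃ α, α = hermForm n F q (τ' e) f := ⟨_, rfl⟩
  have hτ'e : τ' e = α • e := by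
    by_contra hne'
    have h3 : τ' e - α • e ≠ 0 := sub_ne_zero.2 hne'
    obtain ⟨y, ⟨⟨⟨⟨-, hyw⟩, hyτw⟩, hye⟩, hyf⟩, hyr, hy⟩ := hW2.exists_real hF hτ h2
      (x := τ' e - α • e) (by
        refine ⟨⟨⟨⟨Submodule.mem_top, ?_⟩, ?_⟩, ?_⟩, ?_⟩
        · change hermForm n F q _ w = 0
          rw [herm_sub_left, herm_smul_left, hτ'ew, hew, mul_zero, sub_zero]
        · change hermForm n F q _ (τ w) = 0
          rw [herm_sub_left, herm_smul_left, hτ'eτw, heτw, mul_zero, sub_zero]
        · change hermForm n F q _ e = 0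
          rw [herm_sub_left, herm_smul_left, hτ'ee, hee, mul_zero, sub_zero]
        · change hermForm n F q _ f = 0
          rw [herm_sub_left, herm_smul_left, ← hα, hef, mul_one, sub_self]) h3
    rw [SetLike.mem_coe, mem_perp] at hyw hyτw hye hyf
    apply hy
    rw [herm_sub_left, herm_smul_left, hτ'et y hyr hyw hye, herm_eq_zero_swap hF hye, mul_zero,
      sub_zero]
  have hαα : α ^ q * (α ^ q) ^ q = 1 := by
    have h3 := congrArg τ' hτ'e
    rw [hτ'.invol, hτ'.smul, hτ'e, smul_smul] at h3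
    have h4 : (α ^ q * α - 1) • e = 0 := by
      rw [sub_smul, one_smul, ← h3, sub_self]
    rw [pow_q_pow_q hF]
    rcases smul_eq_zero.1 h4 with h5 | h5
    · exact sub_eq_zero.1 h5
    · exact absurd h5 he0
  obtain ⟨ν, hν0, hν⟩ := exists_hilbert hF hαα
  rw [pow_q_pow_q hF] at hν
  have hνe : τ' (ν • e) = ν • e := by
    rw [hτ'.smul, hτ'e, smul_smul, mul_comm, hν]
  have hνee : hermForm n F q (ν • e) (ν • e) = 0 := by
    rw [herm_smul_left, herm_smul_right, hee, mul_zero, mul_zero]
  have hwνe : hermForm n F q w (ν • e) = 0 := by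
    rw [herm_smul_right, herm_eq_zero_swap hF hew, mul_zero]
  have hm := siegel_real_mem hτ' hX' hF h2 hνe hwr hνee hwνe
  have hs : IsSiegel q e (ν ^ q • w) 0 := by
    refine ⟨hee, by rw [herm_smul_left, herm_eq_zero_swap hF hew, mul_zero], ?_⟩
    rw [herm_smul_left, herm_smul_right, hww, zero_pow_q hF]
    ring
  have hm' : siegel hF e (ν ^ q • w) 0 hs ∈ X := by
    have h3 : siegel hF e (ν ^ q • w) 0 hs =
        siegel hF (ν • e) w _ (isSiegel_real hτ' hF h2 hwr hνee hwνe) := by
      apply ext_act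
      intro v
      rw [act_siegel, act_siegel, herm_smul_right, herm_smul_right, hww, pow_q_pow_q hF]
      funext i
      simp only [Pi.add_apply, Pi.smul_apply, smul_eq_mul]
      ring
    rw [h3]
    exact hm
  have h5 := comm_of_siegel_mem hF hτ h2 hX hn hXtop her he0 hs hm' f
  rw [act_siegel, act_siegel, hfr, hfe, hτ.add, hτ.add, hτ.smul, hτ.smul, hτ.smul, hfr, her,
    herm_smul_right, hfw] at h5
  have h6 : ν ^ q • w = ν • τ w := by
    simp only [mul_zero, sub_zero, zero_mul, zero_smul, add_zero, one_smul, one_pow,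
      pow_q_pow_q hF, zero_pow_q hF] at h5
    exact add_left_cancel h5
  apply hne
  have h7 := congrArg (fun v => hermForm n F q w v) h6
  simp only [herm_smul_right, hww, mul_zero] at h7
  exact (mul_eq_zero.1 h7.symm).resolve_left (pow_ne_zero _ hν0)

/-- A proper subgroup containing all elements commuting with `τ` consists of scalar multiples of
such elements. -/
theorem exists_comm_of_mem (hF : Fintype.card F = q ^ 2) (hn : 5 ≤ n) (hXtop : X ≠ ⊤)
    {g : SU n F q} (hg : g ∈ X) : ∃ l : F, l ≠ 0 ∧ ∀ y, τ (l • act g y) = l • act g (τ y) :=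
  exists_comm_of_iso hτ h2 hF hn
    (fun u hu huu => Phi_eq_zero_of_mem hτ h2 hX hF hn hXtop hg hu huu)

end lemmaC

end Cfsg.Agent.H927
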