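import Mathlib
import Cfsg.Prelude.Def_GeometricClasses
import Cfsg.Agent.H927.OrthB
import Cfsg.Agent.H918.UProperTwo
import Cfsg.Agent.H914.Sub

/-!
# `O_n(q)` is maximal in `SU_n(q)`, `q` odd, `n ≥ 5`

`orthogonal_maximal`: `|F| = q²`, `q` odd, `n ≥ 5`, `P` a basis on whose `F₀`-span the standard
Hermitian form takes values in `F₀`; then `subfieldSubgroup F₀ P ⊓ SU_n(q)` is maximal in `SU_n(q)`.
-/

set_option autoImplicit false
set_option linter.unusedSectionVars false
set_option linter.unusedVariables false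

namespace Cfsg.Agent.H927

open Cfsg Cfsg.Agent.LieClassical.HermBasic Cfsg.Agent.LieClassical.HermSiegel
open Matrix

variable {F : Type*} [Field F] [Fintype F] {n q : ℕ}

/-- entrywise Frobenius -/
def frob (q : ℕ) (a : Fin n → F) : Fin n → F := fun i => a i ^ q

omit [Fintype F] in
theorem frob_apply (a : Fin n → F) (i : Fin n) : frob q a i = a i ^ q := rfl

theorem frob_add (hF : Fintype.card F = q ^ 2) (a b : Fin n → F) :
    frob q (a + b) = frob q a + frob q b := by
  funext i
  simp only [frob_apply, Pi.add_apply, add_pow_q hF]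

omit [Fintype F] in
theorem frob_smul (c : F) (a : Fin n → F) : frob q (c • a) = c ^ q • frob q a := by
  funext i
  simp only [frob_apply, Pi.smul_apply, smul_eq_mul, mul_pow]

theorem frob_frob (hF : Fintype.card F = q ^ 2) (a : Fin n → F) : frob q (frob q a) = a := by
  funext i
  simp only [frob_apply, pow_q_pow_q hF]

theorem frob_single (hF : Fintype.card F = q ^ 2) (j : Fin n) :
    frob q (Pi.single j (1 : F)) = Pi.single j 1 := by
  funext i
  by_cases h : i = j
  · subst h
    simp [frob_apply]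
  · simp [frob_apply, Pi.single_eq_of_ne h, zero_pow_q hF]

omit [Fintype F] in
theorem mulVec_eq_sum_single (M : Matrix (Fin n) (Fin n) F) (a : Fin n → F) :
    M *ᵥ a = ∑ i, a i • (M *ᵥ Pi.single i (1 : F)) := by
  conv_lhs => rw [pi_eq_sum_univ a]
  rw [Matrix.mulVec_sum]
  apply Finset.sum_congr rfl
  intro i _
  rw [Matrix.mulVec_smul]
  congr 2
  funext j
  simp [Pi.single_apply, eq_comm]

theorem herm_mulVec_mulVec (hF : Fintype.card F = q ^ 2) (M : Matrix (Fin n) (Fin n) F)
    (a b : Fin n → F) : hermForm n F q (M *ᵥ a) (M *ᵥ b) = ∑ i, ∑ j, a i * (b j ^ q *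
      hermForm n F q (M *ᵥ Pi.single i (1 : F)) (M *ᵥ Pi.single j (1 : F))) := by
  conv_lhs => rw [mulVec_eq_sum_single M a, herm_sum_left]
  apply Finset.sum_congr rfl
  intro i _
  rw [herm_smul_left, mulVec_eq_sum_single M b, herm_sum_right hF, Finset.mul_sum]
  apply Finset.sum_congr rfl
  intro j _
  rw [herm_smul_right]

/-- The real structure of the basis `P`. -/
def tauP (q : ℕ) (P : Matrix.GeneralLinearGroup (Fin n) F) (x : Fin n → F) : Fin n → F :=
  (P : Matrix (Fin n) (Fin n) F) *ᵥ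
    frob q (((P⁻¹ : Matrix.GeneralLinearGroup (Fin n) F) : Matrix (Fin n) (Fin n) F) *ᵥ x)

omit [Fintype F] in
theorem inv_mulVec_mulVec (P : Matrix.GeneralLinearGroup (Fin n) F) (x : Fin n → F) :
    ((P⁻¹ : Matrix.GeneralLinearGroup (Fin n) F) : Matrix (Fin n) (Fin n) F) *ᵥ
      ((P : Matrix (Fin n) (Fin n) F) *ᵥ x) = x := by
  rw [Matrix.mulVec_mulVec, ← Units.val_mul, inv_mul_cancel, Units.val_one, Matrix.one_mulVec]

omit [Fintype F] in
theorem mulVec_inv_mulVec (P : Matrix.GeneralLinearGroup (Fin n) F) (x : Fin n → F) :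
    (P : Matrix (Fin n) (Fin n) F) *ᵥ
      (((P⁻¹ : Matrix.GeneralLinearGroup (Fin n) F) : Matrix (Fin n) (Fin n) F) *ᵥ x) = x := by
  rw [Matrix.mulVec_mulVec, ← Units.val_mul, mul_inv_cancel, Units.val_one, Matrix.one_mulVec]

theorem card_subfield (hF : Fintype.card F = q ^ 2) {F₀ : Subfield F}
    (hcard : Fintype.card F = Nat.card F₀ ^ 2) : Nat.card F₀ = q := by
  have h1 : Nat.card F₀ ^ 2 = q ^ 2 := by rw [← hcard, hF]
  exact Nat.pow_left_injective (n := 2) (by norm_num) h1

theorem mem_iff_pow (hF : Fintype.card F = q ^ 2) {F₀ : Subfield F}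
    (hcard : Fintype.card F = Nat.card F₀ ^ 2) (x : F) : x ∈ F₀ ↔ x ^ q = x := by
  rw [H914.mem_subfield_iff_pow, card_subfield hF hcard]

theorem isReal_tauP (hF : Fintype.card F = q ^ 2) {F₀ : Subfield F}
    (hcard : Fintype.card F = Nat.card F₀ ^ 2) {P : Matrix.GeneralLinearGroup (Fin n) F}
    (hP : Cfsg.Geo.IsFormRationalStructure (Cfsg.hermForm n F q) F₀ 1 P) :
    IsReal q (tauP q P) where
  add x y := by
    unfold tauP
    rw [Matrix.mulVec_add, frob_add hF, Matrix.mulVec_add]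
  smul c x := by
    unfold tauP
    rw [Matrix.mulVec_smul, frob_smul, Matrix.mulVec_smul]
  invol x := by
    unfold tauP
    rw [inv_mulVec_mulVec, frob_frob hF, mulVec_inv_mulVec]
  herm x y := by
    obtain ⟨a, rfl⟩ : ∃ a, x = (P : Matrix (Fin n) (Fin n) F) *ᵥ a := ⟨_, (mulVec_inv_mulVec P x).symm⟩
    obtain ⟨b, rfl⟩ : ∃ b, y = (P : Matrix (Fin n) (Fin n) F) *ᵥ b := ⟨_, (mulVec_inv_mulVec P y).symm⟩
    unfold tauP
    rw [inv_mulVec_mulVec, inv_mulVec_mulVec, herm_mulVec_mulVec hF, herm_mulVec_mulVec hF,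
      sum_pow_q hF]
    apply Finset.sum_congr rfl
    intro i _
    rw [sum_pow_q hF]
    apply Finset.sum_congr rfl
    intro j _
    have h1 := hP (Pi.single i 1) (Pi.single j 1) (fun k => by
      by_cases h : k = i
      · subst h
        simp [F₀.one_mem]
      · simp [Pi.single_eq_of_ne h, F₀.zero_mem]) (fun k => by
      by_cases h : k = j
      · subst h
        simp [F₀.one_mem]
      · simp [Pi.single_eq_of_ne h, F₀.zero_mem])
    rw [one_mul, mem_iff_pow hF hcard] at h1
    rw [mul_pow, mul_pow, h1, frob_apply, frob_apply]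

/-- elements of `SU` which are scalar multiples of maps commuting with `τ` lie in the subfield
group -/
theorem mem_subfieldSubgroup_of_comm (hF : Fintype.card F = q ^ 2) {F₀ : Subfield F}
    (hcard : Fintype.card F = Nat.card F₀ ^ 2) {P : Matrix.GeneralLinearGroup (Fin n) F}
    {g : SU n F q} {l : F} (hl : l ≠ 0)
    (h : ∀ y, tauP q P (l • act g y) = l • act g (tauP q P y)) :
    H918.suHom n F q g ∈ Cfsg.Geo.subfieldSubgroup F₀ P := by
  rw [H914.mem_subfieldSubgroup_iff]
  refine ⟨l, hl, fun i j => ?_⟩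
  rw [mem_iff_pow hF hcard]
  have h1 := h ((P : Matrix (Fin n) (Fin n) F) *ᵥ Pi.single j 1)
  unfold tauP at h1
  rw [inv_mulVec_mulVec, frob_single hF] at h1
  have h2 := congrArg (fun v =>
    ((P⁻¹ : Matrix.GeneralLinearGroup (Fin n) F) : Matrix (Fin n) (Fin n) F) *ᵥ v) h1
  simp only [inv_mulVec_mulVec] at h2
  have h3 : ((P⁻¹ * H918.suHom n F q g * P : Matrix.GeneralLinearGroup (Fin n) F) :
      Matrix (Fin n) (Fin n) F) *ᵥ Pi.single j 1 =
      ((P⁻¹ : Matrix.GeneralLinearGroup (Fin n) F) : Matrix (Fin n) (Fin n) F) *ᵥ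
        act g ((P : Matrix (Fin n) (Fin n) F) *ᵥ Pi.single j 1) := by
    rw [Units.val_mul, Units.val_mul, ← Matrix.mulVec_mulVec, ← Matrix.mulVec_mulVec]
    rfl
  simp only [Matrix.mulVec_smul] at h2
  rw [← h3] at h2
  have h4 := congrFun h2 i
  rw [frob_apply, Pi.smul_apply, smul_eq_mul, Matrix.mulVec_single_one, Matrix.col_apply] at h4
  exact h4

/-- **`O_n(q)` in `SU_n(q)`** -/
theorem orthogonal_maximal (hF : Fintype.card F = q ^ 2) (hn : 5 ≤ n) (hodd : Odd q)
    (F₀ : Subfield F) (hcard : Fintype.card F = Nat.card F₀ ^ 2)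
    (P : Matrix.GeneralLinearGroup (Fin n) F)
    (hP : Cfsg.Geo.IsFormRationalStructure (Cfsg.hermForm n F q) F₀ 1 P) :
    Cfsg.Geo.IsMaximalIn (Cfsg.GU n F q ⊓ Cfsg.Geo.specialLinear (Fin n) F)
      (Cfsg.Geo.subfieldSubgroup F₀ P ⊓ (Cfsg.GU n F q ⊓ Cfsg.Geo.specialLinear (Fin n) F)) := by
  have hτ : IsReal q (tauP q P) := isReal_tauP hF hcard hP
  have h2 : (2 : F) ≠ 0 := two_ne_zero_of_odd hF hodd
  have hF₀ : F₀ ≠ ⊤ := by
    rintro rfl
    have h1 := card_subfield hF hcard
    have h3 : Nat.card (⊤ : Subfield F) = Nat.card F := Nat.card_congr Subfield.topEquiv.toEquiv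
    rw [h3, Nat.card_eq_fintype_card, hF] at h1
    have h4 := two_le hF
    nlinarith
  refine ⟨lt_of_le_of_ne inf_le_right (fun h => ?_), fun M hHM hM => ?_⟩
  · refine H918.SUg_not_le_subfieldSubgroup hF (by omega) (by omega) hF₀ P ?_
    exact inf_eq_right.1 h
  · by_cases hX : M.comap (H918.suHom n F q) = ⊤
    · right
      apply le_antisymm hM
      intro g hg
      obtain ⟨A, rfl⟩ := H918.exists_suHom hg
      have : A ∈ M.comap (H918.suHom n F q) := by
        rw [hX]
        trivial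
      exact this
    · left
      apply le_antisymm _ hHM
      intro g hg
      obtain ⟨A, rfl⟩ := H918.exists_suHom (hM hg)
      have hyp : Hyp (M.comap (H918.suHom n F q)) (tauP q P) := by
        intro k hk
        rw [Subgroup.mem_comap]
        apply hHM
        refine ⟨?_, H918.suHom_mem k⟩
        apply mem_subfieldSubgroup_of_comm hF hcard (l := 1) one_ne_zero
        intro y
        rw [one_smul, one_smul, hk]
      obtain ⟨l, hl, hcomm⟩ := exists_comm_of_mem hτ h2 hyp hF hn hX (g := A) hg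
      exact ⟨mem_subfieldSubgroup_of_comm hF hcard hl hcomm, H918.suHom_mem A⟩

end Cfsg.Agent.H927
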