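import Cfsg.Agent.H927.SzPGrp
import Cfsg.Agent.H412.OT.Defs
import Cfsg.Agent.H186.OT.LT

/-!
# The Laurent trick for opposite long root subgroups (S2539, part 1)

`torus_stab` : `Opp A B`, `f ∈ G`, `s` long: a subgroup `S ≤ Kˣ` containing all `c` with `f h_s(c) f⁻¹ A (..)⁻¹`
opposite to `B` is everything.
-/

set_option autoImplicit false

namespace Cfsg.Agent.H927.Sz

open Cfsg.Lie Cfsg.Agent.ChevalleyStructure Cfsg.Agent.ChevalleyStructure.RootCombGood
  Cfsg.Agent.ChevalleyStructure.RootWord Cfsg.Agent.ChevalleyStructure.RootVec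
  Cfsg.Agent.ChevalleyStructure.RootVecTab Cfsg.Agent.ChevalleyStructure.RootSupport
  Cfsg.Agent.ChevalleyStructure.Elts Cfsg.Agent.ChevalleyStructure.BruhatSplit
  Cfsg.Agent.H86.Lev Cfsg.Agent.H86.Graded Cfsg.Agent.H86.Par Cfsg.Agent.H92.ChevCent
  Cfsg.Agent.H186.OT

universe u

variable {D : ChevalleyDatum} {K : Type u} [Field K]

theorem pr_eq_car (D : ChevalleyDatum) (r s : ℕ) : Cfsg.Agent.H412.OT.pr D r s = car D r s := rfl

/-- exponent of `h_s(c)` at a basis vector -/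
def ex (D : ChevalleyDatum) (s : ℕ) (j : D.Idx) : ℤ := Sum.elim (fun _ => 0) (fun u : Fin D.nroots => car D s u.val) j

theorem hG_entry (hD : InList D) {s : ℕ} (hs : s < D.nroots) (c : Kˣ) :
    (hG hD s (c : K) : Matrix D.Idx D.Idx K) = Matrix.diagonal (fun j => ((c ^ ex D s j : Kˣ) : K)) := by
  rw [Cfsg.Agent.H412.OT.coe_hG_diag hD hs (Units.ne_zero c)]
  congr 1
  funext j
  rcases j with i | u
  · simp [ex]
  · simp [ex, pr_eq_car]

theorem laurent_entry (hD : InList D) {s : ℕ} (hs : s < D.nroots) {a : ℤ} {E : ℕ}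
    (h1 : ∀ j, a ≤ ex D s j) (h2 : ∀ j, ex D s j ≤ a + E) (x y : GL D.Idx K) (i k : D.Idx) :
    IsLaurent a E (fun c : Kˣ => ((x * hG hD s (c : K) * y : GL D.Idx K) : Matrix D.Idx D.Idx K) i k) := by
  have e : (fun c : Kˣ => ((x * hG hD s (c : K) * y : GL D.Idx K) : Matrix D.Idx D.Idx K) i k) =
      fun c : Kˣ => ∑ j, (x : Matrix D.Idx D.Idx K) i j * (((c ^ ex D s j : Kˣ) : K) *
        (y : Matrix D.Idx D.Idx K) j k) := by
    funext c
    rw [Units.val_mul, Units.val_mul, hG_entry hD hs c, Matrix.mul_apply]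
    refine Finset.sum_congr rfl fun j _ => ?_
    rw [Matrix.mul_diagonal, mul_assoc]
  rw [e]
  exact IsLaurent.sum _ fun j _ => ((IsLaurent.zpow (h1 j) (h2 j)).mul_const _).const_mul _

theorem IsLong.ex_bound (hD : InList D) {s : ℕ} (h : IsLong D s) (j : D.Idx) : -2 ≤ ex D s j ∧ ex D s j ≤ 2 := by
  rcases j with i | u
  · exact ⟨by simp [ex], by simp [ex]⟩
  · exact h.car_bound hD u.2

/-- **Laurent trick**: conjugates of the tori `h_s(K^*)` stabilise the components -/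
theorem torus_stab (hD : InList D) [Finite K] (hK : 10 ≤ Nat.card K) {A B : Subgroup (GL D.Idx K)} (h : Opp A B)
    {s : ℕ} (hs : IsLong D s) {f : GL D.Idx K} (hf : f ∈ D.group K) (S : Subgroup Kˣ)
    (hS : ∀ c : Kˣ, Opp (cj (f * hG hD s (c : K) * f⁻¹) A) B → c ∈ S) : S = ⊤ := by
  have := Fintype.ofFinite K
  obtain ⟨g, hg, hA, -⟩ := id h
  obtain ⟨g', hg', hB, -⟩ := h.symm hD
  have h1 := laurent_entry hD hs.1 (a := -2) (E := 4) (fun j => (hs.ex_bound hD j).1)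
    (fun j => (hs.ex_bound hD j).2.trans (by norm_num)) (g'⁻¹ * f) (f⁻¹ * g) (iB hD) (iT hD)
  have e : ∀ c : Kˣ, g'⁻¹ * f * hG hD s (c : K) * (f⁻¹ * g) = g'⁻¹ * (f * hG hD s (c : K) * f⁻¹ * g) := by
    intro c; group
  have hmem : ∀ c : Kˣ, f * hG hD s (c : K) * f⁻¹ ∈ D.group K := fun c =>
    Subgroup.mul_mem _ (Subgroup.mul_mem _ hf (hG_mem_group hD _ _)) (Subgroup.inv_mem _ hf)
  have key : ∀ c : Kˣ, ((g'⁻¹ * f * hG hD s (c : K) * (f⁻¹ * g) : GL D.Idx K) : Matrix D.Idx D.Idx K) (iB hD) (iT hD) ≠ 0 ↔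
      Opp (cj (f * hG hD s (c : K) * f⁻¹) A) B := by
    intro c
    rw [e, hA, hB, ← cj_mul]
    have h2 := opp_iff_del hD (Subgroup.mul_mem _ (hmem c) hg) hg'
    constructor
    · intro h3
      exact (h2.2 h3).symm hD
    · intro h3
      exact h2.1 (h3.symm hD)
  refine h1.eq_top (s := 2) (c₀ := 1) ?_ ?_ ?_ S fun c hc => hS c ((key c).1 hc)
  · rw [key]
    have e1 : hG hD s ((1 : Kˣ) : K) = 1 := by
      apply Units.ext
      rw [hG_entry hD hs.1]
      simp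
    rw [e1, mul_one, mul_inv_cancel, cj_one]
    exact h
  · intro d hd hd1
    have hc : 0 < Fintype.card K - 1 := by
      rw [Nat.card_eq_fintype_card] at hK
      omega
    have := Nat.pos_of_dvd_of_pos hd hc
    omega
  · rw [Nat.card_eq_fintype_card] at hK
    omega

/-! ### commutators with the torus -/

/-- the elements of `A` are commutators -/
theorem exists_comm (hD : InList D) {c : K} (hc0 : c ≠ 0) (hc2 : c ^ 2 ≠ 1) {g a : GL D.Idx K}
    (ha : a ∈ cj g (XT D K)) : ∃ a' ∈ cj g (XT D K),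
      a = a' * (g * hG hD (top D) c * g⁻¹ * a' * (g * hG hD (top D) c * g⁻¹)⁻¹)⁻¹ := by
  obtain ⟨x, hx, rfl⟩ := ha
  obtain ⟨t, rfl⟩ := (mem_rootSubgroup_iff hD _ _).1 hx
  refine ⟨g * xG hD (top D) (t / (1 - c ^ 2)) * g⁻¹, conj_mem_cj (xG_mem_rootSubgroup hD _ _), ?_⟩
  show g * xG hD (top D) t * g⁻¹ = _
  have h1 := Sz.hG_conj_xG hD (top_lt hD) hc0 (top_lt hD) (t / (1 - c ^ 2))
  rw [car_top hD] at h1
  have hne : (1 : K) - c ^ 2 ≠ 0 := sub_ne_zero.2 (Ne.symm hc2)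
  have h2 : xG hD (top D) t = xG hD (top D) (t / (1 - c ^ 2)) *
      (hG hD (top D) c * xG hD (top D) (t / (1 - c ^ 2)) * (hG hD (top D) c)⁻¹)⁻¹ := by
    rw [h1, xG_inv, xG_add]
    congr 1
    rw [show (c : K) ^ (2 : ℤ) = c ^ 2 from by norm_cast]
    field_simp
    ring
  rw [h2]
  group

/-- a subgroup normalised by `A` and containing the torus `h_{A,B}` contains `A` -/
theorem le_of_torus (hD : InList D) {c : K} (hc0 : c ≠ 0) (hc2 : c ^ 2 ≠ 1) {g : GL D.Idx K}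
    {N : Subgroup (GL D.Idx K)} (hN : cj g (XT D K) ≤ Subgroup.normalizer (N : Set (GL D.Idx K)))
    (hc : g * hG hD (top D) c * g⁻¹ ∈ N) : cj g (XT D K) ≤ N := by
  intro a ha
  obtain ⟨a', ha', e⟩ := exists_comm hD hc0 hc2 ha
  set h := g * hG hD (top D) c * g⁻¹ with hh
  have e2 : a' * (h * a' * h⁻¹)⁻¹ = (a' * h * a'⁻¹) * h⁻¹ := by group
  rw [e, e2]
  exact N.mul_mem ((Subgroup.mem_normalizer_iff.1 (hN ha') h).1 hc) (N.inv_mem hc)

/-- the torus of an opposite pair -/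
theorem hG_mem_sup (hD : InList D) (c : K) (g : GL D.Idx K) :
    g * hG hD (top D) c * g⁻¹ ∈ cj g (XT D K) ⊔ cj g (XB D K) := by
  rw [← cj_sup]
  exact conj_mem_cj (hG_top_mem hD c)

end Cfsg.Agent.H927.Sz
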