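import Cfsg.Agent.H927.SzRoot

/-!
# Non-opposite long root subgroups generate a `p`-group (S2539, part 1)
-/

set_option autoImplicit false

namespace Cfsg.Agent.H927.Sz

open Cfsg.Lie Cfsg.Agent.ChevalleyStructure Cfsg.Agent.ChevalleyStructure.RootCombGood
  Cfsg.Agent.ChevalleyStructure.RootWord Cfsg.Agent.ChevalleyStructure.RootVec
  Cfsg.Agent.ChevalleyStructure.RootVecTab Cfsg.Agent.ChevalleyStructure.RootSupport
  Cfsg.Agent.ChevalleyStructure.Elts Cfsg.Agent.ChevalleyStructure.BruhatSplit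
  Cfsg.Agent.H86.Lev Cfsg.Agent.H86.Graded Cfsg.Agent.H86.Par Cfsg.Agent.H92.ChevCent

universe u

variable {D : ChevalleyDatum} {K : Type u} [Field K]

theorem xG_pow (hD : InList D) (r : ℕ) (t : K) (n : ℕ) : xG hD r t ^ n = xG hD r (n * t) := by
  induction n with
  | zero => rw [pow_zero, Nat.cast_zero, zero_mul, xG_zero]
  | succ n ih => rw [pow_succ, ih, xG_add, Nat.cast_succ, add_mul, one_mul]

theorem root_isPGroup (hD : InList D) (p : ℕ) [CharP K p] (r : ℕ) : IsPGroup p (D.rootSubgroup K r) := by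
  rintro ⟨x, hx⟩
  obtain ⟨t, rfl⟩ := (mem_rootSubgroup_iff hD _ _).1 hx
  refine ⟨1, Subtype.ext ?_⟩
  show xG hD r t ^ p ^ 1 = 1
  rw [pow_one, xG_pow, CharP.cast_eq_zero, zero_mul, xG_zero]

theorem IsPGroup_cj {G : Type*} [Group G] {p : ℕ} {A : Subgroup G} (h : IsPGroup p A) (g : G) :
    IsPGroup p (cj g A) := h.map _

theorem LR.isPGroup (hD : InList D) (p : ℕ) [CharP K p] {A : Subgroup (GL D.Idx K)} (h : LR D K A) :
    IsPGroup p A := by
  obtain ⟨g, -, rfl⟩ := h
  exact IsPGroup_cj (root_isPGroup hD p _) g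

theorem root_le_normalizer (hD : InList D) {r : ℕ} {Y : Subgroup (GL D.Idx K)}
    (h : ∀ t : K, ∀ x ∈ Y, xG hD r t * x * (xG hD r t)⁻¹ ∈ Y) :
    D.rootSubgroup K r ≤ Subgroup.normalizer (Y : Set (GL D.Idx K)) := by
  intro g hg
  obtain ⟨t, rfl⟩ := (mem_rootSubgroup_iff hD _ _).1 hg
  refine mem_normalizer_of (h t) (fun x hx => ?_)
  have := h (-t) x hx
  rwa [← xG_inv, inv_inv] at this

/-- `X_a` and `X_β`, `β ≠ -a` long, generate a `p`-group -/
theorem top_root_isPGroup (hD : InList D) (p : ℕ) [CharP K p] {β : ℕ} (hl : IsLong D β) (h0 : β ≠ 0) :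
    IsPGroup p (XT D K ⊔ D.rootSubgroup K β : Subgroup (GL D.Idx K)) := by
  have G := good hD
  have hc := checked_of_mem hD
  obtain ⟨isL, H⟩ := exists_hip hD
  have hβ := hl.1
  have h1 := (hiT hD).low β hβ
  rcases (show 0 ≤ car D (top D) β ∨ car D (top D) β = -1 ∨ car D (top D) β = -2 by omega) with h | h | h
  · refine IsPGroup.to_sup_of_normal_right' (root_isPGroup hD p _) (root_isPGroup hD p _) ?_
    refine root_le_normalizer hD fun t x hx => ?_
    obtain ⟨u, rfl⟩ := (mem_rootSubgroup_iff hD _ _).1 hx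
    rw [← comm_top0 hD hβ h u t, mul_inv_cancel_right]
    exact hx
  · obtain ⟨γ, c, hcom, hc1, hγL, hcom'⟩ := chkLong_spec (H.long β hβ ((isLong_iff hD H hβ).1 hl) h)
    obtain ⟨hγ, -, -, hlev⟩ := commTerms_lin hc (lin_car hc (top D)) (r := top D) (s := β) (c := (γ, c, 1, 1))
      (by rw [hcom]; exact List.mem_singleton_self _)
    simp only [Nat.cast_one, one_mul, car_top hD, h] at hlev
    have hlev' : car D (top D) γ = 1 := by
      show car D (top D) (γ, c, 1, 1).1 = 1
      rw [hlev]; norm_num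
    clear hlev
    replace hγ : γ < D.nroots := hγ
    have hβγ : ∀ u v : K, xG hD γ v * xG hD β u = xG hD β u * xG hD γ v := by
      intro u v
      have hne1 : γ ≠ β := by rintro rfl; omega
      have hne2 : γ ≠ D.neg β := by
        rintro rfl
        have h2 := commTerms_rt hc (r := top D) (s := β) (u := D.neg β) (C := c) (i := 1) (j := 1)
          (by rw [hcom]; exact List.mem_singleton_self _)
        obtain ⟨h3, h4, h5, -, -, h6⟩ := h2
        have h7 := lin_car hc β (top D) β (D.neg β) (-2) 0 (top_lt hD) hβ h3 (fun i _ => by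
          have h8 := h6 i
          rw [rt_neg hc hβ] at h8
          push_cast at h8
          linarith)
        have h9 := G.car_self hβ
        have h10 : car D β (top D) = -4 := by rw [h7, h9]; norm_num
        have h11 := (hl.car_bound hD (top_lt hD)).1
        omega
      rw [UnipProd.xG_comm hD hβ hγ hne1 hne2]
      have : D.commWord K β γ u v = [] := by
        unfold ChevalleyDatum.commWord
        rw [hcom']; rfl
      rw [this, wordG_nil, mul_one]
    have hY : IsPGroup p (D.rootSubgroup K β ⊔ D.rootSubgroup K γ : Subgroup (GL D.Idx K)) := by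
      refine IsPGroup.to_sup_of_normal_right' (root_isPGroup hD p _) (root_isPGroup hD p _) ?_
      refine root_le_normalizer hD fun t x hx => ?_
      obtain ⟨u, rfl⟩ := (mem_rootSubgroup_iff hD _ _).1 hx
      rw [← hβγ, mul_inv_cancel_right]
      exact hx
    have hZ : IsPGroup p (XT D K ⊔ (D.rootSubgroup K β ⊔ D.rootSubgroup K γ) : Subgroup (GL D.Idx K)) := by
      refine IsPGroup.to_sup_of_normal_right' (root_isPGroup hD p _) hY ?_
      refine root_le_normalizer hD fun t x hx => ?_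
      have hle : D.rootSubgroup K β ⊔ D.rootSubgroup K γ ≤
          (D.rootSubgroup K β ⊔ D.rootSubgroup K γ).comap (MulAut.conj (xG hD (top D) t)).toMonoidHom := by
        refine sup_le ?_ ?_
        · intro y hy
          obtain ⟨u, rfl⟩ := (mem_rootSubgroup_iff hD _ _).1 hy
          show xG hD (top D) t * xG hD β u * (xG hD (top D) t)⁻¹ ∈ D.rootSubgroup K β ⊔ D.rootSubgroup K γ
          have h3 := long_comm hD hβ h hcom (-t) u
          have h4 : xG hD (top D) t * xG hD β u * (xG hD (top D) t)⁻¹ =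
              xG hD β u * xG hD γ ((c : K) * (- -t) * u) := by
            rw [xG_inv, mul_assoc, h3, ← mul_assoc, ← mul_assoc, xG_add, add_neg_cancel, xG_zero, one_mul]
          rw [h4]
          exact Subgroup.mul_mem _ ((le_sup_left : D.rootSubgroup K β ≤ _) (xG_mem_rootSubgroup hD _ _))
            ((le_sup_right : D.rootSubgroup K γ ≤ _) (xG_mem_rootSubgroup hD _ _))
        · intro y hy
          obtain ⟨u, rfl⟩ := (mem_rootSubgroup_iff hD _ _).1 hy
          show xG hD (top D) t * xG hD γ u * (xG hD (top D) t)⁻¹ ∈ D.rootSubgroup K β ⊔ D.rootSubgroup K γ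
          rw [← comm_top0 hD hγ (by omega) u t, mul_inv_cancel_right]
          exact (le_sup_right : D.rootSubgroup K γ ≤ _) hy
      exact hle hx
    exact hZ.to_le (sup_le_sup_left le_sup_left _)
  · exfalso
    apply h0
    refine (hi0 hD).top β hβ ?_
    rw [car0 hD, h]; norm_num

/-- Bruhat decomposition for pairs: `(X_a, g X_a g⁻¹) = (X_a, b X_β b⁻¹)` -/
theorem exists_rel (hD : InList D) {g : GL D.Idx K} (hg : g ∈ D.group K) :
    ∃ b ∈ P K D, ∃ β, IsLong D β ∧ cj g (XT D K) = cj b (D.rootSubgroup K β) := by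
  obtain ⟨b, hb, n, hn, b', hb', rfl⟩ := Cfsg.Agent.S1100.exists_bruhat hD hg
  have hbP := borel_le_P (F := K) hD hb
  have hbP' := borel_le_P (F := K) hD hb'
  obtain ⟨w, hw, hact⟩ := exists_acts hD hn
  refine ⟨b, hbP, wact D w (top D), (isLong_top hD).map hD hw, ?_⟩
  rw [cj_mul, P_cj_XT hbP', cj_mul, Acts.cj_eq hact (top_lt hD)]

/-- **non-opposite long root subgroups generate a `p`-group** -/
theorem isPGroup_of_not_opp (hD : InList D) (p : ℕ) [CharP K p] {A B : Subgroup (GL D.Idx K)}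
    (hA : LR D K A) (hB : LR D K B) (h : ¬ Opp A B) : IsPGroup p (A ⊔ B : Subgroup (GL D.Idx K)) := by
  obtain ⟨g, hg, rfl⟩ := hA
  obtain ⟨g', hg', rfl⟩ := hB
  obtain ⟨b, hb, β, hβ, e⟩ := exists_rel hD (Subgroup.mul_mem _ (Subgroup.inv_mem _ hg) hg')
  have h0 : β ≠ 0 := by
    rintro rfl
    apply h
    obtain ⟨q, hq, l, hl, rfl⟩ := P_decomp hD hb
    have h1 := (opp_of_Q hD hq).cj hg
    have hl2 : cj l (XB D K) = XB D K := cj_eq_self_iff.2 hl.2
    rw [cj_mul q, show cj l (D.rootSubgroup K 0) = XB D K from hl2] at e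
    rw [← e, ← cj_mul, mul_inv_cancel_left] at h1
    exact h1
  have h1 : cj g (XT D K) ⊔ cj g' (XT D K) = cj (g * b) (XT D K ⊔ D.rootSubgroup K β) := by
    rw [cj_sup, cj_mul g b (XT D K), P_cj_XT hb, cj_mul g b, ← e, ← cj_mul g, mul_inv_cancel_left]
  rw [h1]
  exact IsPGroup_cj (top_root_isPGroup hD p hβ h0) _

end Cfsg.Agent.H927.Sz
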