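import Cfsg.Agent.H927.SzMouf
import Cfsg.Agent.S1038

/-!
# Long roots, and the Moufang step for torus invariant subgroups (S2539, part 1)
-/

set_option autoImplicit false

namespace Cfsg.Agent.H927.Sz

open Cfsg.Lie Cfsg.Agent.ChevalleyStructure Cfsg.Agent.ChevalleyStructure.RootCombGood
  Cfsg.Agent.ChevalleyStructure.RootWord Cfsg.Agent.ChevalleyStructure.RootVec
  Cfsg.Agent.ChevalleyStructure.RootVecTab Cfsg.Agent.ChevalleyStructure.RootSupport
  Cfsg.Agent.ChevalleyStructure.Elts Cfsg.Agent.ChevalleyStructure.BruhatSplit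
  Cfsg.Agent.H86.Lev Cfsg.Agent.H86.Graded Cfsg.Agent.H86.Par Cfsg.Agent.H92.ChevCent

universe u

variable {D : ChevalleyDatum} {K : Type u} [Field K]

/-- `r` is a long root: conjugate to the highest root -/
def IsLong (D : ChevalleyDatum) (r : ℕ) : Prop :=
  r < D.nroots ∧ ∃ w : List ℕ, (∀ a ∈ w, a < D.rank) ∧ wact D w r = top D

theorem isLong_top (hD : InList D) : IsLong D (top D) := ⟨top_lt hD, [], by simp, rfl⟩

theorem isLong_zero (hD : InList D) : IsLong D 0 := by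
  obtain ⟨w, hw, h1, h2⟩ := exists_refl_word hD (top_lt hD)
  rw [neg_top hD] at h2
  exact ⟨zero_lt hD, w, hw, h2⟩

theorem IsLong.map (hD : InList D) {r : ℕ} (h : IsLong D r) {v : List ℕ} (hv : ∀ a ∈ v, a < D.rank) :
    IsLong D (wact D v r) := by
  have G := good hD
  obtain ⟨hr, w, hw, e⟩ := h
  have hvr : ∀ a ∈ v.reverse, a < D.rank := fun a ha => hv a (by simpa using ha)
  refine ⟨wact_lt G hv hr, w ++ v.reverse, ?_, ?_⟩
  · intro a ha
    rcases List.mem_append.1 ha with h | h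
    · exact hw a h
    · exact hvr a h
  · rw [wact_append, wact_reverse G hv hr, e]

theorem IsLong.neg (hD : InList D) {r : ℕ} (h : IsLong D r) : IsLong D (D.neg r) := by
  obtain ⟨w, hw, h1, -⟩ := exists_refl_word hD h.1
  rw [← h1]
  exact h.map hD hw

theorem isLong_iff (hD : InList D) {isL : ℕ → Bool} (H : HiP D isL) {r : ℕ} (hr : r < D.nroots) :
    IsLong D r ↔ isL r = true := by
  constructor
  · rintro ⟨-, w, hw, e⟩
    have hwr : ∀ a ∈ w.reverse, a < D.rank := fun a ha => hw a (by simpa using ha)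
    have := wact_isL hD H w.reverse (top D) hwr (top_lt hD) H.isL_top
    rwa [← e, wact_reverse (good hD) hw hr] at this
  · intro h
    obtain ⟨w, hw, e⟩ := long_to_top hD H _ r rfl hr h
    exact ⟨hr, w, hw, e⟩

theorem IsLong.car_bound (hD : InList D) {r : ℕ} (h : IsLong D r) {s : ℕ} (hs : s < D.nroots) :
    -2 ≤ car D r s ∧ car D r s ≤ 2 := by
  obtain ⟨hr, w, hw, e⟩ := h
  have h1 := car_wact (good hD) hw hr hs
  rw [e] at h1
  rw [← h1]
  exact ⟨(hiT hD).low _ (wact_lt (good hD) hw hs), (hiT hD).high _ (wact_lt (good hD) hw hs)⟩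

theorem IsLong.eq_of_car (hD : InList D) {r : ℕ} (h : IsLong D r) {s : ℕ} (hs : s < D.nroots)
    (h2 : car D r s = 2) : s = r := by
  obtain ⟨hr, w, hw, e⟩ := h
  have h1 := car_wact (good hD) hw hr hs
  rw [e] at h1
  have h3 := (hiT hD).top _ (wact_lt (good hD) hw hs) (h1.trans h2)
  exact wact_inj (good hD) hw hs hr (h3.trans e.symm)

/-- `N` moves a long root to the top -/
theorem IsLong.exists_n (hD : InList D) (K : Type u) [Field K] {r : ℕ} (h : IsLong D r) :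
    ∃ n ∈ D.monomialSubgroup K, ∃ w : List ℕ, (∀ a ∈ w, a < D.rank) ∧ Acts n w ∧ wact D w r = top D ∧
      wact D w (D.neg r) = 0 := by
  obtain ⟨hr, w, hw, e⟩ := h
  obtain ⟨n, hn, hact⟩ := exists_NL_acts hD K w hw
  refine ⟨n, NL_le D hn, w, hw, hact, e, ?_⟩
  rw [wact_neg (good hD) hw hr, e, neg_top hD]

theorem Acts.cj_eq {n : GL D.Idx K} {w : List ℕ} (h : Acts n w) {r : ℕ} (hr : r < D.nroots) :
    cj n (D.rootSubgroup K r) = D.rootSubgroup K (wact D w r) := h r hr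

/-- action of `N` on the groups `Q` -/
theorem cj_Q (hD : InList D) {n : GL D.Idx K} {w : List ℕ} (hw : ∀ a ∈ w, a < D.rank) (hact : Acts n w) {β : ℕ}
    (hβ : β < D.nroots) : cj n (Q D K β) = Q D K (wact D w β) := by
  have G := good hD
  have key : ∀ (n : GL D.Idx K) (w : List ℕ), (∀ a ∈ w, a < D.rank) → Acts n w → ∀ β < D.nroots,
      cj n (Q D K β) ≤ Q D K (wact D w β) := by
    intro n w hw hact β hβ
    rw [cj_le_iff, Q_le_iff hD]
    intro r hr h t
    rw [mem_cj, inv_inv]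
    obtain ⟨t', e⟩ := acts_conj hD hact hr t
    rw [e]
    refine xG_mem_Q hD (wact_lt G hw hr) ?_ t'
    rw [car_wact G hw hβ hr]
    exact h
  refine le_antisymm (key n w hw hact β hβ) ?_
  have hwr : ∀ a ∈ w.reverse, a < D.rank := fun a ha => hw a (by simpa using ha)
  have := key n⁻¹ w.reverse hwr (Acts.inv G hact hw) (wact D w β) (wact_lt G hw hβ)
  rw [wact_reverse G hw hβ] at this
  have h2 := cj_mono (g := n) this
  rwa [cj_cj_inv] at h2

theorem mono_cj_T (hD : InList D) {n : GL D.Idx K} (hn : n ∈ D.monomialSubgroup K) :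
    cj n (D.diagonalSubgroup K) = D.diagonalSubgroup K := by
  have h := Cfsg.Agent.S1038.result (F := K) D hD
  have key : ∀ n ∈ D.monomialSubgroup K, cj n (D.diagonalSubgroup K) ≤ D.diagonalSubgroup K := by
    intro n hn x hx
    rw [mem_cj] at hx
    have hN := diagonal_le_monomial D K hx
    have h2 := h.conj_mem ⟨n⁻¹ * x * n, hN⟩ hx ⟨n, hn⟩
    have e : n * (n⁻¹ * x * n) * n⁻¹ = x := by group
    have h3 : n * (n⁻¹ * x * n) * n⁻¹ ∈ D.diagonalSubgroup K := h2
    rwa [e] at h3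
  refine le_antisymm (key n hn) ?_
  have := cj_mono (g := n) (key n⁻¹ (Subgroup.inv_mem _ hn))
  rwa [cj_cj_inv] at this

/-! ### root subgroups as long root subgroups -/

theorem IsLong.lr (hD : InList D) (K : Type u) [Field K] {r : ℕ} (h : IsLong D r) : LR D K (D.rootSubgroup K r) := by
  obtain ⟨n, hn, w, hw, hact, e, -⟩ := h.exists_n hD K
  refine ⟨n⁻¹, Subgroup.inv_mem _ (monomial_le_group hD K hn), ?_⟩
  rw [← cj_eq_iff, Acts.cj_eq hact h.1, e]

theorem IsLong.opp (hD : InList D) (K : Type u) [Field K] {r : ℕ} (h : IsLong D r) :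
    Opp (D.rootSubgroup K r) (D.rootSubgroup K (D.neg r)) := by
  obtain ⟨n, hn, w, hw, hact, e, e'⟩ := h.exists_n hD K
  refine ⟨n⁻¹, Subgroup.inv_mem _ (monomial_le_group hD K hn), ?_, ?_⟩
  · rw [← cj_eq_iff, Acts.cj_eq hact h.1, e]
  · rw [← cj_eq_iff, Acts.cj_eq hact (RootWord.neg_lt (good hD) h.1), e']

/-- torus invariant case, standard position -/
theorem torus_aux (hD : InList D) [Finite K] {c : K} (hc0 : c ≠ 0) (hc1 : c ≠ 1) (hc2 : c ^ 2 ≠ 1)
    {F : Subgroup (GL D.Idx K)} (hT : D.diagonalSubgroup K ≤ F) (hA : XT D K ≤ F) {q : GL D.Idx K}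
    (hq : q ∈ Q D K (top D)) (hB : cj q (XB D K) ≤ F) : q ∈ F := by
  have hh : hG hD (top D) c ∈ F := hT (hG_mem_diagonal hD (top_lt hD) hc0)
  have hn : cj (hG hD (top D) c) (XB D K) = XB D K := acts_of_mem_diagonal hD (good hD)
    (hG_mem_diagonal hD (top_lt hD) hc0) 0 (zero_lt hD)
  have h1 : cj (hG hD (top D) c * q * (hG hD (top D) c)⁻¹) (XB D K) ≤ F := by
    have h2 := cj_le_of_mem hh hB
    rw [← cj_mul] at h2
    have e : hG hD (top D) c * q = hG hD (top D) c * q * (hG hD (top D) c)⁻¹ * hG hD (top D) c := by group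
    rw [e, cj_mul, hn] at h2
    exact h2
  have hq2 := hG_conj_Q hD hc0 hq
  have hQX := Q_cj_XT (K := K) hD hq
  obtain ⟨v, hv, e, hv2⟩ := moufang hD hc0 hc1 hc2 hA hB h1 (opp_of_Q hD hq) (opp_of_Q hD hq2)
  have hvQ : v ∈ Q D K (top D) := by
    have := hv2 q (Q_le_group hD hq) hQX.symm
    rwa [cj_of_mem hq] at this
  rw [← cj_mul] at e
  have e2 := Q_unique hD hq2 (Subgroup.mul_mem _ hvQ hq) e
  have h1 : q⁻¹ ∈ F ⊓ Q D K (top D) := by
    refine mem_of_comm (Q := Q D K (top D)) inf_le_right (h := hG hD (top D) c)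
      (fun v hv h => Q_fix hD hc0 hc1 hc2 hv h) (fun v hv => ?_) (Subgroup.inv_mem _ hq) ?_
    · exact ⟨F.mul_mem (F.mul_mem hh hv.1) (F.inv_mem hh), hG_conj_Q hD hc0 hv.2⟩
    · have e3 : (q⁻¹)⁻¹ * (hG hD (top D) c * q⁻¹ * (hG hD (top D) c)⁻¹) =
          q * (hG hD (top D) c * q * (hG hD (top D) c)⁻¹)⁻¹ := by group
      have e4 : q * (v * q)⁻¹ = v⁻¹ := by group
      rw [e3, e2, e4]
      exact ⟨F.inv_mem hv, Subgroup.inv_mem _ hvQ⟩
  have := F.inv_mem h1.1
  rwa [inv_inv] at this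

/-- **torus invariant case**: `T, X_r, B ≤ F`, `B` opposite to `X_r` -/
theorem torus_moufang (hD : InList D) [Finite K] {c : K} (hc0 : c ≠ 0) (hc1 : c ≠ 1) (hc2 : c ^ 2 ≠ 1)
    {F B : Subgroup (GL D.Idx K)} (hT : D.diagonalSubgroup K ≤ F) {r : ℕ} (hr : IsLong D r)
    (hA : D.rootSubgroup K r ≤ F) (hB : B ≤ F) (hopp : Opp (D.rootSubgroup K r) B) :
    D.rootSubgroup K (D.neg r) ≤ F ∧ ∃ v ∈ F, v ∈ Q D K r ∧ B = cj v (D.rootSubgroup K (D.neg r)) := by
  obtain ⟨n, hn, w, hw, hact, e, e'⟩ := hr.exists_n hD K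
  have hng := monomial_le_group hD K hn
  have h1 := hopp.cj hng
  have h2 : cj n (D.rootSubgroup K r) = XT D K := by rw [Acts.cj_eq hact hr.1, e]
  have h2' : cj n (D.rootSubgroup K (D.neg r)) = XB D K := by
    rw [Acts.cj_eq hact (RootWord.neg_lt (good hD) hr.1), e']
  rw [h2] at h1
  obtain ⟨q, hq, e3⟩ := exists_Q_of_opp hD h1
  have h4 : q ∈ cj n F := by
    refine torus_aux hD hc0 hc1 hc2 ?_ ?_ hq ?_
    · rw [← mono_cj_T hD hn]; exact cj_mono hT
    · rw [← h2]; exact cj_mono hA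
    · rw [← e3]; exact cj_mono hB
  rw [mem_cj] at h4
  have h5 : cj (n⁻¹ * q * n) (D.rootSubgroup K (D.neg r)) = B := by
    rw [mul_assoc, cj_mul, cj_mul, h2', ← e3, cj_inv_cj]
  refine ⟨?_, n⁻¹ * q * n, h4, ?_, h5.symm⟩
  · have := cj_le_of_mem (F.inv_mem h4) hB
    rwa [← h5, cj_inv_cj] at this
  · have := cj_Q (K := K) hD hw hact hr.1
    rw [e] at this
    have h6 : q ∈ cj n (Q D K r) := by rw [this]; exact hq
    rwa [mem_cj] at h6

end Cfsg.Agent.H927.Sz
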